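import Cfsg.Agent.H85.Comm
import Cfsg.Agent.H3.PGroup
import Cfsg.Agent.H83.ClassSize
import Cfsg.Agent.H85.SylowCount

/-! `p`-groups with small abelianization. -/

set_option autoImplicit false

namespace Cfsg.Agent.H85

open Subgroup
open scoped commutatorElement

variable {G : Type*} [Group G] [Finite G] {p : ℕ}

omit [Finite G] in
theorem commutator_le_of_sup_zpowers {R : Subgroup G} [R.Normal] {x : G}
    (h : R ⊔ zpowers x = ⊤) : commutator G ≤ R := by
  refine commutator_le_of_closure_eq_top (s := (R : Set G) ∪ {x}) ?_ R ?_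
  · rw [Subgroup.closure_union, Subgroup.closure_eq, ← zpowers_eq_closure, h]
  · rintro a (ha | rfl) b (hb | rfl)
    · exact commutator_le_left R ⊤ (commutator_mem_commutator ha (mem_top _))
    · exact commutator_le_left R ⊤ (commutator_mem_commutator ha (mem_top _))
    · exact commutator_le_right ⊤ R (commutator_mem_commutator (mem_top _) hb)
    · rw [commutatorElement_self]; exact one_mem _

theorem eq_top_of_sup_commutator [Fact p.Prime] (hG : IsPGroup p G) {R : Subgroup G}
    (h : R ⊔ commutator G = ⊤) : R = ⊤ :=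
  frattini_nongenerating (eq_top_iff.mpr (h.ge.trans
    (sup_le_sup_left (H3.commutator_le_frattini hG) _)))

theorem commutator_le_of_index_sup_dvd [hp : Fact p.Prime] (hG : IsPGroup p G) {R : Subgroup G}
    [R.Normal] (h : (R ⊔ commutator G).index ∣ p) : commutator G ≤ R := by
  rcases (Nat.dvd_prime hp.out).mp h with h | h
  · rw [eq_top_of_sup_commutator hG (index_eq_one.mp h)]; exact le_top
  · obtain ⟨x, hx⟩ : ∃ x, x ∉ R ⊔ commutator G := by
      by_contra hc
      push Not at hc
      rw [(eq_top_iff' _).mpr hc, index_top] at h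
      exact hp.out.one_lt.ne h
    have h1 := sup_zpowers_eq_top_of_index_prime hp.out h hx
    rw [sup_right_comm] at h1
    exact commutator_le_of_sup_zpowers (eq_top_of_sup_commutator hG h1)

theorem commutator_eq_bot_of_index_dvd [hp : Fact p.Prime] (hG : IsPGroup p G)
    (h : (commutator G).index ∣ p) : commutator G = ⊥ :=
  le_bot_iff.mp (commutator_le_of_index_sup_dvd hG (by rwa [bot_sup_eq]))

theorem eq_top_or_index_eq [hp : Fact p.Prime] (hG : IsPGroup p G)
    (h : (commutator G).index = p ^ 2) {R : Subgroup G} [R.Normal] (hR : ¬ R ≤ commutator G) :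
    R = ⊤ ∨ R.index = p := by
  have h1 := relIndex_mul_index (le_sup_right : commutator G ≤ R ⊔ commutator G)
  have h2 : (R ⊔ commutator G).index ∣ p := by
    obtain ⟨j, hj, hj'⟩ := (Nat.dvd_prime_pow hp.out).mp (h ▸ Dvd.intro_left _ h1)
    rw [hj']
    interval_cases j
    · simp
    · simp
    · rw [hj', h, mul_eq_right₀ (pow_pos hp.out.pos _).ne', relIndex_eq_one] at h1
      exact (hR (le_sup_left.trans h1)).elim
  rw [sup_eq_left.mpr (commutator_le_of_index_sup_dvd hG h2), Nat.dvd_prime hp.out] at h2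
  exact h2.imp_left index_eq_one.mp

theorem index_commutator_le_card_centralizer (x : G) :
    (commutator G).index ≤ Nat.card (centralizer ({x} : Set G)) := by
  have h1 : (centralizer ({x} : Set G)).index ≤ Nat.card (commutator G) := by
    rw [← H83.card_isConj]
    refine Nat.card_le_card_of_injective (fun y => ⟨y.1 * x⁻¹, ?_⟩) fun y z h => ?_
    · obtain ⟨g, hg⟩ := isConj_iff.mp y.2
      rw [← hg]
      exact commutator_mem_commutator (mem_top g) (mem_top x)
    · exact Subtype.ext (mul_right_cancel (congrArg Subtype.val h :))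
  have h2 := (commutator G).index_mul_card
  rw [← (centralizer ({x} : Set G)).card_mul_index] at h2
  refine Nat.le_of_mul_le_mul_right ?_ (Nat.card_pos (α := commutator G))
  rw [h2]
  exact Nat.mul_le_mul_left _ h1

theorem card_centralizer_eq_index {R : Subgroup G} [R.Normal] (hR : ⁅R, R⁆ = ⊥) {x : G}
    (hx : R ⊔ zpowers x = ⊤) :
    Nat.card (centralizer ({x} : Set G)) = (commutator G).index := by
  have h1 := index_commutator_mul_card R hx
  rw [hR, card_bot, mul_one] at h1
  have h2 : R.relIndex (centralizer ({x} : Set G)) = R.index := by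
    rw [← relIndex_sup_right, sup_comm, eq_top_iff.mpr (hx.ge.trans
      (sup_le_sup_left (H83.zpowers_le_cent x) R)), relIndex_top_right]
  rw [h1, ← h2, relIndex, ← (R.subgroupOf (centralizer ({x} : Set G))).index_mul_card]
  congr 1
  refine Nat.card_congr ⟨fun y => ⟨⟨y.1.1, y.2⟩, ?_⟩, fun y => ⟨⟨y.1.1, ?_⟩, y.1.2⟩,
    fun _ => rfl, fun _ => rfl⟩
  · rw [mem_bot, commutatorElement_eq_one_iff_mul_comm]
    exact (H83.mem_cent.mp y.1.2).symm
  · have := y.2
    rw [mem_bot, commutatorElement_eq_one_iff_mul_comm] at this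
    exact H83.mem_cent.mpr this.symm

omit [Finite G] in
/-- The norm trick. -/
theorem mem_of_norm {R : Subgroup G} [hRn : R.Normal] {x : G} (hx : R ⊔ zpowers x = ⊤) {n : ℕ}
    (hn : x ^ (n + 1) ∈ R) {T : Subgroup G} (hT : ⁅R, R⁆ ≤ T) {a : G} (ha : a ∈ R)
    (ha' : a ∈ commutator G) (h : ∀ i, i < n → x ^ (i + 1) * a * (x ^ (i + 1))⁻¹ ∈ T) : a ∈ T := by
  have hc : commutator R ≤ T.subgroupOf R := by
    rw [subgroupOf, ← map_le_iff_le_comap, map_subtype_commutator]
    exact hT
  let φ : R →* Abelianization R ⧸ (T.subgroupOf R).map Abelianization.of :=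
    (QuotientGroup.mk' _).comp Abelianization.of
  have hφ : ∀ r : R, φ r = 1 ↔ (r : G) ∈ T := fun r => by
    change QuotientGroup.mk _ = 1 ↔ _
    rw [QuotientGroup.eq_one_iff, ← mem_comap, comap_map_eq, Abelianization.ker_of,
      sup_eq_left.mpr hc, mem_subgroupOf]
  let c : ℕ → R →* R := fun i => (MulAut.conjNormal (H := R) (x ^ i)).toMonoidHom
  have hc1 : ∀ i r, c i (c 1 r) = c (i + 1) r := fun i r => Subtype.ext (by
    change x ^ i * (x ^ 1 * r * (x ^ 1)⁻¹) * (x ^ i)⁻¹ = x ^ (i + 1) * r * (x ^ (i + 1))⁻¹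
    group)
  have hc0 : ∀ r, c 0 r = r := fun r => Subtype.ext (by
    change x ^ 0 * r * (x ^ 0)⁻¹ = r
    group)
  let ψ : R →* Abelianization R ⧸ (T.subgroupOf R).map Abelianization.of :=
    ∏ i ∈ Finset.range (n + 1), φ.comp (c i)
  have hψ : ∀ r, ψ r = ∏ i ∈ Finset.range (n + 1), φ (c i r) := fun r =>
    MonoidHom.finsetProd_apply _ _ _
  have hinv : ∀ r, ψ (c 1 r) = ψ r := fun r => by
    rw [hψ, hψ, Finset.prod_range_succ, Finset.prod_range_succ', hc0, hc1]
    simp only [hc1]
    congr 1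
    have : c (n + 1) r = ⟨_, hn⟩ * r * (⟨_, hn⟩ : R)⁻¹ := rfl
    rw [this, map_mul, map_mul, map_inv, mul_inv_cancel_comm]
  have h1 : ψ ⟨a, ha⟩ = 1 := by
    obtain ⟨r, hr⟩ : QuotientGroup.mk' ⁅R, R⁆ a ∈ (commHom R x).range :=
      range_commHom R hx ▸ mem_map_of_mem _ ha'
    have h2 : ⁅x, (r : G)⁆⁻¹ * a ∈ ⁅R, R⁆ := QuotientGroup.eq.mp hr
    rw [← map_subtype_commutator] at h2
    obtain ⟨d, hd, hd'⟩ := h2
    have h3 : (⟨a, ha⟩ : R) = c 1 r * r⁻¹ * d := Subtype.ext (by
      change a = x ^ 1 * r * (x ^ 1)⁻¹ * (r : G)⁻¹ * R.subtype d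
      rw [hd', commutatorElement_def]; group)
    have h4 : ψ d = 1 := Abelianization.commutator_subset_ker ψ hd
    rw [h3, map_mul, map_mul, map_inv, hinv, h4, mul_inv_cancel, one_mul]
  rw [hψ, Finset.prod_range_succ', hc0, Finset.prod_eq_one
    (fun i hi => (hφ _).mpr (h i (Finset.mem_range.mp hi))), one_mul, hφ] at h1
  exact h1

end Cfsg.Agent.H85
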