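import Cfsg.Agent.H21.Basic

/-!
The derived subgroup of a group with a normal subgroup `N` with cyclic quotient generated by `x`:
`|G : G'| · |N'| = |G : N| · #{n ∈ N | ⁅x, n⁆ ∈ N'}`.
-/

set_option autoImplicit false

namespace Cfsg.Agent.H85

open Subgroup
open scoped commutatorElement

variable {G : Type*} [Group G]

theorem commutator_le_of_closure_eq_top {s : Set G} (hs : closure s = ⊤) (Z : Subgroup G)
    [Z.Normal] (h : ∀ a ∈ s, ∀ b ∈ s, ⁅a, b⁆ ∈ Z) : commutator G ≤ Z := by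
  rw [← Normal.quotient_commutative_iff_commutator_le]
  have h2 : closure (QuotientGroup.mk' Z '' s) = ⊤ := by
    rw [← MonoidHom.map_closure, hs, map_top_of_surjective _ (QuotientGroup.mk'_surjective Z)]
  have h3 : IsMulCommutative (closure (QuotientGroup.mk' Z '' s)) := by
    refine isMulCommutative_closure ?_
    rintro _ ⟨a, ha, rfl⟩ _ ⟨b, hb, rfl⟩
    rw [← commutatorElement_eq_one_iff_mul_comm, ← map_commutatorElement]
    exact (QuotientGroup.eq_one_iff _).mpr (h a ha b hb)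
  rw [h2] at h3
  exact ⟨⟨fun x y => congrArg Subtype.val (h3.is_comm.comm ⟨x, mem_top x⟩ ⟨y, mem_top y⟩)⟩⟩

/-- the homomorphism `n ↦ ⁅x, n⁆` from `N` to `G / N'`. -/
def commHom (N : Subgroup G) [N.Normal] (x : G) : N →* G ⧸ ⁅N, N⁆ :=
  MonoidHom.mk' (fun n => QuotientGroup.mk ⁅x, (n : G)⁆) fun n m => by
    rw [← QuotientGroup.mk_mul, QuotientGroup.eq]
    have hm : ⁅x, (m : G)⁆ ∈ N := commutator_le_right ⊤ N
      (commutator_mem_commutator (mem_top x) m.2)
    have : ⁅x, ((n * m : N) : G)⁆⁻¹ * (⁅x, (n : G)⁆ * ⁅x, (m : G)⁆) =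
        ⁅(n : G), ⁅x, (m : G)⁆⁻¹⁆ * (⁅x, (m : G)⁆⁻¹ * 1 * ⁅x, (m : G)⁆⁻¹⁻¹) := by
      simp only [commutatorElement_def, Subgroup.coe_mul]; group
    rw [this]
    exact mul_mem (commutator_mem_commutator n.2 (inv_mem hm))
      (Normal.conj_mem inferInstance _ (one_mem _) _)

theorem commHom_apply (N : Subgroup G) [N.Normal] (x : G) (n : N) :
    commHom N x n = QuotientGroup.mk ⁅x, (n : G)⁆ := rfl

theorem range_commHom (N : Subgroup G) [N.Normal] {x : G} (hx : N ⊔ zpowers x = ⊤) :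
    (commHom N x).range = (commutator G).map (QuotientGroup.mk' ⁅N, N⁆) := by
  apply le_antisymm
  · rintro _ ⟨n, rfl⟩
    exact ⟨_, commutator_mem_commutator (mem_top x) (mem_top (n : G)), rfl⟩
  rw [map_le_iff_le_comap]
  set R := (commHom N x).range.comap (QuotientGroup.mk' ⁅N, N⁆) with hR
  have hNR : ⁅N, N⁆ ≤ R := fun y hy => by
    change QuotientGroup.mk' _ y ∈ (commHom N x).range
    rw [QuotientGroup.mk'_apply, (QuotientGroup.eq_one_iff y).mpr hy]
    exact one_mem _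
  have hxR : ∀ n ∈ N, ⁅x, n⁆ ∈ R := fun n hn => ⟨⟨n, hn⟩, rfl⟩
  have hmem : ∀ y ∈ R, ∃ n ∈ N, ∃ c ∈ ⁅N, N⁆, y = ⁅x, n⁆ * c := by
    rintro y ⟨n, hn⟩
    exact ⟨n, n.2, _, QuotientGroup.eq.mp hn, by group⟩
  have hcomm : ∀ n ∈ N, ⁅x, n⁆ ∈ N := fun n hn =>
    commutator_le_right ⊤ N (commutator_mem_commutator (mem_top x) hn)
  have hRn : R.Normal := by
    rw [← normalizer_eq_top_iff, eq_top_iff, ← hx, sup_le_iff, zpowers_le]
    have key : ∀ g : G, (∀ n ∈ N, g * ⁅x, n⁆ * g⁻¹ ∈ R) → ∀ y ∈ R, g * y * g⁻¹ ∈ R := by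
      intro g hg y hy
      obtain ⟨n, hn, c, hc, rfl⟩ := hmem y hy
      have : g * (⁅x, n⁆ * c) * g⁻¹ = g * ⁅x, n⁆ * g⁻¹ * (g * c * g⁻¹) := by group
      rw [this]
      exact mul_mem (hg n hn) (hNR (Normal.conj_mem inferInstance _ hc g))
    have k1 : ∀ g ∈ N, ∀ y ∈ R, g * y * g⁻¹ ∈ R := fun g hg => key g fun n hn => by
      have : g * ⁅x, n⁆ * g⁻¹ = ⁅g, ⁅x, n⁆⁆ * ⁅x, n⁆ := by
        rw [commutatorElement_def g]; group
      rw [this]
      exact mul_mem (hNR (commutator_mem_commutator hg (hcomm n hn))) (hxR n hn)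
    have k2 : ∀ g : G, Commute g x → ∀ y ∈ R, g * y * g⁻¹ ∈ R := fun g hg => key g fun n hn => by
      have : g * ⁅x, n⁆ * g⁻¹ = ⁅g * x * g⁻¹, g * n * g⁻¹⁆ := by
        simp only [commutatorElement_def]; group
      rw [this, hg.eq, mul_inv_cancel_right]
      exact hxR _ (Normal.conj_mem inferInstance _ hn g)
    refine ⟨fun g hg => mem_normalizer_iff.mpr fun y => ⟨k1 g hg y, fun h => ?_⟩,
      mem_normalizer_iff.mpr fun y => ⟨k2 x (Commute.refl x) y, fun h => ?_⟩⟩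
    · simpa [mul_assoc] using k1 g⁻¹ (inv_mem hg) _ h
    · simpa [mul_assoc] using k2 x⁻¹ (Commute.refl x).inv_left _ h
  refine commutator_le_of_closure_eq_top (s := (N : Set G) ∪ {x}) ?_ R ?_
  · rw [Subgroup.closure_union, Subgroup.closure_eq, ← zpowers_eq_closure, hx]
  · rintro a (ha | rfl) b (hb | rfl)
    · exact hNR (commutator_mem_commutator ha hb)
    · rw [← commutatorElement_inv]; exact inv_mem (hxR a ha)
    · exact hxR b hb
    · rw [commutatorElement_self]; exact one_mem _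

theorem index_commutator_mul_card [Finite G] (N : Subgroup G) [N.Normal] {x : G}
    (hx : N ⊔ zpowers x = ⊤) :
    (commutator G).index * Nat.card ↥⁅N, N⁆ =
      N.index * Nat.card {n : N // ⁅x, (n : G)⁆ ∈ ⁅N, N⁆} := by
  have h1 := (commHom N x).ker.index_mul_card
  rw [index_ker, range_commHom N hx, ← relIndex_ker, QuotientGroup.ker_mk'] at h1
  have h2 := H21.card_mul_relIndex_of_le (Y := commutator G)
    (commutator_mono le_top le_top : ⁅N, N⁆ ≤ commutator G)
  have h3 : Nat.card (commHom N x).ker = Nat.card {n : N // ⁅x, (n : G)⁆ ∈ ⁅N, N⁆} :=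
    Nat.card_congr (Equiv.subtypeEquivRight fun n => QuotientGroup.eq_one_iff _)
  have h4 := (commutator G).index_mul_card
  have h5 := N.index_mul_card
  have h6 : 0 < (⁅N, N⁆ : Subgroup G).relIndex (commutator G) :=
    Nat.pos_of_ne_zero (H21.relIndex_ne_zero' _ _)
  apply Nat.eq_of_mul_eq_mul_right h6
  rw [← h3, mul_assoc, h2, h4, mul_assoc, mul_comm (Nat.card (commHom N x).ker), h1, h5]

theorem sup_zpowers_eq_top_of_index_prime {N : Subgroup G} {p : ℕ} (hp : p.Prime)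
    (hN : N.index = p) {x : G} (hx : x ∉ N) : N ⊔ zpowers x = ⊤ := by
  have h1 := relIndex_mul_index (le_sup_left : N ≤ N ⊔ zpowers x)
  rw [hN] at h1
  rcases (Nat.dvd_prime hp).mp (Dvd.intro_left _ h1) with h | h
  · exact index_eq_one.mp h
  · rw [h] at h1
    have h2 : N.relIndex (N ⊔ zpowers x) = 1 := by
      simpa [hp.ne_zero] using h1
    exact (hx (relIndex_eq_one.mp h2 (mem_sup_right (mem_zpowers x)))).elim

end Cfsg.Agent.H85
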