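/-
Derived length of wreath products.
-/
import Cfsg.Agent.H85.NRank

set_option autoImplicit false

namespace Cfsg.Agent.H85

open Subgroup Matrix Equiv
open scoped commutatorElement

section
variable {G K : Type*} [Group G] [Group K]

/-- the derived series of a subgroup, inside the ambient group -/
def ds (H : Subgroup G) : ℕ → Subgroup G
  | 0 => H
  | j + 1 => ⁅ds H j, ds H j⁆

theorem map_ds (H : Subgroup G) (f : G →* K) (j : ℕ) : (ds H j).map f = ds (H.map f) j := by
  induction j with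
  | zero => rfl
  | succ j ih => rw [ds, ds, map_commutator, ih]

theorem ds_top (j : ℕ) : ds (⊤ : Subgroup G) j = derivedSeries G j := by
  induction j with
  | zero => rfl
  | succ j ih => rw [ds, ih, derivedSeries_succ]

theorem ds_eq_bot_iff (H : Subgroup G) (j : ℕ) : ds H j = ⊥ ↔ derivedSeries H j = ⊥ := by
  conv_lhs => rw [← H.range_subtype, MonoidHom.range_eq_map, ← map_ds, ds_top]
  exact map_eq_bot_iff_of_injective _ H.subtype_injective

theorem ds_mono {H H' : Subgroup G} (h : H ≤ H') (j : ℕ) : ds H j ≤ ds H' j := by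
  induction j with
  | zero => exact h
  | succ j ih => exact commutator_mono ih ih

theorem ds_add (H : Subgroup G) (a b : ℕ) : ds H (a + b) = ds (ds H a) b := by
  induction b with
  | zero => rfl
  | succ b ih => rw [← add_assoc, ds, ih, ds]

theorem ds_map_eq_bot_iff (H : Subgroup G) {f : G →* K} (hf : Function.Injective f) (j : ℕ) :
    ds (H.map f) j = ⊥ ↔ ds H j = ⊥ := by
  rw [← map_ds]; exact map_eq_bot_iff_of_injective _ hf

theorem ds_sylow [Finite G] {p : ℕ} [Fact p.Prime] {H : Subgroup G} (hH : IsPGroup p H) {j : ℕ}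
    (P : Sylow p G) (h : ds (P : Subgroup G) j = ⊥) : ds H j = ⊥ := by
  obtain ⟨Q, hQ⟩ := hH.exists_le_sylow
  obtain ⟨g, hg⟩ := sylow_eq_map_conj P Q
  refine eq_bot_iff.2 ((ds_mono hQ j).trans ?_)
  rw [hg, ← map_ds, h, Subgroup.map_bot]

theorem ds_sylow' [Finite G] {p : ℕ} [Fact p.Prime] {H : Subgroup G} (hH : IsPGroup p H)
    (hc : p ^ (Nat.card G).factorization p ≤ Nat.card H) {j : ℕ} (h : ds H j = ⊥)
    (P : Sylow p G) : ds (P : Subgroup G) j = ⊥ := by
  obtain ⟨Q, rfl⟩ := exists_sylow_eq hH hc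
  exact ds_sylow P.isPGroup' Q h

end

namespace WD
variable {ι L G : Type*} [Group L] [Group G] (w : WD ι L G)

theorem ds_B (D : Subgroup L) (j : ℕ) : ds (w.B D) j ≤ w.B (ds D j) := by
  induction j with
  | zero => exact le_rfl
  | succ j ih =>
    refine (commutator_mono ih ih).trans (commutator_le.2 ?_)
    rintro _ ⟨f, hf, rfl⟩ _ ⟨g, hg, rfl⟩
    rw [← map_commutatorElement]
    exact w.β_mem_B fun i => commutator_mem_commutator (hf i (Set.mem_univ _))
      (hg i (Set.mem_univ _))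

theorem ds_W (D : Subgroup L) (T : Subgroup (Perm ι)) (j : ℕ) : ds (w.W D T) j ≤ w.W D (ds T j) := by
  induction j with
  | zero => exact le_rfl
  | succ j ih =>
    refine (commutator_mono ih ih).trans (commutator_le.2 fun x hx y hy => ?_)
    obtain ⟨f, hf, t, ht, rfl⟩ := w.mem_W.1 hx
    obtain ⟨g, hg, s, hs, rfl⟩ := w.mem_W.1 hy
    have hn : ∀ π, ∀ x ∈ w.B D, w.σ π * x * (w.σ π)⁻¹ ∈ w.B D := fun π x hx =>
      (mem_normalizer_iff.1 (w.σ_mem_normalizer D π) x).1 hx
    have : ⁅w.β f * w.σ t, w.β g * w.σ s⁆ = (w.β f * (w.σ t * w.β g * (w.σ t)⁻¹) *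
        (w.σ (t * s * t⁻¹) * (w.β f)⁻¹ * (w.σ (t * s * t⁻¹))⁻¹) *
        (w.σ ⁅t, s⁆ * (w.β g)⁻¹ * (w.σ ⁅t, s⁆)⁻¹)) * w.σ ⁅t, s⁆ := by
      simp only [commutatorElement_def, map_mul, map_inv]; group
    rw [this]
    exact mul_mem (mem_sup_left (mul_mem (mul_mem (mul_mem (w.β_mem_B hf) (hn _ _ (w.β_mem_B hg)))
      (hn _ _ (inv_mem (w.β_mem_B hf)))) (hn _ _ (inv_mem (w.β_mem_B hg)))))
      (w.σ_mem_W D (commutator_mem_commutator ht hs))

theorem ds_W_eq_bot {D : Subgroup L} {T : Subgroup (Perm ι)} {a b : ℕ} (hT : ds T a = ⊥)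
    (hD : ds D b = ⊥) : ds (w.W D T) (a + b) = ⊥ := by
  have h1 := w.ds_W D T a
  rw [hT, show w.W D ⊥ = w.B D by rw [W, Subgroup.map_bot, sup_bot_eq]] at h1
  rw [ds_add, eq_bot_iff]
  refine (ds_mono h1 b).trans ((w.ds_B D b).trans ?_)
  rw [hD, B, Subgroup.pi_bot, Subgroup.map_bot]

theorem ds_W_ne_bot {D : Subgroup L} {T : Subgroup (Perm ι)} {t : Perm ι} (ht : t ∈ T) {i : ι}
    (hi : t i ≠ i) {j : ℕ} (hD : ds D j ≠ ⊥) : ds (w.W D T) (j + 1) ≠ ⊥ := by
  classical
  have key : ∀ j, ds D j ≤ ((ds (w.W D T) (1 + j)).comap w.β).map (Pi.evalMonoidHom _ i) := by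
    intro j
    induction j with
    | zero =>
      intro d hd
      refine ⟨Pi.mulSingle i d * (Pi.mulSingle (t i) d)⁻¹, ?_, by simp [Pi.mulSingle_eq_of_ne hi.symm]⟩
      have := commutator_mem_commutator (w.single_mem_W T i hd) (w.σ_mem_W D ht)
      rw [SetLike.mem_coe, mem_comap, map_mul, map_inv, ← w.conj_single]
      rw [commutatorElement_def] at this
      simp only [_root_.mul_inv_rev, inv_inv, mul_assoc] at this ⊢
      exact this
    | succ j ih =>
      refine (commutator_mono ih ih).trans ?_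
      rw [← map_commutator]
      refine map_mono (commutator_le.2 fun f hf g hg => ?_)
      rw [mem_comap, map_commutatorElement]
      exact commutator_mem_commutator hf hg
  intro h
  have := key j
  rw [add_comm, h, MonoidHom.comap_bot, (MonoidHom.ker_eq_bot_iff _).2 w.β_inj, Subgroup.map_bot] at this
  exact hD (eq_bot_iff.2 this)

end WD

theorem ds_sylow_perm (p : ℕ) [hp : Fact p.Prime] (n : ℕ) (P : Sylow p (Perm (Fin n))) :
    ds (P : Subgroup (Perm (Fin n))) (Nat.log p n) = ⊥ := by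
  induction n using Nat.strong_induction_on with
  | _ n ih =>
    by_cases hn : n < p
    · rw [Nat.log_of_lt hn, ds, ← card_eq_one, card_sylow_perm, padicValNat.eq_zero_of_not_dvd
        fun h => absurd (hp.out.dvd_factorial.1 h) (by omega), pow_zero]
    push Not at hn
    obtain ⟨w, -, -⟩ := exists_permWD p n
    obtain ⟨D⟩ : Nonempty (Sylow p (Perm (Fin p))) := inferInstance
    obtain ⟨T⟩ : Nonempty (Sylow p (Perm (Fin (n / p)))) := inferInstance
    rw [Nat.log_of_one_lt_of_le hp.out.one_lt hn]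
    refine ds_sylow' (w.isPGroup_W D.isPGroup' T.isPGroup') (card_W_perm p n w D T)
      (w.ds_W_eq_bot (ih _ (Nat.div_lt_self (hp.out.pos.trans_le hn) hp.out.one_lt) T) ?_) P
    have := isCyclic_of_prime_card (card_sylow_perm_self p D)
    exact commutator_eq_bot_iff_le_centralizer.2 (Subgroup.le_centralizer (D : Subgroup (Perm (Fin p))))

section Sp
variable (ι κ R : Type*) [Fintype ι] [DecidableEq ι] [Fintype κ] [DecidableEq κ] [CommRing R]

theorem emb_sp_reindex (e : ι ≃ κ) : Emb (symplecticGroup ι R) (symplecticGroup κ R) := by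
  have hJ : J κ R = reindex (e.sumCongr e) (e.sumCongr e) (J ι R) := by
    ext (i | i) (j | j) <;> simp [J, Matrix.one_apply]
  refine ⟨((reindexRingEquiv R (e.sumCongr e)).toMonoidHom.comp (Submonoid.subtype _)).codRestrict
    _ fun a => ?_, fun a b hab => ?_⟩
  · change reindex _ _ a.1 ∈ _
    rw [SymplecticGroup.mem_iff, hJ, transpose_reindex]
    simp only [reindex_apply, submatrix_mul_equiv, SymplecticGroup.mem_iff.1 a.2]
  · exact Subtype.ext ((reindex _ _).injective (congrArg Subtype.val hab))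

theorem exists_spWD [Nontrivial R] [Nonempty ι] :
    Nonempty (WD κ (symplecticGroup ι R) (symplecticGroup (ι × κ) R)) := by
  let e := Equiv.sumProdDistrib ι ι κ
  have hJ : J (ι × κ) R = reindex e e (blockDiagonal fun _ : κ => J ι R) := by
    ext (⟨i, a⟩ | ⟨i, a⟩) (⟨j, b⟩ | ⟨j, b⟩) <;>
      simp [e, J, blockDiagonal_apply', Matrix.one_apply] <;> split_ifs <;> simp_all
  have hmem : ∀ A : Matrix ((ι ⊕ ι) × κ) ((ι ⊕ ι) × κ) R,
      A * (blockDiagonal fun _ : κ => J ι R) * Aᵀ = (blockDiagonal fun _ : κ => J ι R) →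
      reindex e e A ∈ symplecticGroup (ι × κ) R := fun A h => by
    rw [SymplecticGroup.mem_iff, hJ, transpose_reindex]
    simp only [reindex_apply, submatrix_mul_equiv, h]
  have hmul : ∀ A B : Matrix ((ι ⊕ ι) × κ) ((ι ⊕ ι) × κ) R,
      reindex e e (A * B) = reindex e e A * reindex e e B := fun A B => by
    simp only [reindex_apply, submatrix_mul_equiv]
  have h1 : ∀ f : κ → symplecticGroup ι R,
      reindex e e (blockDiagonal fun i => (f i).1) ∈ symplecticGroup (ι × κ) R := fun f => by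
    refine hmem _ ?_
    rw [blockDiagonal_transpose, ← blockDiagonal_mul, ← blockDiagonal_mul]
    congr 1
    funext i
    exact SymplecticGroup.mem_iff.1 (f i).2
  have h2 : ∀ π : Perm κ, reindex e e (pmHom (ι ⊕ ι) κ R π) ∈ symplecticGroup (ι × κ) R := fun π => by
    refine hmem _ ?_
    have h1 := pm_mul_bd (κ := ι ⊕ ι) π fun _ : κ => J ι R
    rw [bdHom_apply] at h1
    rw [h1, mul_assoc]
    have h2 : (pmHom (ι ⊕ ι) κ R π)ᵀ = pmHom (ι ⊕ ι) κ R π⁻¹ := by
      rw [pmHom_apply, pmHom_apply, transpose_permMatrix, map_inv, inv_inv, inv_inv]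
    rw [h2, ← map_mul, mul_inv_cancel, map_one, mul_one]
  exact ⟨{
    β := MonoidHom.mk' (fun f => ⟨_, h1 f⟩) fun f g => Subtype.ext (by
      rw [Submonoid.coe_mul, ← hmul, ← blockDiagonal_mul]; rfl)
    σ := MonoidHom.mk' (fun f => ⟨_, h2 f⟩) fun f g => Subtype.ext (by
      rw [Submonoid.coe_mul, ← hmul, ← map_mul])
    conj π f := Subtype.ext (by
      simp only [Submonoid.coe_mul, MonoidHom.mk'_apply, ← hmul]
      exact congrArg _ (pm_mul_bd (κ := ι ⊕ ι) (R := R) π fun i => (f i).1))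
    inj f π h := by
      have h0 := (reindex e e).injective (congrArg Subtype.val h)
      obtain ⟨h1, h2⟩ := bd_eq_pm (κ := ι ⊕ ι) (R := R) π (fun i => (f i).1) h0
      exact ⟨funext fun i => Subtype.ext (congrFun h1 i), h2⟩ }⟩

end Sp

end Cfsg.Agent.H85
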