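import Cfsg.Agent.H85.L3S
import Cfsg.Agent.H10.USinger
import Cfsg.Agent.H10.USub

/-! Necessary conditions for a subgroup of `SL₃(q)` to lie in a geometric subgroup. -/

set_option autoImplicit false
set_option linter.unusedSectionVars false
set_option linter.style.haveILetI false

namespace Cfsg.Agent.H85.L3

open Cfsg Cfsg.Geo Cfsg.Agent.H98 Cfsg.Agent.H99 Matrix

variable {F : Type*} [Field F] [Fintype F]

local notation "𝐆" => GL (Fin 3) F
local notation "𝐙" => scalars (Fin 3) F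
local notation "𝐒" => specialLinear (Fin 3) F
local notation "𝐌" => Matrix (Fin 3) (Fin 3) F

theorem exists_maximal_ge {G : Type*} [Group G] [Finite G] {S X : Subgroup G} (h : X < S) :
    ∃ M, X ≤ M ∧ IsMaximalIn S M := by
  obtain ⟨M, hM, hmax⟩ := Set.Finite.exists_le_maximal (s := {M : Subgroup G | M < S})
    (Set.toFinite _) (a := X) h
  refine ⟨M, hM, hmax.1, fun N h1 h2 => ?_⟩
  rcases h2.lt_or_eq with h3 | h3
  · exact Or.inl (le_antisymm (hmax.2 h3 h1) h1)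
  · exact Or.inr h3

theorem maximal_of {G : Type*} [Group G] [Finite G] {S A : Subgroup G} (h : ¬ S ≤ A)
    (h2 : ∀ M, A ⊓ S ≤ M → IsMaximalIn S M → M ≤ A) : IsMaximalIn S (A ⊓ S) := by
  obtain ⟨M, h3, h4⟩ := exists_maximal_ge (S := S) (X := A ⊓ S)
    (lt_of_le_of_ne inf_le_right fun e => h (e ▸ inf_le_left))
  rwa [le_antisymm h3 (le_inf (h2 M h3 h4) h4.1.le)]

/-- pull-back along conjugation -/
def pb (P : 𝐆) (X : Subgroup 𝐆) : Subgroup 𝐆 := X.comap (MulAut.conj P).toMonoidHom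

theorem mem_pb {P g : 𝐆} {X : Subgroup 𝐆} : g ∈ pb P X ↔ P * g * P⁻¹ ∈ X := Iff.rfl

theorem pb_mono {P : 𝐆} {X Y : Subgroup 𝐆} (h : X ≤ Y) : pb P X ≤ pb P Y := fun _ hg => h hg

theorem mem_pb_conj {P g : 𝐆} {X : Subgroup 𝐆} : P⁻¹ * g * P ∈ pb P X ↔ g ∈ X := by
  simp [mem_pb, mul_assoc]

theorem le_of_pb_le {P : 𝐆} {X Y : Subgroup 𝐆} (h : pb P X ≤ pb P Y) : X ≤ Y :=
  fun _ hg => mem_pb_conj.1 (h (mem_pb_conj.2 hg))

theorem conj_mem_sl_iff {P g : 𝐆} : P * g * P⁻¹ ∈ 𝐒 ↔ g ∈ 𝐒 :=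
  ⟨fun h => by simpa [mul_assoc] using conj_mem_sl h P⁻¹, fun h => conj_mem_sl h P⟩

theorem conj_mem_Z_iff {P g : 𝐆} : P * g * P⁻¹ ∈ 𝐙 ↔ g ∈ 𝐙 :=
  ⟨fun h => by simpa [mul_assoc] using scalars_normal.conj_mem _ h P⁻¹,
    fun h => scalars_normal.conj_mem _ h P⟩

theorem pb_le_sl {P : 𝐆} {X : Subgroup 𝐆} (h : X ≤ 𝐒) : pb P X ≤ 𝐒 :=
  fun _ hg => conj_mem_sl_iff.1 (h hg)

theorem card_pb (P : 𝐆) (X : Subgroup 𝐆) : Nat.card (pb P X) = Nat.card X :=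
  Nat.card_congr
    { toFun := fun g => ⟨_, mem_pb.1 g.2⟩
      invFun := fun g => ⟨_, mem_pb_conj.2 g.2⟩
      left_inv := fun g => Subtype.ext (by simp [mul_assoc])
      right_inv := fun g => Subtype.ext (by simp [mul_assoc]) }

theorem pb_sl (P : 𝐆) : pb P 𝐒 = 𝐒 := Subgroup.ext fun _ => conj_mem_sl_iff

theorem pb_inf (P : 𝐆) (X Y : Subgroup 𝐆) : pb P (X ⊓ Y) = pb P X ⊓ pb P Y := rfl

theorem le_of_frames {A B S : Subgroup 𝐆} {P Q : 𝐆} (h : pb P A = pb Q B) (h1 : pb P S = S)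
    (h2 : pb Q S = S) (h3 : A ⊓ S ≤ B ⊓ S) : B ⊓ S ≤ A := by
  have : A ⊓ S = B ⊓ S := Subgroup.eq_of_le_of_card_ge h3 (by
    rw [← card_pb P (A ⊓ S), ← card_pb Q (B ⊓ S), pb_inf, pb_inf, h, h1, h2])
  rw [← this]; exact inf_le_left

theorem pb_normalizer (P : 𝐆) (R : Subgroup 𝐆) :
    pb P (Subgroup.normalizer (R : Set 𝐆)) = Subgroup.normalizer (pb P R : Set 𝐆) := by
  ext g
  rw [mem_pb, Subgroup.mem_normalizer_iff, Subgroup.mem_normalizer_iff]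
  refine ⟨fun h x => ?_, fun h x => ?_⟩
  · rw [mem_pb, mem_pb, h, conj_inv, conj_mul, conj_mul]
  · have := h (P⁻¹ * x * P)
    rw [mem_pb_conj, mem_pb] at this
    rw [this]
    simp [mul_assoc]

theorem irr_of_pb {P : 𝐆} {X : Subgroup 𝐆} (h : Irr (pb P X)) : Irr X := by
  intro W hW
  have := h (W.comap (Matrix.toLin' (P : 𝐌))) fun g hg v hv => by
    have h1 := hW _ (mem_pb.1 hg) _ hv
    rw [toLin'_apply, conj_mulVec_mulVec] at h1
    exact h1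
  have hs : Function.Surjective (Matrix.toLin' (P : 𝐌)) := fun v => ⟨_, mulVec_inv_mulVec P v⟩
  rw [← Submodule.map_comap_eq_of_surjective hs W]
  rcases this with h1 | h1
  · left; rw [h1, Submodule.map_bot]
  · right; rw [h1, Submodule.map_top, LinearMap.range_eq_top.2 hs]

theorem PGc.pb {k : ℕ} {X : Subgroup 𝐆} (h : PGc k X) (P : 𝐆) : PGc k (pb P X) := by
  refine ⟨fun g hg => ?_, fun g hg a ha n1 n2 => ?_, fun g hg a ha hc n1 n2 n3 n4 => ?_⟩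
  · simpa only [conj_pow, conj_mem_Z_iff] using h.p1 _ (mem_pb.1 hg)
  · rw [← conj_mem_Z_iff (P := P)] at n1 n2 ⊢
    have := h.p2 _ (mem_pb.1 hg) _ (mem_pb.1 ha) (by rwa [conj_mul])
      (by rwa [conj_mul, conj_mul, conj_inv, conj_mul])
    rwa [conj_inv, conj_inv, conj_mul, conj_mul, conj_mul] at this
  · rw [← conj_mem_Z_iff (P := P)] at n1 n2 n3 n4 ⊢
    have := h.p3 _ (mem_pb.1 hg) _ (mem_pb.1 ha)
      (by rw [conj_mul, conj_mul, hc]) (by rwa [conj_mul]) (by rwa [conj_mul])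
      (by simpa only [conj_pow] using n3) (by simpa only [conj_pow] using n4)
    rwa [conj_mul, conj_mul, conj_inv, conj_mul] at this

theorem eq_one_of_scalar {g : 𝐆} (hz : g ∈ 𝐙) (h : g ^ ringChar F = 1) : g = 1 := by
  obtain ⟨c, rfl⟩ := mem_scalars_iff'.1 hz
  rw [← scal_pow, ← scal_one] at h
  have h1 := congrArg Units.val (scal_injective h)
  haveI := Fact.mk (CharP.char_is_prime F (ringChar F))
  have h2 : (c : F) = 1 := frobenius_inj F (ringChar F) (by simpa [frobenius_def] using h1)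
  rw [show c = 1 from Units.ext h2, scal_one]

theorem mem_Z_of_pow {g : 𝐆} {a b : ℕ} (hab : Nat.Coprime a b) (h1 : g ^ a ∈ 𝐙) (h2 : g ^ b ∈ 𝐙) :
    g ∈ 𝐙 := by
  rw [← QuotientGroup.eq_one_iff, QuotientGroup.mk_pow] at *
  exact (pow_eq_one_iff_of_coprime hab).1 ⟨h1, h2⟩

/-! ### Monomial groups -/

/-- `X` is monomial in some basis -/
def T2 (X : Subgroup 𝐆) : Prop := ∃ P : 𝐆, ∀ g ∈ X, ∃ σ, BlockMono id σ ((P⁻¹ * g * P : 𝐆) : 𝐌)

theorem T2.pb {X : Subgroup 𝐆} (h : T2 X) (Q : 𝐆) : T2 (pb Q X) := by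
  obtain ⟨P, hP⟩ := h
  refine ⟨Q⁻¹ * P, fun g hg => ?_⟩
  obtain ⟨σ, hσ⟩ := hP _ (mem_pb.1 hg)
  exact ⟨σ, by simpa [mul_assoc] using hσ⟩

theorem bm_mul {σ τ : Equiv.Perm (Fin 3)} {A B : 𝐌} (hA : BlockMono id σ A)
    (hB : BlockMono id τ B) : BlockMono id (σ * τ) (A * B) := fun k l hkl => by
  rw [Matrix.mul_apply]
  refine Finset.sum_eq_zero fun m _ => ?_
  by_cases h : m = τ l
  · rw [hA k m (by rw [h]; exact hkl), zero_mul]
  · rw [hB m l h, mul_zero]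

theorem bm_unique {σ τ : Equiv.Perm (Fin 3)} {A : 𝐌} (h0 : A.det ≠ 0) (hA : BlockMono id σ A)
    (hB : BlockMono id τ A) : σ = τ := by
  ext1 l
  by_contra h
  exact hA.mono_ne_zero h0 l (hB _ l h)

theorem bm_one {A : 𝐌} (hA : BlockMono id 1 A) : A = diagonal fun i => A i i := by
  ext i j
  by_cases h : i = j
  · subst h; simp
  · rw [diagonal_apply_ne _ h, hA i j h]

theorem frmG_eq (e : Fin 3 ≃ Fin 3) (P : 𝐆) :
    ∃ Q : 𝐆, (∀ g : 𝐆, frmG e P g = Q * g * Q⁻¹) ∧ ∀ x, frmV e P x = (Q : 𝐌) *ᵥ x := by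
  refine ⟨P * H10.permG F e.symm, fun g => ?_, fun x => ?_⟩
  · apply Units.ext
    refine matrix_ext_mulVec fun v => ?_
    obtain ⟨x, rfl⟩ := (frmV e P).surjective v
    rw [frmG_mulVec]
    have : ∀ y, frmV e P y = ((P * H10.permG F e.symm : 𝐆) : 𝐌) *ᵥ y := fun y => by
      rw [Units.val_mul, ← mulVec_mulVec, H10.permG_mulVec]; rfl
    rw [this, this, conj_mulVec_mulVec]
  · rw [Units.val_mul, ← mulVec_mulVec, H10.permG_mulVec]; rfl

theorem adapted_iff {D : Fin 3 → Submodule F (Fin 3 → F)} (hD : IsMDecomposition 1 D)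
    {e : Fin 3 ≃ Fin 3} {P Q : 𝐆} (h : Adapted D e P id) (hQ : ∀ g : 𝐆, frmG e P g = Q * g * Q⁻¹)
    (g : 𝐆) : g ∈ pb Q (decompositionStabilizer D) ↔ ∃ σ, BlockMono id σ (g : 𝐌) := by
  rw [mem_pb, ← hQ]
  constructor
  · intro hg
    simpa using h.blockMono hg
  · rintro ⟨σ, hσ⟩
    exact h.mem_decStab hD hσ

theorem exists_frame_dec {D : Fin 3 → Submodule F (Fin 3 → F)} (hD : IsMDecomposition 1 D) :
    ∃ Q : 𝐆, ∀ g, g ∈ pb Q (decompositionStabilizer D) ↔ ∃ σ, BlockMono id σ (g : 𝐌) := by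
  obtain ⟨e, P, h⟩ := exists_adapted_one hD
  obtain ⟨Q, hQ, -⟩ := frmG_eq e P
  exact ⟨Q, adapted_iff hD h hQ⟩

theorem t2_of_le {D : Fin 3 → Submodule F (Fin 3 → F)} (hD : IsMDecomposition 1 D)
    {X : Subgroup 𝐆} (h : X ≤ decompositionStabilizer D) : T2 X := by
  obtain ⟨Q, hQ⟩ := exists_frame_dec hD
  exact ⟨Q, fun g hg => (hQ _).1 (mem_pb_conj.2 (h hg))⟩

theorem T2.exists_hom {X : Subgroup 𝐆} (h : T2 X) : ∃ π : X →* Equiv.Perm (Fin 3),
    (∀ g h : X, π g = 1 → π h = 1 → (g : 𝐆) * h = h * g) ∧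
    (∀ g : X, π g = 1 → (g : 𝐆) ^ (Fintype.card F - 1) = 1) ∧
    (∀ g : X, π g = 1 → ∃ (v : Fin 3 → F) (c : F), v ≠ 0 ∧ ((g : 𝐆) : 𝐌) *ᵥ v = c • v) := by
  obtain ⟨P, hP⟩ := h
  choose σ hσ using hP
  refine ⟨MonoidHom.mk' (fun g : X => σ g g.2) fun a b => ?_, fun g h h1 h2 => ?_,
    fun g h1 => ?_, fun g h1 => ?_⟩
  · refine bm_unique (GeneralLinearGroup.det_ne_zero _) (hσ _ (a * b).2) ?_
    have := bm_mul (hσ _ a.2) (hσ _ b.2)
    rw [← Units.val_mul] at this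
    convert this using 2
    simp [mul_assoc]
  · have a1 := hσ _ g.2
    have a2 := hσ _ h.2
    rw [show σ g g.2 = 1 from h1] at a1
    rw [show σ h h.2 = 1 from h2] at a2
    have : (P⁻¹ * g * P) * (P⁻¹ * h * P) = (P⁻¹ * h * P) * (P⁻¹ * g * P) := by
      apply Units.ext
      rw [Units.val_mul, Units.val_mul (P⁻¹ * (h : 𝐆) * P), bm_one a1, bm_one a2, diagonal_mul_diagonal,
        diagonal_mul_diagonal]
      simp only [mul_comm]
    simpa [mul_assoc] using congrArg (fun x => P * x * P⁻¹) this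
  · have a1 := hσ _ g.2
    rw [show σ g g.2 = 1 from h1] at a1
    have : (P⁻¹ * g * P) ^ (Fintype.card F - 1) = 1 := by
      apply Units.ext
      rw [Units.val_pow_eq_pow_val, bm_one a1, diagonal_pow, Units.val_one, ← diagonal_one]
      congr 1
      ext i
      exact FiniteField.pow_card_sub_one_eq_one _ (a1.mono_ne_zero (GeneralLinearGroup.det_ne_zero _) i)
    have h2 := conj_pow (i := Fintype.card F - 1) (a := P⁻¹) (b := (g : 𝐆))
    rw [inv_inv, this] at h2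
    simpa [mul_assoc] using congrArg (fun x => P * x * P⁻¹) h2.symm
  · have a1 := hσ _ g.2
    rw [show σ g g.2 = 1 from h1] at a1
    refine ⟨(P : 𝐌) *ᵥ Pi.single 0 1, ((P⁻¹ * g * P : 𝐆) : 𝐌) 0 0,
      fun h => by simpa using congrFun ((gl_mulVec_eq_zero P).1 h) 0, ?_⟩
    have h2 := conj_mulVec_mulVec P (P⁻¹ * g * P) (Pi.single 0 1)
    rw [show P * (P⁻¹ * g * P) * P⁻¹ = g by group] at h2
    rw [h2, ← mulVec_smul]
    congr 1
    rw [bm_one a1]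
    ext i
    fin_cases i <;> simp

/-- `X` has a `p`-subgroup of order at least four -/
def Big (X : Subgroup 𝐆) : Prop := ∃ U ≤ X, IsPGroup (ringChar F) U ∧ 4 ≤ Nat.card U

theorem coprime_char : Nat.Coprime (ringChar F) (Fintype.card F - 1) := by
  obtain ⟨n, hp, hc⟩ := FiniteField.card F (ringChar F)
  rw [hp.coprime_iff_not_dvd, hc]
  intro h
  have h1 : ringChar F ∣ ringChar F ^ (n : ℕ) := dvd_pow_self _ n.ne_zero
  have h2 := (Nat.dvd_sub_iff_right (Nat.one_le_pow _ _ hp.pos) h1).1 h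
  exact hp.one_lt.ne' (Nat.dvd_one.1 h2)

theorem T2.not_big {X : Subgroup 𝐆} (h : T2 X) : ¬ Big X := by
  rintro ⟨U, hU, hp, h4⟩
  obtain ⟨π, -, h2, -⟩ := h.exists_hom
  have hi : Function.Injective (π.comp (Subgroup.inclusion hU)) := by
    rw [injective_iff_map_eq_one]
    intro u hu
    obtain ⟨k, hk⟩ := hp u
    apply Subtype.ext
    exact (pow_eq_one_iff_of_coprime (Nat.Coprime.pow_left k coprime_char)).1
      ⟨congrArg Subtype.val hk, h2 _ hu⟩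
  have h6 := Subgroup.card_dvd_of_injective _ hi
  rw [Nat.card_perm, Nat.card_eq_fintype_card (α := Fin 3), Fintype.card_fin] at h6
  haveI := Fact.mk (CharP.char_is_prime F (ringChar F))
  obtain ⟨n, hn⟩ := hp.exists_card_eq
  have h7 : Nat.card U = 6 := by
    have := Nat.le_of_dvd (by norm_num) h6
    clear hn
    generalize Nat.card U = m at *
    change m ≤ 6 at this
    change m ∣ 6 at h6
    interval_cases m <;> omega
  rw [hn] at h7
  have a2 := (Nat.prime_two.prime.dvd_of_dvd_pow (h7 ▸ (by norm_num : 2 ∣ 6)))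
  have a3 := (Nat.prime_three.prime.dvd_of_dvd_pow (h7 ▸ (by norm_num : 3 ∣ 6)))
  have hp' := CharP.char_is_prime F (ringChar F)
  rw [Nat.prime_dvd_prime_iff_eq Nat.prime_two hp'] at a2
  rw [Nat.prime_dvd_prime_iff_eq Nat.prime_three hp'] at a3
  omega

/-! ### Normalisers of Singer cycles -/

/-- `X` has no involution -/
def NoInv (X : Subgroup 𝐆) : Prop := ∀ g ∈ X, g * g = 1 → g = 1

theorem NoInv.pb {X : Subgroup 𝐆} (h : NoInv X) (Q : 𝐆) : NoInv (pb Q X) := fun g hg h2 => by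
  have := h _ (mem_pb.1 hg) (by rw [conj_mul, h2]; simp)
  simpa using this

theorem cube_mem {K : Subalgebra F 𝐌} (hK : IsFieldSubalgebra 3 K) {g : 𝐆}
    (hg : g ∈ subalgebraNormalizer K) : ((g ^ 3 : 𝐆) : 𝐌) ∈ K := by
  letI : Field K := (isField_of_isFld hK.comm hK.inv).toField
  obtain ⟨ρ, hρ⟩ := H10.exists_galHom (H := subalgebraNormalizer K) le_rfl
  have h1 : ρ (⟨g, hg⟩ ^ 3) = 1 := by
    have := pow_card_eq_one' (x := ρ ⟨g, hg⟩)
    rwa [IsGalois.card_aut_eq_finrank, hK.finrank_eq, ← map_pow] at this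
  refine H10.mem_of_comm_field (by norm_num) hK fun k hk => ?_
  have := hρ (⟨g, hg⟩ ^ 3) ⟨k, hk⟩
  rw [h1] at this
  exact (cj_eq_iff _ _ _).1 this.symm

theorem field_mul_eq_zero {r : ℕ} {K : Subalgebra F 𝐌} (hK : IsFieldSubalgebra r K) {a b : 𝐌}
    (ha : a ∈ K) (h : a * b = 0) : a = 0 ∨ b = 0 := by
  by_cases h0 : a = 0
  · exact Or.inl h0
  obtain ⟨y, hy, h1⟩ := hK.inv a ha h0
  right
  rw [← one_mul b, ← h1, hK.comm a ha y hy, mul_assoc, h, mul_zero]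

theorem noInv_of_le {K : Subalgebra F 𝐌} (hK : IsFieldSubalgebra 3 K) {X : Subgroup 𝐆}
    (hS : X ≤ 𝐒) (h : X ≤ subalgebraNormalizer K) : NoInv X := fun g hg h2 => by
  have h1 := cube_mem hK (h hg)
  rw [pow_succ, sq, h2, one_mul] at h1
  have h3 : ((g : 𝐌) - 1) * ((g : 𝐌) + 1) = 0 := by
    have : (g : 𝐌) * g = 1 := by rw [← Units.val_mul, h2, Units.val_one]
    rw [sub_mul, mul_add, this, mul_one, one_mul]; abel
  apply Units.ext
  rcases field_mul_eq_zero hK (K.sub_mem h1 K.one_mem) h3 with h4 | h4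
  · exact sub_eq_zero.1 h4
  · have h5 := mem_sl.1 (hS hg)
    rw [eq_neg_of_add_eq_zero_left h4] at h5 ⊢
    rw [det_neg, det_one, Fintype.card_fin] at h5
    have h6 : (-1 : F) = 1 := by linear_combination h5
    rw [Units.val_one, ← neg_one_smul F, h6, one_smul]

/-! ### Subfield groups -/

/-- the matrices over `F₁` in the basis `P` -/
def SR (F₁ : Subfield F) (P : 𝐆) : Subring 𝐌 :=
  (F₁.toSubring.matrix).comap (H98.cj P⁻¹).toRingEquiv.toRingHom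

theorem mem_SR {F₁ : Subfield F} {P : 𝐆} {x : 𝐌} : x ∈ SR F₁ P ↔ ∀ i j, H98.cj P⁻¹ x i j ∈ F₁ :=
  Iff.rfl

theorem mem_SR_one {F₁ : Subfield F} {x : 𝐌} : x ∈ SR F₁ 1 ↔ ∀ i j, x i j ∈ F₁ := by
  rw [mem_SR, inv_one, cj_one]

theorem smul_mem_SR {F₁ : Subfield F} {P : 𝐆} {x : 𝐌} {c : F} (hc : c ∈ F₁) (hx : x ∈ SR F₁ P) :
    c • x ∈ SR F₁ P := by
  rw [mem_SR]; intro i j; rw [map_smul]; exact F₁.mul_mem hc (hx i j)

theorem mem_of_smul_one {F₁ : Subfield F} {P : 𝐆} {c : F} (h : c • (1 : 𝐌) ∈ SR F₁ P) : c ∈ F₁ := by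
  have h3 := mem_SR.1 h 0 0
  rw [map_smul, map_one] at h3
  simpa using h3

theorem mem_sub_iff {F₁ : Subfield F} {P g : 𝐆} :
    g ∈ subfieldSubgroup F₁ P ↔ ∃ c : F, c ≠ 0 ∧ c • (g : 𝐌) ∈ SR F₁ P := by
  rw [H98.mem_subfieldSubgroup]
  constructor
  · rintro ⟨c, hc⟩
    exact ⟨c, c.ne_zero, mem_SR.2 fun i j => by rw [map_smul]; exact hc i j⟩
  · rintro ⟨c, h0, hc⟩
    exact ⟨Units.mk0 c h0, fun i j => by have := mem_SR.1 hc i j; rwa [map_smul] at this⟩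

theorem adjugate_cj (P : 𝐆) (x : 𝐌) : (H98.cj P x).adjugate.trace = x.adjugate.trace := by
  rw [cj_apply, adjugate_mul_distrib, adjugate_mul_distrib, ← mul_assoc, trace_mul_cycle,
    ← adjugate_mul_distrib, Units.inv_mul, adjugate_one, one_mul]

theorem SR_inv {F₁ : Subfield F} {P : 𝐆} {x : 𝐌} (hx : x ∈ SR F₁ P) :
    x.trace ∈ F₁ ∧ x.adjugate.trace ∈ F₁ ∧ x.det ∈ F₁ := by
  let A : Matrix (Fin 3) (Fin 3) F₁ := Matrix.of fun i j => ⟨_, mem_SR.1 hx i j⟩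
  have hA : F₁.subtype.mapMatrix A = H98.cj P⁻¹ x := rfl
  refine ⟨?_, ?_, ?_⟩
  · rw [← trace_cj P⁻¹ x]; exact F₁.sum_mem fun i _ => mem_SR.1 hx i i
  · rw [← adjugate_cj P⁻¹ x, ← hA, ← RingHom.map_adjugate]
    exact F₁.sum_mem fun i _ => (A.adjugate i i).2
  · have : x.det = (H98.cj P⁻¹ x).det := by
      rw [cj_apply, det_mul, det_mul, mul_right_comm, ← det_mul, Units.mul_inv, det_one, one_mul]
    rw [this, ← hA, ← RingHom.map_det]
    exact A.det.2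

/-- `X` lies in a subfield group -/
def T5 (F₁ : Subfield F) (X : Subgroup 𝐆) : Prop := ∃ P : 𝐆, X ≤ subfieldSubgroup F₁ P

theorem pb_sub (F₁ : Subfield F) (P Q : 𝐆) :
    pb Q (subfieldSubgroup F₁ P) = subfieldSubgroup F₁ (Q⁻¹ * P) := by
  ext g
  rw [mem_pb, H99.mem_subfieldSubgroup, H99.mem_subfieldSubgroup]
  simp [mul_assoc]

theorem T5.pb {F₁ : Subfield F} {X : Subgroup 𝐆} (h : T5 F₁ X) (Q : 𝐆) : T5 F₁ (pb Q X) := by
  obtain ⟨P, hP⟩ := h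
  exact ⟨Q⁻¹ * P, pb_sub F₁ P Q ▸ pb_mono hP⟩

theorem sub_trace {F₁ : Subfield F} {P g : 𝐆} (hg : g ∈ subfieldSubgroup F₁ P) (hS : g ∈ 𝐒) :
    ∃ c : F, c ≠ 0 ∧ c * (g : 𝐌).trace ∈ F₁ ∧ c ^ 2 * ((g⁻¹ : 𝐆) : 𝐌).trace ∈ F₁ ∧ c ^ 3 ∈ F₁ := by
  obtain ⟨c, h0, hc⟩ := mem_sub_iff.1 hg
  obtain ⟨h1, h2, h3⟩ := SR_inv hc
  rw [adjugate_smul, adj_eq_inv (mem_sl.1 hS), trace_smul] at h2
  rw [det_smul, mem_sl.1 hS] at h3
  exact ⟨c, h0, by simpa using h1, by simpa using h2, by simpa using h3⟩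

theorem sub_comm {F₁ : Subfield F} {P g h : 𝐆} (hg : g ∈ subfieldSubgroup F₁ P)
    (hh : h ∈ subfieldSubgroup F₁ P) {ω : F} (e : (g : 𝐌) * h = ω • ((h : 𝐌) * g)) : ω ∈ F₁ := by
  obtain ⟨c, c0, hc⟩ := mem_sub_iff.1 hg
  obtain ⟨d, d0, hd⟩ := mem_sub_iff.1 hh
  have h1 := (SR F₁ P).mul_mem hc hd
  have h2 := (SR F₁ P).mul_mem hd hc
  rw [smul_mul_smul_comm, e, smul_comm, mul_comm c d] at h1
  rw [smul_mul_smul_comm] at h2
  obtain ⟨i, j, hij⟩ : ∃ i j, H98.cj P⁻¹ ((d * c) • ((h : 𝐌) * g)) i j ≠ 0 := by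
    by_contra hc
    push Not at hc
    have h3 : H98.cj P⁻¹ ((d * c) • ((h : 𝐌) * g)) = 0 := by ext i j; exact hc i j
    rw [map_eq_zero_iff _ (H98.cj P⁻¹).injective, smul_eq_zero, ← Units.val_mul] at h3
    exact h3.elim (mul_ne_zero d0 c0) (Units.ne_zero _)
  have h3 := mem_SR.1 h1 i j
  rw [map_smul, Matrix.smul_apply, smul_eq_mul] at h3
  have := F₁.div_mem h3 (mem_SR.1 h2 i j)
  rwa [mul_div_cancel_right₀ _ hij] at this

theorem sub_p {F₁ : Subfield F} {P g : 𝐆} (hg : g ∈ subfieldSubgroup F₁ P)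
    (hp : g ^ ringChar F = 1) : (g : 𝐌) ∈ SR F₁ P := by
  obtain ⟨c, c0, hc⟩ := mem_sub_iff.1 hg
  have h2 := (SR F₁ P).pow_mem hc (ringChar F)
  rw [_root_.smul_pow, ← Units.val_pow_eq_pow_val, hp, Units.val_one] at h2
  have h4 : c ∈ F₁ := H10.mem_subfield_of_pow_char (CharP.char_is_prime F (ringChar F))
    (mem_of_smul_one h2)
  have h5 := smul_mem_SR (F₁.inv_mem h4) hc
  rwa [smul_smul, inv_mul_cancel₀ c0, one_smul] at h5

theorem card_SR (F₁ : Subfield F) (P : 𝐆) : Nat.card (SR F₁ P) = Nat.card (SR F₁ 1) :=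
  Nat.card_congr
    { toFun := fun g => ⟨_, mem_SR_one.2 g.2⟩
      invFun := fun g => ⟨H98.cj P g, by rw [mem_SR, cj_inv_cj]; exact mem_SR_one.1 g.2⟩
      left_inv := fun g => Subtype.ext (cj_cj_inv _ _)
      right_inv := fun g => Subtype.ext (cj_inv_cj _ _) }

/-! ### Similarity groups -/

/-- `X` lies in the similarity group of a `σ`-Hermitian form -/
def T8 (σ : F ≃+* F) (X : Subgroup 𝐆) : Prop := ∃ f, IsSesq σ 1 f ∧ X ≤ similarityGroup f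

theorem mem_pb_sim {f : (Fin 3 → F) → (Fin 3 → F) → F} {Q g : 𝐆} :
    g ∈ pb Q (similarityGroup f) ↔
      g ∈ similarityGroup fun u v => f ((Q : 𝐌) *ᵥ u) ((Q : 𝐌) *ᵥ v) := by
  rw [mem_pb, mem_similarityGroup, mem_similarityGroup]
  refine exists_congr fun c => ⟨fun h u v => ?_, fun h u v => ?_⟩
  · have := h ((Q : 𝐌) *ᵥ u) ((Q : 𝐌) *ᵥ v)
    rwa [conj_mulVec_mulVec, conj_mulVec_mulVec] at this
  · rw [← mulVec_inv_mulVec Q u, ← mulVec_inv_mulVec Q v, conj_mulVec_mulVec, conj_mulVec_mulVec]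
    exact h _ _

theorem T8.pb {σ : F ≃+* F} {X : Subgroup 𝐆} (h : T8 σ X) (Q : 𝐆) : T8 σ (pb Q X) := by
  obtain ⟨f, hf, h⟩ := h
  exact ⟨_, hf.comp_gl Q, fun g hg => mem_pb_sim.1 (pb_mono h hg)⟩

section Sim

variable {σ : F ≃+* F} {f : (Fin 3 → F) → (Fin 3 → F) → F}

theorem det_adj' (hf : IsSesq σ 1 f) (x : 𝐌) : (adj σ f x).det = σ x.det := by
  rw [adj, show ∀ y : 𝐌, (y.map σ).det = σ y.det from fun y =>
    (RingEquiv.map_det σ y).symm, det_mul, det_mul, det_transpose, mul_right_comm,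
    det_nonsing_inv_mul_det _ hf.isUnit_det_gram, one_mul]

theorem sim_adj (hf : IsSesq σ 1 f) {g : 𝐆} (hg : g ∈ similarityGroup f) (hS : g ∈ 𝐒) :
    ∃ m : F, m ^ 3 = 1 ∧ adj σ f g = m • ((g⁻¹ : 𝐆) : 𝐌) := by
  obtain ⟨c, hc⟩ := hg
  have h1 := hf.adj_of_sim hc
  refine ⟨_, ?_, h1⟩
  have h2 := det_adj' hf (g : 𝐌)
  rw [h1, det_smul, mem_sl.1 hS, mem_sl.1 (inv_mem hS)] at h2
  simpa using h2

theorem sim_trace (hf : IsSesq σ 1 f) {g : 𝐆} (hg : g ∈ similarityGroup f) (hS : g ∈ 𝐒) :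
    ∃ m : F, m ^ 3 = 1 ∧ σ (g : 𝐌).trace = m * ((g⁻¹ : 𝐆) : 𝐌).trace := by
  obtain ⟨m, h1, h2⟩ := sim_adj hf hg hS
  exact ⟨m, h1, by rw [← hf.trace_adj, h2, trace_smul, smul_eq_mul]⟩

theorem exists_form_ne (hf : IsSesq σ 1 f) : ∃ u v, f u v ≠ 0 := by
  obtain ⟨x, hx⟩ := (hf.nondeg (Pi.single 0 1) (by simp)).1
  exact ⟨_, _, hx⟩

theorem sim_comm (hf : IsSesq σ 1 f) {g h : 𝐆} (hg : g ∈ similarityGroup f)
    (hh : h ∈ similarityGroup f) {ω : F} (e : (g : 𝐌) * h = ω • ((h : 𝐌) * g)) : ω * σ ω = 1 := by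
  obtain ⟨c, hc⟩ := hg
  obtain ⟨d, hd⟩ := hh
  obtain ⟨u, v, huv⟩ := exists_form_ne hf
  have h1 := hc ((h : 𝐌) *ᵥ u) ((h : 𝐌) *ᵥ v)
  rw [mulVec_mulVec, mulVec_mulVec, e, smul_mulVec, smul_mulVec, hf.smul_left, hf.smul_right,
    ← mulVec_mulVec, ← mulVec_mulVec, hd, hc, hd] at h1
  apply mul_right_cancel₀ (mul_ne_zero (mul_ne_zero c.ne_zero d.ne_zero) huv)
  linear_combination h1

theorem sim_p (hf : IsSesq σ 1 f) {g : 𝐆} (hg : g ∈ similarityGroup f) (hp : g ^ ringChar F = 1) :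
    g ∈ H10.isoG f := by
  obtain ⟨c, hc⟩ := hg
  have h1 : ∀ (k : ℕ) u v, f (((g ^ k : 𝐆) : 𝐌) *ᵥ u) (((g ^ k : 𝐆) : 𝐌) *ᵥ v) =
      (c : F) ^ k * f u v := by
    intro k
    induction k with
    | zero => simp
    | succ k ih =>
      intro u v
      rw [pow_succ', Units.val_mul, ← mulVec_mulVec, ← mulVec_mulVec, hc, ih, pow_succ', mul_assoc]
  obtain ⟨u, v, huv⟩ := exists_form_ne hf
  have h2 := h1 (ringChar F) u v
  rw [hp, Units.val_one, one_mulVec, one_mulVec] at h2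
  haveI := Fact.mk (CharP.char_is_prime F (ringChar F))
  have h3 : (c : F) = 1 := frobenius_inj F (ringChar F) (by
    rw [frobenius_def, map_one]
    exact mul_right_cancel₀ huv (by rw [one_mul, ← h2]))
  exact H10.mem_isoG.2 fun u v => by rw [hc, h3, one_mul]

end Sim

/-! ### Groups whose `p`-elements generate a full matrix ring -/

/-- the elements of order `p` of `X` generate a ring containing all matrices over `F₀` -/
def Gen (F₀ : Subfield F) (X : Subgroup 𝐆) : Prop :=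
  ∀ R : Subring 𝐌, (∀ g ∈ X, g ^ ringChar F = 1 → (g : 𝐌) ∈ R) → ∀ A : 𝐌, (∀ i j, A i j ∈ F₀) → A ∈ R

/-- the subgroup generated by the elements of order `p` -/
def PL (X : Subgroup 𝐆) : Subgroup 𝐆 := Subgroup.closure {g | g ∈ X ∧ g ^ ringChar F = 1}

theorem PL_le (X : Subgroup 𝐆) : PL X ≤ X := (Subgroup.closure_le _).2 fun _ h => h.1

theorem mem_PL {X : Subgroup 𝐆} {g : 𝐆} (hg : g ∈ X) (hp : g ^ ringChar F = 1) : g ∈ PL X :=
  Subgroup.subset_closure ⟨hg, hp⟩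

theorem single_mem (F₀ : Subfield F) (i j : Fin 3) {c : F} (hc : c ∈ F₀) (k l : Fin 3) :
    (Matrix.single i j c : 𝐌) k l ∈ F₀ := by
  rw [Matrix.single_apply]; split_ifs; exacts [hc, F₀.zero_mem]

namespace Gen

variable {F₀ : Subfield F} {X : Subgroup (GL (Fin 3) F)}

theorem mono (h : Gen F₀ X) {Y : Subgroup 𝐆} (hY : X ≤ Y) : Gen F₀ Y :=
  fun R hR => h R fun g hg => hR g (hY hg)

theorem grpAlg_eq (h : Gen F₀ X) : grpAlg (PL X) = ⊤ := by
  rw [eq_top_iff]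
  intro A _
  rw [matrix_eq_sum_single A]
  refine Subalgebra.sum_mem _ fun i _ => Subalgebra.sum_mem _ fun j _ => ?_
  have := (grpAlg (PL X)).smul_mem (h (grpAlg (PL X)).toSubring
    (fun g hg hp => coe_mem_grpAlg (mem_PL hg hp)) _ (single_mem F₀ i j F₀.one_mem)) (A i j)
  rwa [smul_single, smul_eq_mul, mul_one] at this

theorem irr (h : Gen F₀ X) : Irr X := (irr_of_grpAlg_eq_top h.grpAlg_eq).mono (PL_le X)

theorem exists_p (h : Gen F₀ X) : ∃ g ∈ X, g ^ ringChar F = 1 ∧ g ≠ 1 := by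
  by_contra hc
  push Not at hc
  have := h (Subring.center 𝐌) (fun g hg hp => by rw [hc g hg hp]; exact one_mem _) _
    (single_mem F₀ 0 1 F₀.one_mem)
  have h2 := congrFun (congrFun (Subring.mem_center_iff.1 this (Matrix.single 1 0 1)) 0) 0
  simp at h2

theorem le_of_sub (h : Gen F₀ X) {F₁ : Subfield F} {P : 𝐆} (hX : X ≤ subfieldSubgroup F₁ P) :
    F₀ ≤ F₁ ∧ (F₀ = F₁ → subfieldSubgroup F₁ P = subfieldSubgroup F₁ 1) := by
  have h1 := h (SR F₁ P) fun g hg hp => sub_p (hX hg) hp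
  refine ⟨fun c hc => mem_of_smul_one (h1 _ fun i j => ?_), ?_⟩
  · rw [Matrix.smul_apply, one_apply]; split_ifs; exacts [by simpa using hc, by simp]
  · rintro rfl
    have h2 : SR F₀ 1 = SR F₀ P := by
      apply SetLike.coe_injective
      exact Set.eq_of_subset_of_ncard_le (fun A hA => h1 A (mem_SR_one.1 hA))
        (le_of_eq (card_SR F₀ P))
    ext g
    rw [mem_sub_iff, mem_sub_iff, h2]

theorem le_of_trace (h : Gen F₀ X) {F₁ : Subfield F} (ht : ∀ g ∈ PL X, (g : 𝐌).trace ∈ F₁) :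
    F₀ ≤ F₁ := by
  let R : Subring 𝐌 := Subring.closure (matrixSet (PL X))
  have h1 : ∀ A ∈ R, A.trace ∈ F₁ := by
    intro A hA
    rw [Subring.mem_closure_iff] at hA
    induction hA using AddSubgroup.closure_induction with
    | mem x hx =>
      have : x ∈ ((PL X).toSubmonoid.map (Units.coeHom 𝐌)) :=
        (Submonoid.closure_le.2 (by rintro _ ⟨g, hg, rfl⟩; exact ⟨g, hg, rfl⟩)) hx
      obtain ⟨g, hg, rfl⟩ := this
      exact ht g hg
    | zero => simp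
    | add x y _ _ hx hy => rw [trace_add]; exact F₁.add_mem hx hy
    | neg x _ hx => rw [trace_neg]; exact F₁.neg_mem hx
  intro c hc
  have := h1 _ (h R (fun g hg hp => Subring.subset_closure (coe_mem_matrixSet (mem_PL hg hp))) _
    (single_mem F₀ 0 0 hc))
  simpa using this

theorem fixes {σ : F ≃+* F} {f : (Fin 3 → F) → (Fin 3 → F) → F} (hf : IsSesq σ 1 f)
    (hX : X ≤ similarityGroup f) : Fixes (PL X) f :=
  (H10.fixes_isoG f).mono ((Subgroup.closure_le _).2 fun _ hg => sim_p hf (hX hg.1) hg.2)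

theorem sim_eq (h : Gen F₀ X) {σ : F ≃+* F} {f f' : (Fin 3 → F) → (Fin 3 → F) → F}
    (hf : IsSesq σ 1 f) (hf' : IsSesq σ 1 f') (hX : X ≤ similarityGroup f)
    (hX' : X ≤ similarityGroup f') : similarityGroup f' ≤ similarityGroup f := by
  obtain ⟨c, c0, hc⟩ := form_unique hf' hf h.grpAlg_eq (fixes hf' hX') (fixes hf hX)
  rintro g ⟨d, hd⟩
  exact ⟨d, fun u v => by rw [hc, hc, hd, mul_left_comm]⟩

/-- two different types of forms -/
theorem eq_on (h : Gen F₀ X) {σ τ : F ≃+* F} {f f' : (Fin 3 → F) → (Fin 3 → F) → F}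
    (hf : IsSesq σ 1 f) (hf' : IsSesq τ 1 f') (hX : X ≤ similarityGroup f)
    (hX' : X ≤ similarityGroup f') : ∀ c ∈ F₀, σ c = τ c :=
  h.le_of_trace (F₁ := RingHom.eqLocusField (σ : F →+* F) (τ : F →+* F)) fun _ hg =>
    (trace_inv_of_fixes hf (fixes hf hX) hg).symm.trans (trace_inv_of_fixes hf' (fixes hf' hX') hg)

end Gen

end Cfsg.Agent.H85.L3
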