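import Cfsg.Agent.H85.L3A
import Cfsg.Agent.H98.ExtraCard

/-! The extraspecial group `3^(1+2)` in `GL₃(q)` and its normaliser. -/

set_option autoImplicit false
set_option linter.unusedSectionVars false
set_option linter.style.haveILetI false

namespace Cfsg.Agent.H85.L3

open Cfsg Cfsg.Geo Cfsg.Agent.H98 Cfsg.Agent.H99 Matrix

variable {F : Type*} [Field F] [Fintype F]

local notation "𝐆" => GL (Fin 3) F
local notation "𝐙" => scalars (Fin 3) F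
local notation "𝐒" => specialLinear (Fin 3) F
local notation "𝐌" => Matrix (Fin 3) (Fin 3) F
local notation "𝐕" => ZMod 3 × ZMod 3

/-- an invertible matrix -/
noncomputable def mk3 (A : 𝐌) (h : A.det ≠ 0) : 𝐆 := GeneralLinearGroup.mkOfDetNeZero A h

theorem coe_mk3 (A : 𝐌) (h : A.det ≠ 0) : ((mk3 A h : 𝐆) : 𝐌) = A := rfl

/-- a matrix of determinant one -/
noncomputable def mk1 (A : 𝐌) (h : A.det = 1) : 𝐆 := mk3 A (h ▸ one_ne_zero)

theorem coe_mk1 (A : 𝐌) (h : A.det = 1) : ((mk1 A h : 𝐆) : 𝐌) = A := rfl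

theorem mk1_mem (A : 𝐌) (h : A.det = 1) : mk1 A h ∈ 𝐒 := mem_sl.2 h

theorem coe_mk1_inv (A : 𝐌) (h : A.det = 1) : (((mk1 A h)⁻¹ : 𝐆) : 𝐌) = A.adjugate :=
  (adj_eq_inv (g := mk1 A h) h).symm

/-- the cyclic permutation matrix -/
def yM (F : Type*) [Field F] : Matrix (Fin 3) (Fin 3) F := !![0, 0, 1; 1, 0, 0; 0, 1, 0]

theorem det_yM : (yM F).det = 1 := by simp [yM, det_fin_three]

/-- the cyclic permutation matrix -/
noncomputable def yG (F : Type*) [Field F] [Fintype F] : GL (Fin 3) F := mk1 (yM F) det_yM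

/-- diagonal matrices -/
def dM (a b c : F) : 𝐌 := !![a, 0, 0; 0, b, 0; 0, 0, c]

theorem det_dM (a b c : F) : (dM a b c).det = a * b * c := by simp [dM, det_fin_three]

theorem dM_mulVec (a b c : F) (v : Fin 3 → F) : dM a b c *ᵥ v = ![a * v 0, b * v 1, c * v 2] := by
  ext i; fin_cases i <;> simp [dM, mulVec, dotProduct, Fin.sum_univ_three]

theorem yM_mulVec (v : Fin 3 → F) : yM F *ᵥ v = ![v 2, v 0, v 1] := by
  ext i; fin_cases i <;> simp [yM, mulVec, dotProduct, Fin.sum_univ_three]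

theorem sub_of_diag {a b c : F} (h1 : a ≠ b) (h2 : a ≠ c) {W : Submodule F (Fin 3 → F)}
    (k1 : ∀ v ∈ W, dM a b c *ᵥ v ∈ W) (k2 : ∀ v ∈ W, yM F *ᵥ v ∈ W) : W = ⊥ ∨ W = ⊤ := by
  by_cases hb : W = ⊥
  · exact Or.inl hb
  right
  have k3 : ∀ v ∈ W, v 0 ≠ 0 → W = ⊤ := by
    intro v hv h0
    have a1 := W.sub_mem (k1 v hv) (W.smul_mem b hv)
    have a2 := W.sub_mem (k1 _ a1) (W.smul_mem c a1)
    have a3 := W.smul_mem ((a - b) * (a - c) * v 0)⁻¹ a2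
    have hne := mul_ne_zero (mul_ne_zero (sub_ne_zero.2 h1) (sub_ne_zero.2 h2)) h0
    have e0 : (![1, 0, 0] : Fin 3 → F) ∈ W := by
      have : (![1, 0, 0] : Fin 3 → F) = ((a - b) * (a - c) * v 0)⁻¹ •
          (dM a b c *ᵥ (dM a b c *ᵥ v - b • v) - c • (dM a b c *ᵥ v - b • v)) := by
        rw [eq_inv_smul_iff₀ hne, dM_mulVec, dM_mulVec]
        ext i
        fin_cases i <;> simp [vecHead, vecTail]
        all_goals ring
      rwa [this]
    have e1 := k2 _ e0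
    have e2 := k2 _ e1
    rw [yM_mulVec] at e1
    rw [yM_mulVec, yM_mulVec] at e2
    rw [eq_top_iff]
    intro u _
    convert W.add_mem (W.add_mem (W.smul_mem (u 0) e0) (W.smul_mem (u 1) e1)) (W.smul_mem (u 2) e2)
    ext i
    fin_cases i <;> simp
  obtain ⟨v, hv, hv0⟩ := Submodule.exists_mem_ne_zero_of_ne_bot hb
  by_cases h0 : v 0 = 0
  · by_cases h2 : v 2 = 0
    · refine k3 _ (k2 _ (k2 v hv)) ?_
      rw [yM_mulVec, yM_mulVec]
      intro h1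
      exact hv0 (by ext i; fin_cases i; exacts [h0, h1, h2])
    · exact k3 _ (k2 v hv) (by rw [yM_mulVec]; exact h2)
  · exact k3 v hv h0

theorem irr_of_diag {X : Subgroup 𝐆} {g : 𝐆} {a b c : F} (hg : g ∈ X) (e : (g : 𝐌) = dM a b c)
    (h1 : a ≠ b) (h2 : a ≠ c) (hy : yG F ∈ X) : Irr X := fun _ hW =>
  sub_of_diag h1 h2 (fun v hv => e ▸ hW g hg v hv) (hW _ hy)

/-- a primitive cube root of unity -/
structure Om (ω : F) : Prop where
  eq : ω ^ 2 + ω + 1 = 0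
  three : (3 : F) ≠ 0

namespace Om

variable {ω : F} (h : Om ω)
include h

theorem cube : ω ^ 3 = 1 := by linear_combination (ω - 1) * h.eq
theorem ne_one : ω ≠ 1 := fun e => h.three (by have := h.eq; rw [e] at this; linear_combination this)
theorem ne_zero : ω ≠ 0 := fun e => by have := h.cube; simp [e] at this
theorem sq_ne_one : ω ^ 2 ≠ 1 := fun e => h.ne_one (by linear_combination h.cube - ω * e)
theorem sq_ne : ω ≠ ω ^ 2 := fun e => h.ne_one (mul_left_cancel₀ h.ne_zero (by linear_combination -e))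

theorem cases {c : F} (hc : c ^ 3 = 1) : c = 1 ∨ c = ω ∨ c = ω ^ 2 := by
  have : (c - 1) * ((c - ω) * (c - ω ^ 2)) = 0 := by
    linear_combination hc + (-c ^ 2 + c) * h.eq + (c - 1) * h.cube
  simpa only [mul_eq_zero, sub_eq_zero] using this

theorem det_x : (dM 1 ω (ω ^ 2)).det = 1 := by rw [det_dM]; linear_combination h.cube

end Om

theorem om_of_cube {c : F} (h3 : (3 : F) ≠ 0) (h : c ^ 3 = 1) (h1 : c ≠ 1) : Om c :=
  ⟨mul_left_cancel₀ (sub_ne_zero.2 h1) (by linear_combination h), h3⟩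

/-- powers of `ω` -/
def w (ω : F) (a : ZMod 3) : F := ω ^ a.val

/-- `x ^ a * y ^ b` -/
def EM (ω : F) (v : 𝐕) : 𝐌 := dM 1 ω (ω ^ 2) ^ v.1.val * yM F ^ v.2.val

/-- the commutation relations of `r` with `x` and `y` -/
def Ty (ω : F) (r : 𝐌) (v : 𝐕) : Prop :=
  dM 1 ω (ω ^ 2) * r = w ω v.2 • (r * dM 1 ω (ω ^ 2)) ∧ r * yM F = w ω v.1 • (yM F * r)

theorem zmod3 (a : ZMod 3) : a = 0 ∨ a = 1 ∨ a = 2 := by revert a; decide

theorem w_zero (ω : F) : w ω 0 = 1 := pow_zero _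
theorem w_one (ω : F) : w ω 1 = ω := pow_one _
theorem w_two (ω : F) : w ω 2 = ω ^ 2 := rfl

theorem Ty.smul {ω : F} {r : 𝐌} {v : 𝐕} (h : Ty ω r v) (c : F) : Ty ω (c • r) v :=
  ⟨by rw [mul_smul_comm, smul_mul_assoc, h.1, smul_comm],
    by rw [mul_smul_comm, smul_mul_assoc, h.2, smul_comm]⟩

theorem ty_one (ω : F) : Ty ω 1 0 := ⟨by simp [w_zero], by simp [w_zero]⟩

namespace Om

variable {ω : F} (h : Om ω)
include h

theorem w_add (a b : ZMod 3) : w ω (a + b) = w ω a * w ω b := by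
  rw [w, w, w, ← pow_add, ZMod.val_add, ← pow_eq_pow_mod _ h.cube]

theorem w_ne_zero (a : ZMod 3) : w ω a ≠ 0 := pow_ne_zero _ h.ne_zero

theorem w_inj {a b : ZMod 3} (e : w ω a = w ω b) : a = b := by
  have := h.ne_one
  have := h.sq_ne_one
  have := h.sq_ne
  rcases zmod3 a with rfl | rfl | rfl <;> rcases zmod3 b with rfl | rfl | rfl <;>
    simp_all [w_zero, w_one, w_two, eq_comm]

theorem exists_w {c : F} (hc : c ^ 3 = 1) : ∃ a, c = w ω a := by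
  rcases h.cases hc with e | e | e
  exacts [⟨0, e.trans (w_zero ω).symm⟩, ⟨1, e.trans (w_one ω).symm⟩, ⟨2, e⟩]

theorem ty_mul {r s : 𝐌} {u v : 𝐕} (h1 : Ty ω r u) (h2 : Ty ω s v) : Ty ω (r * s) (u + v) :=
  ⟨by rw [← mul_assoc, h1.1, smul_mul_assoc, mul_assoc, h2.1, mul_smul_comm, smul_smul, Prod.snd_add,
    h.w_add, mul_assoc], by rw [mul_assoc, h2.2, mul_smul_comm, ← mul_assoc, h1.2, smul_mul_assoc,
    smul_smul, Prod.fst_add, h.w_add, mul_comm (w ω u.1), mul_assoc]⟩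

theorem ty_pow {r : 𝐌} {u : 𝐕} (h1 : Ty ω r u) (k : ℕ) : Ty ω (r ^ k) (k • u) := by
  induction k with
  | zero => simpa using ty_one ω
  | succ k ih => rw [pow_succ, succ_nsmul]; exact h.ty_mul ih h1

theorem xy : dM 1 ω (ω ^ 2) * yM F = ω • (yM F * dM 1 ω (ω ^ 2)) := by
  ext i j
  fin_cases i <;> fin_cases j <;> simp [dM, yM]
  · linear_combination -h.cube
  · ring

theorem ty_x : Ty ω (dM 1 ω (ω ^ 2)) (1, 0) := ⟨by simp [w_zero], by rw [w_one, h.xy]⟩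
theorem ty_y : Ty ω (yM F) (0, 1) := ⟨by rw [w_one, h.xy], by simp [w_zero]⟩

theorem ty_E (v : 𝐕) : Ty ω (EM ω v) v := by
  have : ∀ v : 𝐕, v.1.val • ((1, 0) : 𝐕) + v.2.val • (0, 1) = v := by decide
  have k := h.ty_mul (h.ty_pow h.ty_x v.1.val) (h.ty_pow h.ty_y v.2.val)
  rwa [this] at k

theorem det_E (v : 𝐕) : (EM ω v).det = 1 := by
  rw [EM, det_mul, det_pow, det_pow, h.det_x, det_yM]; simp

theorem scalar_of_ty {r : 𝐌} (h1 : Ty ω r 0) : ∃ c : F, r = c • 1 := by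
  obtain ⟨a, b⟩ := h1
  simp only [Prod.fst_zero, Prod.snd_zero, w_zero, one_smul] at a b
  have n1 := sub_ne_zero.2 h.ne_one
  have n2 := sub_ne_zero.2 h.sq_ne_one
  have n3 := sub_ne_zero.2 h.sq_ne
  have a01 := congrFun (congrFun a 0) 1
  have a02 := congrFun (congrFun a 0) 2
  have b00 := congrFun (congrFun b 0) 0
  have b01 := congrFun (congrFun b 0) 1
  have b02 := congrFun (congrFun b 0) 2
  have b10 := congrFun (congrFun b 1) 0
  have b11 := congrFun (congrFun b 1) 1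
  have b12 := congrFun (congrFun b 1) 2
  have b20 := congrFun (congrFun b 2) 0
  simp [dM, yM, Matrix.mul_apply, Fin.sum_univ_three] at a01 a02 b00 b01 b02 b10 b11 b12 b20
  have c01 : r 0 1 = 0 := mul_left_cancel₀ n1 (by linear_combination -a01)
  have c02 : r 0 2 = 0 := mul_left_cancel₀ n2 (by linear_combination -a02)
  refine ⟨r 0 0, ?_⟩
  ext i j
  fin_cases i <;> fin_cases j <;> simp
  · exact c01
  · exact c02
  · exact b12.symm ▸ b01 ▸ c02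
  · exact b10
  · exact b11.trans c01
  · exact b00 ▸ c01
  · exact b01 ▸ c02
  · exact b02.symm

theorem eq_of_ty {r : 𝐌} {v : 𝐕} (h1 : Ty ω r v) : ∃ c : F, r = c • EM ω v := by
  obtain ⟨c, hc⟩ := h.scalar_of_ty (by simpa using h.ty_mul h1 (h.ty_E (-v)))
  obtain ⟨d, hd⟩ := h.scalar_of_ty (by simpa using h.ty_mul (h.ty_E (-v)) (h.ty_E v))
  have d0 : d ≠ 0 := by
    rintro rfl
    have := congrArg det hd
    rw [det_mul, h.det_E, h.det_E] at this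
    simp at this
  refine ⟨d⁻¹ * c, ?_⟩
  have : r * EM ω (-v) * EM ω v = c • EM ω v := by rw [hc, smul_mul_assoc, one_mul]
  rw [mul_assoc, hd, mul_smul_comm, mul_one] at this
  rw [← smul_smul, ← this, smul_smul, inv_mul_cancel₀ d0, one_smul]

theorem ty_unique {r : 𝐆} {u v : 𝐕} (h1 : Ty ω r u) (h2 : Ty ω r v) : u = v := by
  have k : ∀ {A : 𝐌} {c d : F}, A.det ≠ 0 → c • A = d • A → c = d := fun hA e =>
    smul_left_injective F (by rintro rfl; simp at hA) e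
  ext
  · exact h.w_inj (k (by rw [det_mul, det_yM, one_mul]; exact r.det_ne_zero) (h1.2.symm.trans h2.2))
  · exact h.w_inj (k (by rw [det_mul, h.det_x, mul_one]; exact r.det_ne_zero) (h1.1.symm.trans h2.1))

theorem ty_inv {r : 𝐆} {u : 𝐕} (h1 : Ty ω r u) : Ty ω ((r⁻¹ : 𝐆) : 𝐌) (-u) := by
  have h2 := h.ty_pow h1 2
  have k : ∀ u : 𝐕, 3 • u = 0 ∧ 2 • u = -u := by decide
  obtain ⟨c, hc⟩ := h.scalar_of_ty (r := (r : 𝐌) ^ 3) ((k u).1 ▸ h.ty_pow h1 3)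
  have c0 : c ≠ 0 := by
    rintro rfl
    rw [← Units.val_pow_eq_pow_val, zero_smul] at hc
    exact Units.ne_zero _ hc
  have : ((r⁻¹ : 𝐆) : 𝐌) = c⁻¹ • (r : 𝐌) ^ 2 := by
    rw [← mul_one ((r⁻¹ : 𝐆) : 𝐌), ← one_smul F (1 : 𝐌), ← inv_mul_cancel₀ c0, ← smul_smul, ← hc,
      mul_smul_comm, pow_succ', ← mul_assoc, Units.inv_mul, one_mul]
  rw [this]
  exact (k u).2 ▸ h2.smul c⁻¹

theorem E_cube (v : 𝐕) : EM ω v ^ 3 = 1 := by
  have h3 := h.cube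
  rcases v with ⟨a, b⟩
  rcases zmod3 a with rfl | rfl | rfl <;> rcases zmod3 b with rfl | rfl | rfl <;>
    ext i j <;> fin_cases i <;> fin_cases j <;>
    simp [EM, dM, yM, pow_succ, ZMod.val_one, show (2 : ZMod 3).val = 2 from rfl] <;>
    first | linear_combination h3 | linear_combination (ω ^ 3 + 1) * h3
          | linear_combination (ω ^ 9 + ω ^ 6 + ω ^ 3 + 1) * h3

theorem cube_of_ty {r : 𝐆} {v : 𝐕} (hS : r ∈ 𝐒) (h1 : Ty ω r v) : r ^ 3 = 1 := by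
  obtain ⟨c, hc⟩ := h.eq_of_ty h1
  have h2 := mem_sl.1 hS
  rw [hc, det_smul, h.det_E, mul_one, Fintype.card_fin] at h2
  apply Units.ext
  rw [Units.val_pow_eq_pow_val, hc, _root_.smul_pow, h2, h.E_cube, one_smul, Units.val_one]

theorem ty_comm {r : 𝐌} {u : 𝐕} (h1 : Ty ω r u) (v : 𝐕) :
    r * EM ω v = w ω (u.1 * v.2 - u.2 * v.1) • (EM ω v * r) := by
  have k : ∀ {A : 𝐌} {a : ZMod 3}, r * A = w ω a • (A * r) → ∀ n : ℕ,
      r * A ^ n = w ω (a * n) • (A ^ n * r) := fun {A a} e n => by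
    induction n with
    | zero => simp [w_zero]
    | succ n ih =>
      rw [pow_succ, ← mul_assoc, ih, smul_mul_assoc, mul_assoc, e, mul_smul_comm, smul_smul,
        ← h.w_add, mul_assoc, Nat.cast_succ, mul_add, mul_one]
  have k1 : r * dM 1 ω (ω ^ 2) = w ω (-u.2) • (dM 1 ω (ω ^ 2) * r) := by
    rw [h1.1, smul_smul, ← h.w_add, neg_add_cancel, w_zero, one_smul]
  rw [EM, ← mul_assoc, k k1, smul_mul_assoc, mul_assoc, k h1.2, mul_smul_comm, smul_smul,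
    ← h.w_add, mul_assoc]
  congr 2
  simp only [ZMod.natCast_val, ZMod.cast_id', id_eq]
  ring

/-- the element `diag (1, ω, ω²)` -/
noncomputable def xG : 𝐆 := mk1 _ h.det_x

/-- the standard extraspecial group -/
def Rs : Subgroup 𝐆 where
  carrier := {g | g ∈ 𝐒 ∧ ∃ v, Ty ω (g : 𝐌) v}
  one_mem' := ⟨one_mem _, 0, ty_one ω⟩
  mul_mem' := fun ⟨a, u, hu⟩ ⟨b, v, hv⟩ => ⟨mul_mem a b, u + v, h.ty_mul hu hv⟩
  inv_mem' := fun ⟨a, u, hu⟩ => ⟨inv_mem a, -u, h.ty_inv hu⟩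

theorem Rs_le : h.Rs ≤ 𝐒 := fun _ hg => hg.1
theorem x_mem : h.xG ∈ h.Rs := ⟨mk1_mem _ _, _, h.ty_x⟩
theorem y_mem : yG F ∈ h.Rs := ⟨mk1_mem _ _, _, h.ty_y⟩

theorem irr_of {X : Subgroup 𝐆} (hx : h.xG ∈ X) (hy : yG F ∈ X) : Irr X :=
  irr_of_diag hx rfl h.ne_one.symm h.sq_ne_one.symm hy

theorem grpAlg_Rs : grpAlg h.Rs = ⊤ :=
  grpAlg_eq_top_of_absIrr ⟨irr_iff.1 (h.irr_of h.x_mem h.y_mem), fun M hM => h.scalar_of_ty
    ⟨by rw [Prod.snd_zero, w_zero, one_smul]; exact (hM _ (coe_mem_matrixSet h.x_mem)).symm,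
     by rw [Prod.fst_zero, w_zero, one_smul]; exact hM _ (coe_mem_matrixSet h.y_mem)⟩⟩

end Om

/-- the linear map with matrix `M` -/
def Lm (M : 𝐕 × 𝐕) (v : 𝐕) : 𝐕 := (v.1 * M.1.1 + v.2 * M.2.1, v.1 * M.1.2 + v.2 * M.2.2)

/-- composition -/
def cmp (M N : 𝐕 × 𝐕) : 𝐕 × 𝐕 := (Lm M N.1, Lm M N.2)

/-- identity -/
def idm : 𝐕 × 𝐕 := ((1, 0), (0, 1))

/-- determinant -/
def dtm (M : 𝐕 × 𝐕) : ZMod 3 := M.1.1 * M.2.2 - M.1.2 * M.2.1

/-- powers -/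
def pwm (M : 𝐕 × 𝐕) : ℕ → 𝐕 × 𝐕
  | 0 => idm
  | n + 1 => cmp (pwm M n) M

theorem Lm_cmp (M N : 𝐕 × 𝐕) (v : 𝐕) : Lm M (Lm N v) = Lm (cmp M N) v := by
  ext <;> simp only [Lm, cmp] <;> ring

theorem pwm_twelve : ∀ M, dtm M = 1 → pwm M 12 = idm := by decide +kernel

theorem invol_cases : ∀ M, dtm M = 1 → cmp M M = idm → M = idm ∨ M = ((2, 0), (0, 2)) := by
  decide +kernel

/-- `g` acts on the extraspecial group modulo its centre as `M` -/
def Act (ω : F) (g : 𝐆) (M : 𝐕 × 𝐕) : Prop :=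
  ∀ (r : 𝐌) v, Ty ω r v → Ty ω ((g : 𝐌) * r * ((g⁻¹ : 𝐆) : 𝐌)) (Lm M v)

theorem Act.mul {ω : F} {g g' : 𝐆} {M N : 𝐕 × 𝐕} (h : Act ω g M) (h' : Act ω g' N) :
    Act ω (g * g') (cmp M N) := fun r v hr => by
  have := h _ _ (h' r v hr)
  rw [Lm_cmp] at this
  convert this using 1
  simp [mul_assoc]

theorem act_scalar (ω : F) {g : 𝐆} (hg : g ∈ 𝐙) : Act ω g idm := fun r v hr => by
  obtain ⟨c, rfl⟩ := mem_scalars_iff'.1 hg
  have : ((scal (Fin 3) c : 𝐆) : 𝐌) * r * (((scal (Fin 3) c)⁻¹ : 𝐆) : 𝐌) = r := by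
    rw [mul_assoc, ← scal_inv, coe_scal, coe_scal]; simp [smul_smul]
  rw [this]
  convert hr using 1
  ext <;> simp [Lm, idm]

theorem Act.pow {ω : F} {g : 𝐆} {M : 𝐕 × 𝐕} (h : Act ω g M) (n : ℕ) : Act ω (g ^ n) (pwm M n) := by
  induction n with
  | zero => exact act_scalar ω (one_mem _)
  | succ n ih => rw [pow_succ]; exact ih.mul h

theorem comm_scalar {a b : 𝐆} (h : a * b * a⁻¹ * b⁻¹ ∈ 𝐙) (h3 : (a * b * a⁻¹ * b⁻¹) ^ 3 = 1) :
    ∃ c : F, c ^ 3 = 1 ∧ (a : 𝐌) * b = c • ((b : 𝐌) * a) := by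
  obtain ⟨c, hc⟩ := mem_scalars_iff'.1 h
  refine ⟨c, ?_, ?_⟩
  · rw [hc, ← scal_pow, ← scal_one] at h3
    rw [← Units.val_pow_eq_pow_val, scal_injective h3, Units.val_one]
  · have : a * b = scal (Fin 3) c * (b * a) := by rw [← hc]; group
    rw [← Units.val_mul, this, Units.val_mul, coe_scal, smul_mul_assoc, one_mul, Units.val_mul]

theorem perm3_aux (a b h : Equiv.Perm (Fin 3)) (h1 : a ^ 3 = 1) (h2 : h * a = b * h)
    (h3 : h * b = a * a * h) : a = 1 ∧ b = 1 := by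
  have k : ∀ a b h : Equiv.Perm (Fin 3), a * a * a = 1 ∧ h * a = b * h ∧ h * b = a * a * h →
    a = 1 := by decide +kernel
  obtain rfl := k a b h ⟨by rwa [← pow_three'], h2, h3⟩
  simpa [eq_comm] using h2

namespace Om

variable {ω : F} (h : Om ω)
include h

theorem act_unique {g : 𝐆} {M N : 𝐕 × 𝐕} (h1 : Act ω g M) (h2 : Act ω g N) : M = N := by
  have a := h.ty_unique (r := g * h.xG * g⁻¹) (h1 _ _ h.ty_x) (h2 _ _ h.ty_x)
  have b := h.ty_unique (r := g * yG F * g⁻¹) (h1 _ _ h.ty_y) (h2 _ _ h.ty_y)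
  simp only [Lm, one_mul, zero_mul, add_zero, zero_add] at a b
  exact Prod.ext a b

theorem act_of {g : 𝐆} {u u' : 𝐕} (h1 : Ty ω ((g * h.xG * g⁻¹ : 𝐆) : 𝐌) u)
    (h2 : Ty ω ((g * yG F * g⁻¹ : 𝐆) : 𝐌) u') : Act ω g (u, u') := fun r v hr => by
  obtain ⟨c, rfl⟩ := h.eq_of_ty hr
  have k := (h.ty_mul (h.ty_pow h1 v.1.val) (h.ty_pow h2 v.2.val)).smul c
  rw [← Units.val_pow_eq_pow_val, ← Units.val_pow_eq_pow_val, conj_pow, conj_pow, ← Units.val_mul,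
    conj_mul] at k
  convert k using 1
  · simp [EM, mul_assoc]; rfl
  · ext <;> simp [Lm]

theorem act_of' {g : 𝐆} {A B : 𝐌} {u u' : 𝐕} (h1 : (g : 𝐌) * dM 1 ω (ω ^ 2) = A * g)
    (h2 : (g : 𝐌) * yM F = B * g) (a : Ty ω A u) (b : Ty ω B u') : Act ω g (u, u') := by
  refine h.act_of ?_ ?_
  · rwa [Units.val_mul, Units.val_mul, show ((h.xG : 𝐆) : 𝐌) = dM 1 ω (ω ^ 2) from rfl, h1,
      Units.mul_inv_cancel_right]
  · rwa [Units.val_mul, Units.val_mul, show ((yG F : 𝐆) : 𝐌) = yM F from rfl, h2,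
      Units.mul_inv_cancel_right]

/-- the normaliser in `SL₃` -/
def NR : Subgroup 𝐆 := Subgroup.normalizer (h.Rs : Set 𝐆) ⊓ 𝐒

theorem mem_NR {g : 𝐆} {M : 𝐕 × 𝐕} (h1 : Act ω g M) (hS : g ∈ 𝐒) : g ∈ h.NR :=
  ⟨Subgroup.mem_normalizer_fintype fun _ ⟨a, v, hv⟩ => ⟨conj_mem_sl a g, _, h1 _ v hv⟩, hS⟩

theorem exists_act {g : 𝐆} (hg : g ∈ h.NR) : ∃ M, Act ω g M ∧ dtm M = 1 := by
  obtain ⟨-, u, hu⟩ := (Subgroup.mem_normalizer_iff.1 hg.1 _).1 h.x_mem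
  obtain ⟨-, v, hv⟩ := (Subgroup.mem_normalizer_iff.1 hg.1 _).1 h.y_mem
  refine ⟨_, h.act_of hu hv, ?_⟩
  obtain ⟨c, hc⟩ := h.eq_of_ty hv
  have k := congrArg (c • ·) (h.ty_comm hu v)
  rw [smul_comm, ← mul_smul_comm, ← smul_mul_assoc, ← hc, ← Units.val_mul, ← Units.val_mul,
    conj_mul, conj_mul] at k
  have k2 : ((g * (h.xG * yG F) * g⁻¹ : 𝐆) : 𝐌) = w ω 1 • ((g * (yG F * h.xG) * g⁻¹ : 𝐆) : 𝐌) := by
    simp only [Units.val_mul]
    rw [← smul_mul_assoc, ← mul_smul_comm, w_one]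
    exact congrArg (fun A => (g : 𝐌) * A * ((g⁻¹ : 𝐆) : 𝐌)) h.xy
  exact h.w_inj (smul_left_injective F (Units.ne_zero _) (k.symm.trans k2))

theorem mem_Rs_of_act {g : 𝐆} (h1 : Act ω g idm) (hS : g ∈ 𝐒) : g ∈ h.Rs := by
  have k : ∀ {a : 𝐆} {v : 𝐕}, a ∈ 𝐒 → Ty ω (a : 𝐌) v → EM ω v = a →
      ∃ t, (g : 𝐌) * a = w ω t • ((a : 𝐌) * g) := fun {a v} ha hv e => by
    have := h1 _ _ hv
    rw [show Lm idm v = v by ext <;> simp [Lm, idm]] at this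
    obtain ⟨c, hc⟩ := h.eq_of_ty this
    have h2 := mem_sl.1 (conj_mem_sl ha g)
    rw [Units.val_mul, Units.val_mul, hc, det_smul, h.det_E, mul_one, Fintype.card_fin] at h2
    obtain ⟨t, rfl⟩ := h.exists_w h2
    exact ⟨t, by rw [← smul_mul_assoc, ← e, ← hc, e, Units.inv_mul_cancel_right]⟩
  obtain ⟨a, ha⟩ := k (h.Rs_le h.x_mem) h.ty_x (by simp [EM, ZMod.val_one]; rfl)
  obtain ⟨b, hb⟩ := k (h.Rs_le h.y_mem) h.ty_y (by simp [EM, ZMod.val_one]; rfl)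
  refine ⟨hS, (b, -a), ?_, hb⟩
  erw [ha]
  rw [smul_smul, ← h.w_add, neg_add_cancel, w_zero, one_smul]; rfl

theorem cube_of_mem {g : 𝐆} (hg : g ∈ h.Rs) : g ^ 3 = 1 := hg.2.elim fun _ hv => h.cube_of_ty hg.1 hv

theorem pow36 {g : 𝐆} (hg : g ∈ h.NR) : g ^ 36 = 1 := by
  obtain ⟨M, h1, h2⟩ := h.exists_act hg
  have := h1.pow 12
  rw [pwm_twelve M h2] at this
  have := h.cube_of_mem (h.mem_Rs_of_act this (pow_mem hg.2 12))
  rwa [← pow_mul] at this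

theorem no_four {a b : 𝐆} (ha : a ∈ h.NR) (hb : b ∈ h.NR) (a2 : a * a = 1) (b2 : b * b = 1)
    (hab : a * b * (a * b) = 1) (a1 : a ≠ 1) (b1 : b ≠ 1) : a * b = 1 := by
  have k0 : ∀ {g : 𝐆}, g ∈ 𝐒 → g * g = 1 → Act ω g idm → g = 1 := fun {g} hg g2 h1 => by
    have := h.cube_of_mem (h.mem_Rs_of_act h1 hg)
    rwa [pow_succ, sq, g2, one_mul] at this
  have k : ∀ {g : 𝐆}, g ∈ h.NR → g * g = 1 → g ≠ 1 → Act ω g ((2, 0), (0, 2)) := by
    intro g hg g2 g1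
    obtain ⟨M, h1, h2⟩ := h.exists_act hg
    have h3 := h1.mul h1
    rw [g2] at h3
    rcases invol_cases M h2 (h.act_unique h3 (act_scalar ω (one_mem _))) with rfl | rfl
    exacts [absurd (k0 hg.2 g2 h1) g1, h1]
  have := (k ha a2 a1).mul (k hb b2 b1)
  rw [show cmp ((2, 0), (0, 2)) ((2, 0), (0, 2)) = idm by decide] at this
  exact k0 (mul_mem ha.2 hb.2) hab this

theorem theta_ne : ω - ω ^ 2 ≠ 0 := sub_ne_zero.2 h.sq_ne

theorem det_h1 : ((ω - ω ^ 2)⁻¹ • !![1, 1, 1; 1, ω, ω ^ 2; 1, ω ^ 2, ω] : 𝐌).det = 1 := by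
  rw [det_smul, Fintype.card_fin, inv_pow, inv_mul_eq_one₀ (pow_ne_zero _ h.theta_ne)]
  simp [det_fin_three]
  linear_combination (-ω ^ 4 + 4 * ω ^ 3 - 5 * ω ^ 2 + 2 * ω) * h.eq

/-- an element of order four of the normaliser -/
noncomputable def h1 : 𝐆 := mk1 _ h.det_h1

/-- the element `diag (ω, 1, 1)` -/
noncomputable def dG : 𝐆 := mk3 (dM ω 1 1) (by rw [det_dM]; simpa using h.ne_zero)

omit h in
theorem det_s : (!![-1, 0, 0; 0, 0, -1; 0, -1, 0] : 𝐌).det = 1 := by simp [det_fin_three]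

theorem h1_x : ((h.h1 : 𝐆) : 𝐌) * dM 1 ω (ω ^ 2) = (yM F * yM F) * h.h1 := by
  rw [h1, coe_mk1, smul_mul_assoc, mul_smul_comm]
  congr 1
  ext i j
  fin_cases i <;> fin_cases j <;> simp [dM, yM] <;>
    first | ring1 | linear_combination h.cube | linear_combination ω * h.cube

theorem h1_y : ((h.h1 : 𝐆) : 𝐌) * yM F = dM 1 ω (ω ^ 2) * h.h1 := by
  rw [h1, coe_mk1, smul_mul_assoc, mul_smul_comm]
  congr 1
  ext i j
  fin_cases i <;> fin_cases j <;> simp [dM, yM] <;>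
    first | ring1 | linear_combination -h.cube | linear_combination -ω * h.cube

theorem act_h1 : Act ω h.h1 ((0, 2), (1, 0)) :=
  h.act_of' h.h1_x h.h1_y (h.ty_mul h.ty_y h.ty_y) h.ty_x

theorem act_d : Act ω h.dG ((1, 0), (1, 1)) := by
  refine h.act_of' (B := ω • (dM 1 ω (ω ^ 2) * yM F)) ?_ ?_ h.ty_x ((h.ty_mul h.ty_x h.ty_y).smul ω)
  · rw [dG, coe_mk3]
    ext i j
    fin_cases i <;> fin_cases j <;> simp [dM]
  · rw [dG, coe_mk3]
    ext i j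
    fin_cases i <;> fin_cases j <;> simp [dM, yM] <;> linear_combination -h.cube

theorem d_inv : h.dG⁻¹ = h.dG * h.dG := by
  rw [inv_eq_iff_mul_eq_one]
  apply Units.ext
  rw [Units.val_mul, Units.val_mul, dG, coe_mk3]
  ext i j
  fin_cases i <;> fin_cases j <;> simp [dM]
  linear_combination h.cube

theorem h1_sq : h.h1 * h.h1 = mk1 _ det_s := by
  apply Units.ext
  rw [Units.val_mul, h1, coe_mk1, coe_mk1, smul_mul_smul_comm, ← mul_inv,
    inv_smul_eq_iff₀ (mul_ne_zero h.theta_ne h.theta_ne)]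
  ext i j
  fin_cases i <;> fin_cases j <;> simp <;>
    first | linear_combination h.eq | linear_combination (ω ^ 2 - ω + 1) * h.eq
          | linear_combination (ω ^ 2 - 3 * ω + 3) * h.eq

theorem h1_mem : h.h1 ∈ h.NR := h.mem_NR h.act_h1 (mk1_mem _ _)

theorem Rs_le_NR : h.Rs ≤ h.NR := le_inf Subgroup.le_normalizer h.Rs_le

theorem not_noInv {X : Subgroup 𝐆} (hX : h.NR ≤ X) : ¬ NoInv X := fun hn => by
  have h2 := hn _ (hX (mul_mem h.h1_mem h.h1_mem)) (by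
    rw [h.h1_sq]; apply Units.ext; rw [Units.val_mul, coe_mk1]
    ext i j; fin_cases i <;> fin_cases j <;> simp)
  have h3 := h.act_h1.mul h.act_h1
  rw [h2] at h3
  exact absurd (h.act_unique h3 (act_scalar ω (one_mem _))) (by decide)

theorem not_pgc {X : Subgroup 𝐆} (hX : h.NR ≤ X) {k : ℕ} : ¬ PGc k X := fun hp => by
  have a2 := h.act_d.mul (h.act_h1.mul (h.act_d.mul h.act_d))
  rw [← h.d_inv, ← mul_assoc] at a2
  have h2 := hp.p2 _ (hX h.h1_mem) _ (hX (h.mem_NR a2 (conj_mem_sl h.h1_mem.2 _)))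
    (fun hz => absurd (h.act_unique (h.act_h1.mul h.act_h1) (act_scalar ω hz)) (by decide)) (by
      have : h.dG * (h.h1 * h.h1) = h.h1 * h.h1 * h.dG := by
        rw [h.h1_sq]; apply Units.ext; rw [Units.val_mul, Units.val_mul, coe_mk1, dG, coe_mk3]
        ext i j; fin_cases i <;> fin_cases j <;> simp [dM]
      rw [conj_mul, this, mul_inv_cancel_right, mul_inv_cancel]
      exact one_mem _)
  have h3 := (act_scalar ω h2).mul (a2.mul h.act_h1)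
  rw [show ∀ a b : 𝐆, a * b * a⁻¹ * b⁻¹ * (b * a) = a * b from fun a b => by group] at h3
  exact absurd (h.act_unique h3 (h.act_h1.mul a2)) (by decide)

theorem not_comm : h.xG * yG F ≠ yG F * h.xG := fun e => by
  have h1 := congrArg Units.val e
  rw [Units.val_mul] at h1
  erw [h.xy] at h1
  exact h.ne_one (smul_left_injective F (Units.ne_zero (yG F * h.xG)) (h1.trans (one_smul _ _).symm))

theorem not_t2 {X : Subgroup 𝐆} (hX : h.NR ≤ X) : ¬ T2 X := fun ht => by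
  obtain ⟨π, h1, -⟩ := ht.exists_hom
  let x : X := ⟨_, hX (h.Rs_le_NR h.x_mem)⟩
  let y : X := ⟨_, hX (h.Rs_le_NR h.y_mem)⟩
  let k : X := ⟨_, hX h.h1_mem⟩
  obtain ⟨a, b⟩ := perm3_aux (π y) (π x) (π k)
    (by rw [← map_pow, show y ^ 3 = 1 from Subtype.ext (h.cube_of_mem h.y_mem), map_one])
    (by rw [← map_mul, ← map_mul]; exact congrArg π (Subtype.ext (Units.ext h.h1_y)))
    (by rw [← map_mul, ← map_mul, ← map_mul]; exact congrArg π (Subtype.ext (Units.ext h.h1_x)))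
  exact h.not_comm (h1 x y b a)

theorem irr_NR {X : Subgroup 𝐆} (hX : h.NR ≤ X) : Irr X :=
  h.irr_of (hX (h.Rs_le_NR h.x_mem)) (hX (h.Rs_le_NR h.y_mem))

theorem eq_Rs {R : Subgroup 𝐆} (hx : h.xG ∈ R) (hy : yG F ∈ R) (h3 : ∀ r ∈ R, r ^ 3 = 1)
    (hc : ∀ x ∈ R, ∀ y ∈ R, x * y * x⁻¹ * y⁻¹ ∈ 𝐙) : R = h.Rs := by
  have k : ∀ x ∈ R, ∀ y ∈ R, ∃ t, (x : 𝐌) * y = w ω t • ((y : 𝐌) * x) := fun x hx y hy => by
    obtain ⟨c, h1, h2⟩ := comm_scalar (hc x hx y hy)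
      (h3 _ (mul_mem (mul_mem (mul_mem hx hy) (inv_mem hx)) (inv_mem hy)))
    obtain ⟨t, rfl⟩ := h.exists_w h1
    exact ⟨t, h2⟩
  refine le_antisymm (fun r hr => ?_) fun r ⟨hS, v, hv⟩ => ?_
  · obtain ⟨a, ha⟩ := k _ hx _ hr
    obtain ⟨b, hb⟩ := k _ hr _ hy
    have hv : Ty ω (r : 𝐌) (b, a) := ⟨ha, hb⟩
    refine ⟨mem_sl.2 ?_, _, hv⟩
    obtain ⟨c, hc⟩ := h.eq_of_ty hv
    have h4 := congrArg Units.val (h3 r hr)
    rw [Units.val_pow_eq_pow_val, hc, _root_.smul_pow, h.E_cube, Units.val_one] at h4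
    rw [hc, det_smul, h.det_E, mul_one, Fintype.card_fin]
    simpa using congrFun (congrFun h4 0) 0
  · obtain ⟨c, hc⟩ := h.eq_of_ty hv
    have h2 := mem_sl.1 hS
    rw [hc, det_smul, h.det_E, mul_one, Fintype.card_fin] at h2
    obtain ⟨t, rfl⟩ := h.exists_w h2
    have hz : ((h.xG * yG F * h.xG⁻¹ * (yG F)⁻¹ : 𝐆) : 𝐌) = ω • 1 := by
      have e : ((h.xG : 𝐆) : 𝐌) * yG F = ω • (((yG F : 𝐆) : 𝐌) * h.xG) := h.xy
      rw [Units.val_mul, Units.val_mul, Units.val_mul, e, smul_mul_assoc, smul_mul_assoc,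
        Units.mul_inv_cancel_right, Units.mul_inv]
    have : r = (h.xG * yG F * h.xG⁻¹ * (yG F)⁻¹) ^ t.val * (h.xG ^ v.1.val * yG F ^ v.2.val) := by
      apply Units.ext
      rw [Units.val_mul, Units.val_pow_eq_pow_val, hz, _root_.smul_pow, one_pow, smul_mul_assoc,
        one_mul, hc]
      rfl
    rw [this]
    exact mul_mem (pow_mem (mul_mem (mul_mem (mul_mem hx hy) (inv_mem hx)) (inv_mem hy)) _)
      (mul_mem (pow_mem hx _) (pow_mem hy _))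

theorem exists_frame_xy {x y : 𝐆} (x3 : x ^ 3 = 1) (y3 : y ^ 3 = 1)
    (e : (x : 𝐌) * y = ω • ((y : 𝐌) * x)) :
    ∃ P : 𝐆, P * h.xG * P⁻¹ = x ∧ P * yG F * P⁻¹ = y := by
  have x3' : (x : 𝐌) ^ 3 = 1 := congrArg Units.val x3
  have y3' : (y : 𝐌) ^ 3 = 1 := congrArg Units.val y3
  obtain ⟨v, v0, hv⟩ : ∃ v : Fin 3 → F, v ≠ 0 ∧ (x : 𝐌) *ᵥ v = v := by
    by_contra hc
    push Not at hc
    have k0 : (1 : 𝐌) + x + x * x = 0 := matrix_ext_mulVec fun u => by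
      by_contra h0
      rw [zero_mulVec] at h0
      refine hc _ h0 ?_
      rw [mulVec_mulVec, mul_add, mul_add, mul_one, ← pow_three, x3']
      congr 1; abel
    have k : ∀ c : F, (1 : 𝐌) + c • (x : 𝐌) + c ^ 2 • ((x : 𝐌) * x) = 0 →
        (1 : 𝐌) + (c * ω) • (x : 𝐌) + (c * ω) ^ 2 • ((x : 𝐌) * x) = 0 := fun c k1 => by
      rw [← Units.mul_right_eq_zero y, ← zero_mul (y : 𝐌), ← k1, add_mul, add_mul, smul_mul_assoc,
        smul_mul_assoc, mul_assoc, e, mul_smul_comm, ← mul_assoc, e, smul_mul_assoc, mul_assoc]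
      simp only [mul_add, mul_smul_comm, smul_smul, mul_one, one_mul]
      congr 2; ring
    have k1 := k 1 (by simpa using k0)
    have k2 := k _ k1
    have k3 : (3 : F) • (1 : 𝐌) = 0 := by
      have e1 := h.eq
      have e2 : (1 * ω) ^ 2 + (1 * ω * ω) ^ 2 + 1 = 0 := by
        linear_combination (ω ^ 2 - ω + 1) * h.eq
      linear_combination (norm := module) k0 + k1 + k2 - e1 • (x : 𝐌) - e2 • ((x : 𝐌) * x)
    exact h.three (by simpa using congrFun (congrFun k3 0) 0)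
  let A : 𝐌 := (Matrix.of ![v, (y : 𝐌) *ᵥ v, (y : 𝐌) *ᵥ ((y : 𝐌) *ᵥ v)])ᵀ
  have hA : ∀ u, A *ᵥ u = u 0 • v + u 1 • (y : 𝐌) *ᵥ v + u 2 • (y : 𝐌) *ᵥ ((y : 𝐌) *ᵥ v) := fun u => by
    ext i; simp [A, mulVec, dotProduct, Fin.sum_univ_three, mul_comm]
  have e' : ∀ u, (x : 𝐌) *ᵥ ((y : 𝐌) *ᵥ u) = ω • (y : 𝐌) *ᵥ ((x : 𝐌) *ᵥ u) := fun u => by
    rw [mulVec_mulVec, e, smul_mulVec, mulVec_mulVec]
  have a1 : A * dM 1 ω (ω ^ 2) = x * A := matrix_ext_mulVec fun u => by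
    rw [← mulVec_mulVec, ← mulVec_mulVec, hA, hA, dM_mulVec]
    simp only [mulVec_add, mulVec_smul, e', hv]
    simp [smul_smul, mul_comm, sq]
  have a2 : A * yM F = y * A := matrix_ext_mulVec fun u => by
    have : (y : 𝐌) *ᵥ ((y : 𝐌) *ᵥ ((y : 𝐌) *ᵥ v)) = v := by
      rw [mulVec_mulVec, mulVec_mulVec, ← pow_three', y3', one_mulVec]
    rw [← mulVec_mulVec, ← mulVec_mulVec, hA, hA, yM_mulVec]
    simp only [mulVec_add, mulVec_smul, this]
    simp; abel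
  have hd : A.det ≠ 0 := fun hd => by
    obtain ⟨u, u0, hu⟩ := exists_mulVec_eq_zero_iff.2 hd
    rcases sub_of_diag h.ne_one.symm h.sq_ne_one.symm (W := LinearMap.ker (Matrix.toLin' A))
      (fun u hu => by
        rw [LinearMap.mem_ker, toLin'_apply] at hu ⊢
        rw [mulVec_mulVec, a1, ← mulVec_mulVec, hu, mulVec_zero])
      (fun u hu => by
        rw [LinearMap.mem_ker, toLin'_apply] at hu ⊢
        rw [mulVec_mulVec, a2, ← mulVec_mulVec, hu, mulVec_zero]) with k | k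
    · exact u0 ((Submodule.eq_bot_iff _).1 k u hu)
    · have := (Submodule.eq_top_iff'.1 k) ![1, 0, 0]
      rw [LinearMap.mem_ker, toLin'_apply, hA] at this
      exact v0 (by simpa using this)
  exact ⟨mk3 A hd, by rw [mul_inv_eq_iff_eq_mul]; exact Units.ext a1,
    by rw [mul_inv_eq_iff_eq_mul]; exact Units.ext a2⟩

theorem exists_frame {R : Subgroup 𝐆} (hR : IsSymplecticTypeGroup 3 R)
    (hi : ActsAbsolutelyIrreducibly (matrixSet R)) (hz : Nat.card (Subgroup.center R) = 3) :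
    ∃ P, pb P R = h.Rs := by
  have hc := (card_sq_mul_card_center hR hi hz).2
  have h3 : ∀ r ∈ R, r ^ 3 = 1 := fun r hr => by
    have := Monoid.pow_exponent_eq_one (⟨r, hr⟩ : R)
    rw [hR.exponent_eq] at this
    exact congrArg Subtype.val this
  obtain ⟨x, hx, y, hy, e⟩ : ∃ x ∈ R, ∃ y ∈ R, (x : 𝐌) * y = ω • ((y : 𝐌) * x) := by
    obtain ⟨x, hx, y, hy, hxy⟩ := exists_noncomm_of_span (by simp) (grpAlg_eq_top_of_absIrr hi)
    obtain ⟨c, h1, h2⟩ := comm_scalar (hc x hx y hy)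
      (h3 _ (mul_mem (mul_mem (mul_mem hx hy) (inv_mem hx)) (inv_mem hy)))
    rcases h.cases h1 with rfl | rfl | rfl
    · exact absurd (Units.ext (by simpa using h2)) hxy
    · exact ⟨x, hx, y, hy, h2⟩
    · exact ⟨y, hy, x, hx, by rw [h2, smul_smul, ← pow_succ', h.cube, one_smul]⟩
  obtain ⟨P, h1, h2⟩ := h.exists_frame_xy (h3 x hx) (h3 y hy) e
  refine ⟨P, h.eq_Rs (mem_pb.2 (h1 ▸ hx)) (mem_pb.2 (h2 ▸ hy)) (fun r hr => ?_) fun a ha b hb => ?_⟩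
  · have := h3 _ (mem_pb.1 hr)
    rw [conj_pow] at this
    simpa using this
  · have := hc _ (mem_pb.1 ha) _ (mem_pb.1 hb)
    rwa [conj_inv, conj_inv, conj_mul, conj_mul, conj_mul, conj_mem_Z_iff] at this

theorem exists_frame_NR {R : Subgroup 𝐆} (hR : IsSymplecticTypeGroup 3 R)
    (hi : ActsAbsolutelyIrreducibly (matrixSet R)) (hz : Nat.card (Subgroup.center R) = 3) :
    ∃ P, pb P (subgroupNormalizer R ⊓ 𝐒) = h.NR := by
  obtain ⟨P, hP⟩ := h.exists_frame hR hi hz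
  exact ⟨P, by rw [pb_inf, pb_sl, subgroupNormalizer, pb_normalizer, hP, NR]⟩

theorem NR_le_sim {σ : F ≃+* F} (hf : IsSesq σ 1 (sumHerm (Fin 3) σ)) (hσ : σ ω = ω ^ 2) :
    h.NR ≤ similarityGroup (sumHerm (Fin 3) σ) := by
  have k : h.Rs ≤ H10.isoG (sumHerm (Fin 3) σ) := by
    rw [← h.eq_Rs (R := h.Rs ⊓ H10.isoG (sumHerm (Fin 3) σ)) ⟨h.x_mem, fun u v => ?_⟩
      ⟨h.y_mem, fun u v => ?_⟩ (fun r hr => h.cube_of_mem hr.1) fun a ha b hb => ?_]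
    · exact inf_le_right
    · erw [dM_mulVec, dM_mulVec]
      simp [sumHerm, Fin.sum_univ_three, hσ]
      linear_combination (u 1 * σ (v 1) + (ω ^ 3 + 1) * u 2 * σ (v 2)) * h.cube
    · erw [yM_mulVec, yM_mulVec]
      simp [sumHerm, Fin.sum_univ_three]
      ring
    · obtain ⟨-, u, hu⟩ := ha.1
      obtain ⟨-, v, hv⟩ := hb.1
      obtain ⟨c, hc⟩ := h.scalar_of_ty (by
        simpa using h.ty_mul (h.ty_mul (h.ty_mul hu hv) (h.ty_inv hu)) (h.ty_inv hv))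
      exact mem_scalars_of_coe_eq (c := c) (by simpa using hc)
  exact le_similarityGroup_of_nz hf h.grpAlg_Rs ((H10.fixes_isoG _).mono k)
    fun g hg x hx => (Subgroup.mem_normalizer_iff.1 hg.1 x).1 hx

end Om

/-- `X` normalises an extraspecial group of order `27` -/
def T6 (X : Subgroup 𝐆) : Prop := ∃ (ω : F) (h : Om ω) (P : 𝐆), pb P X ≤ h.NR

theorem T6.pb {X : Subgroup 𝐆} (h : T6 X) (Q : 𝐆) : T6 (pb Q X) := by
  obtain ⟨ω, h, P, hP⟩ := h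
  refine ⟨ω, h, Q⁻¹ * P, fun g hg => hP (mem_pb.2 ?_)⟩
  simpa [mul_assoc] using mem_pb.1 (mem_pb.1 hg)

theorem T6.pow36 {X : Subgroup 𝐆} (h : T6 X) {g : 𝐆} (hg : g ∈ X) : g ^ 36 = 1 := by
  obtain ⟨ω, h, P, hP⟩ := h
  have := h.pow36 (hP (mem_pb_conj.2 hg))
  have h2 := conj_pow (i := 36) (a := P⁻¹) (b := g)
  rw [inv_inv, this] at h2
  simpa [mul_assoc] using congrArg (fun x => P * x * P⁻¹) h2.symm

theorem T6.no_four {X : Subgroup 𝐆} (h : T6 X) {a b : 𝐆} (ha : a ∈ X) (hb : b ∈ X) (a2 : a * a = 1)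
    (b2 : b * b = 1) (hab : a * b * (a * b) = 1) (a1 : a ≠ 1) (b1 : b ≠ 1) : a * b = 1 := by
  obtain ⟨ω, h, P, hP⟩ := h
  have k : ∀ x y : 𝐆, P⁻¹ * x * P * (P⁻¹ * y * P) = P⁻¹ * (x * y) * P := fun x y => by group
  have k1 : ∀ x : 𝐆, P⁻¹ * x * P = 1 ↔ x = 1 := fun x => by
    rw [mul_assoc, inv_mul_eq_one, eq_comm, mul_eq_right]
  have := h.no_four (hP (mem_pb_conj.2 ha)) (hP (mem_pb_conj.2 hb)) (by rwa [k, k1])
    (by rwa [k, k1]) (by rwa [k, k, k1]) (by rwa [Ne, k1]) (by rwa [Ne, k1])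
  rwa [k, k1] at this

end Cfsg.Agent.H85.L3
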