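import Cfsg.Agent.H29.PslDict
import Cfsg.Agent.H99.Dec
import Cfsg.Agent.H9.SmallIso
import Cfsg.Agent.S0254
import Cfsg.Agent.S0255

/-! Subgroups of `SL₃(q)` in the residual class with socle `L₃(2)` or `A₆` embed, modulo scalars,
in `PGL₂(7)` or `PGL₂(9)`. -/

set_option autoImplicit false
set_option linter.unusedSectionVars false
set_option linter.style.haveILetI false

namespace Cfsg.Agent.H85.L3

open Cfsg Cfsg.Geo Cfsg.Agent.H98 Cfsg.Agent.H99 Matrix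

section Two

variable {K : Type*} [Field K]

/-- scalar `2 × 2` matrices -/
def Sc (A : Matrix (Fin 2) (Fin 2) K) : Prop := ∃ c : K, A = c • 1

theorem sc_iff {A : Matrix (Fin 2) (Fin 2) K} : Sc A ↔ A 0 1 = 0 ∧ A 1 0 = 0 ∧ A 0 0 = A 1 1 := by
  constructor
  · rintro ⟨c, rfl⟩; simp
  · rintro ⟨h1, h2, h3⟩
    refine ⟨A 0 0, ?_⟩
    ext i j; fin_cases i <;> fin_cases j <;> simp [h1, h2, h3]

theorem ch2 (A : Matrix (Fin 2) (Fin 2) K) : A * A = A.trace • A - A.det • 1 := by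
  ext i j
  fin_cases i <;> fin_cases j <;>
    simp [Matrix.mul_apply, Fin.sum_univ_two, trace_fin_two, det_fin_two] <;> ring

theorem comm_mem {A B : Matrix (Fin 2) (Fin 2) K} (hA : ¬ Sc A) (h : A * B = B * A) :
    ∃ x y : K, B = x • 1 + y • A := by
  have h00 := congrFun (congrFun h 0) 0
  have h01 := congrFun (congrFun h 0) 1
  have h10 := congrFun (congrFun h 1) 0
  simp only [Matrix.mul_apply, Fin.sum_univ_two] at h00 h01 h10
  rw [sc_iff] at hA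
  by_cases a1 : A 0 1 = 0
  · by_cases a2 : A 1 0 = 0
    · have a3 : A 0 0 - A 1 1 ≠ 0 := fun a3 => hA ⟨a1, a2, sub_eq_zero.1 a3⟩
      have b1 : B 0 1 = 0 := by
        apply mul_left_cancel₀ a3; rw [a1] at h01; linear_combination h01
      have b2 : B 1 0 = 0 := by
        apply mul_left_cancel₀ a3; rw [a2] at h10; linear_combination -h10
      refine ⟨B 0 0 - (B 0 0 - B 1 1) / (A 0 0 - A 1 1) * A 0 0,
        (B 0 0 - B 1 1) / (A 0 0 - A 1 1), ?_⟩
      ext i j; fin_cases i <;> fin_cases j <;> simp [a1, a2, b1, b2]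
      field_simp; ring
    · refine ⟨B 0 0 - B 1 0 / A 1 0 * A 0 0, B 1 0 / A 1 0, ?_⟩
      ext i j; fin_cases i <;> fin_cases j <;> simp
      · field_simp; linear_combination -h00
      · field_simp
      · field_simp; linear_combination -h10
  · refine ⟨B 0 0 - B 0 1 / A 0 1 * A 0 0, B 0 1 / A 0 1, ?_⟩
    ext i j; fin_cases i <;> fin_cases j <;> simp
    · field_simp
    · field_simp; linear_combination h00
    · field_simp; linear_combination h01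

theorem comm_of_comm {A B C : Matrix (Fin 2) (Fin 2) K} (hA : ¬ Sc A) (h1 : A * B = B * A)
    (h2 : A * C = C * A) : B * C = C * B := by
  obtain ⟨x, y, rfl⟩ := comm_mem hA h1
  obtain ⟨z, w, rfl⟩ := comm_mem hA h2
  simp only [add_mul, mul_add, smul_mul_assoc, mul_smul_comm, one_mul, mul_one]
  module

theorem trace_eq_zero_of_sq {A : Matrix (Fin 2) (Fin 2) K} (hA : ¬ Sc A) (h : Sc (A * A)) :
    A.trace = 0 := by
  by_contra ht
  obtain ⟨c, hc⟩ := h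
  rw [ch2] at hc
  refine hA ⟨A.trace⁻¹ * (c + A.det), ?_⟩
  rw [← smul_smul, add_smul, ← hc, sub_add_cancel, smul_smul, inv_mul_cancel₀ ht, one_smul]

/-- Lucas sequence -/
def luc {R : Type*} [CommRing R] (t d : R) : ℕ → R × R
  | 0 => (0, 1)
  | k + 1 => ((luc t d k).2, t * (luc t d k).2 - d * (luc t d k).1)

theorem pow_luc (A : Matrix (Fin 2) (Fin 2) K) (k : ℕ) :
    A ^ (k + 1) = (luc A.trace A.det k).2 • A - (A.det * (luc A.trace A.det k).1) • 1 := by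
  induction k with
  | zero => simp [luc]
  | succ k ih =>
    rw [pow_succ, ih, sub_mul, smul_mul_assoc, ch2, smul_mul_assoc, one_mul]
    simp only [luc]
    module

theorem sc_pow_of_luc {A : Matrix (Fin 2) (Fin 2) K} {k : ℕ} (h : (luc A.trace A.det k).2 = 0) :
    Sc (A ^ (k + 1)) := ⟨-(A.det * (luc A.trace A.det k).1), by rw [pow_luc, h]; simp⟩

theorem luc7 : ∀ t d : ZMod 7, d ≠ 0 → (luc t d 5).2 = 0 ∨ (luc t d 6).2 = 0 ∨ (luc t d 7).2 = 0 := by
  decide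

theorem luc9 : ∀ t d : H9.F9, d ≠ 0 → (luc t d 7).2 = 0 ∨ (luc t d 8).2 = 0 ∨ (luc t d 9).2 = 0 := by
  decide +kernel

theorem pslConj_eq_one {g : GL (Fin 2) K} :
    H29.pslConj (Fin 2) K g = 1 ↔ Sc (g : Matrix (Fin 2) (Fin 2) K) := by
  rw [← MonoidHom.mem_ker, H29.pslConj_ker (by simp), Subgroup.mem_center_iff]
  constructor
  · intro h
    exact scalar_of_comm_et fun i j hij => congrArg Units.val (h (et hij 1))
  · rintro ⟨c, hc⟩ h
    apply Units.ext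
    simp [hc]

end Two

variable {F : Type*} [Field F]

local notation "𝐆" => GL (Fin 3) F
local notation "𝐙" => scalars (Fin 3) F

/-- properties of subgroups of `PGL₂(k)` -/
structure PGc (k : ℕ) (X : Subgroup 𝐆) : Prop where
  p1 : ∀ g ∈ X, g ^ (k - 1) ∈ 𝐙 ∨ g ^ k ∈ 𝐙 ∨ g ^ (k + 1) ∈ 𝐙
  p2 : ∀ g ∈ X, ∀ h ∈ X, g * g ∉ 𝐙 → g * g * (h * h)⁻¹ ∈ 𝐙 → g * h * g⁻¹ * h⁻¹ ∈ 𝐙
  p3 : ∀ a ∈ X, ∀ b ∈ X, a * b = b * a → a * a ∉ 𝐙 → b * b ∉ 𝐙 → a ^ 4 ∈ 𝐙 → b ^ 4 ∈ 𝐙 →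
    a * a * (b * b)⁻¹ ∈ 𝐙

theorem PGc.mono {k : ℕ} {X Y : Subgroup 𝐆} (h : PGc k X) (hY : Y ≤ X) : PGc k Y :=
  ⟨fun g hg => h.p1 g (hY hg), fun g hg a ha => h.p2 g (hY hg) a (hY ha),
    fun g hg a ha => h.p3 g (hY hg) a (hY ha)⟩

theorem pgc_of_rel {K : Type*} [Field K] (h2 : (2 : K) ≠ 0) {k : ℕ}
    (hk : ∀ A : Matrix (Fin 2) (Fin 2) K, A.det ≠ 0 →
      Sc (A ^ (k - 1)) ∨ Sc (A ^ k) ∨ Sc (A ^ (k + 1)))
    {X : Subgroup 𝐆} (R : Subgroup (𝐆 × GL (Fin 2) K))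
    (h1 : ∀ g ∈ X, ∃ a, (g, a) ∈ R)
    (hz : ∀ g a, (g, a) ∈ R → (g ∈ 𝐙 ↔ Sc (a : Matrix (Fin 2) (Fin 2) K))) : PGc k X := by
  have hmul : ∀ {g h a b}, (g, a) ∈ R → (h, b) ∈ R → (g * h, a * b) ∈ R :=
    fun h h' => R.mul_mem h h'
  have hinv : ∀ {g a}, (g, a) ∈ R → (g⁻¹, a⁻¹) ∈ R := fun h => R.inv_mem h
  have hpow : ∀ {g a} (n : ℕ), (g, a) ∈ R → (g ^ n, a ^ n) ∈ R := fun n h => R.pow_mem h n
  have hsc : ∀ a b : GL (Fin 2) K, Sc ((a * b⁻¹ : GL (Fin 2) K) : Matrix (Fin 2) (Fin 2) K) ↔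
      ∃ c : K, (a : Matrix (Fin 2) (Fin 2) K) = c • (b : Matrix (Fin 2) (Fin 2) K) := by
    intro a b
    constructor
    · rintro ⟨c, hc⟩
      refine ⟨c, ?_⟩
      have : (a : Matrix (Fin 2) (Fin 2) K) =
          ((a * b⁻¹ : GL (Fin 2) K) : Matrix (Fin 2) (Fin 2) K) * (b : Matrix (Fin 2) (Fin 2) K) := by
        rw [← Units.val_mul]; simp
      rw [this, hc, smul_mul_assoc, one_mul]
    · rintro ⟨c, hc⟩
      exact ⟨c, by rw [Units.val_mul, hc, smul_mul_assoc, Units.mul_inv]⟩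
  refine ⟨fun g hg => ?_, fun g hg h hh n1 n2 => ?_, fun g hg h hh hc n1 n2 n3 n4 => ?_⟩
  · obtain ⟨a, ha⟩ := h1 g hg
    rw [hz _ _ (hpow _ ha), hz _ _ (hpow _ ha), hz _ _ (hpow _ ha)]
    simpa only [Units.val_pow_eq_pow_val] using hk a a.det_ne_zero
  · obtain ⟨a, ha⟩ := h1 g hg
    obtain ⟨b, hb⟩ := h1 h hh
    rw [hz _ _ (hmul ha ha), Units.val_mul] at n1
    rw [hz _ _ (hmul (hmul ha ha) (hinv (hmul hb hb))), hsc] at n2
    obtain ⟨c, hc⟩ := n2
    rw [Units.val_mul, Units.val_mul] at hc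
    rw [hz _ _ (hmul (hmul (hmul ha hb) (hinv ha)) (hinv hb)), mul_assoc, ← _root_.mul_inv_rev, hsc]
    refine ⟨1, ?_⟩
    rw [one_smul, Units.val_mul, Units.val_mul]
    refine comm_of_comm n1 (mul_assoc _ _ _) ?_
    rw [hc, smul_mul_assoc, mul_smul_comm, mul_assoc]
  · obtain ⟨a, ha⟩ := h1 g hg
    obtain ⟨b, hb⟩ := h1 h hh
    rw [hz _ _ (hmul ha ha), Units.val_mul] at n1
    rw [hz _ _ (hmul hb hb), Units.val_mul] at n2
    rw [hz _ _ (hpow _ ha), Units.val_pow_eq_pow_val] at n3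
    rw [hz _ _ (hpow _ hb), Units.val_pow_eq_pow_val] at n4
    rw [hz _ _ (hmul (hmul ha ha) (hinv (hmul hb hb))), hsc, Units.val_mul, Units.val_mul]
    have h3 := (hz _ _ (hmul (hmul ha hb) (hinv (hmul hb ha)))).1 (by
      rw [hc, mul_inv_cancel]; exact one_mem _)
    rw [hsc, Units.val_mul, Units.val_mul] at h3
    obtain ⟨c, hc⟩ := h3
    generalize hA : (a : Matrix (Fin 2) (Fin 2) K) = A at *
    generalize hB : (b : Matrix (Fin 2) (Fin 2) K) = B at *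
    have hd : c * c = 1 := by
      have h4 := congrArg det hc
      rw [det_smul, det_mul, det_mul, Fintype.card_fin, mul_comm B.det] at h4
      have h5 : A.det * B.det ≠ 0 := by
        rw [← hA, ← hB]; exact mul_ne_zero a.det_ne_zero b.det_ne_zero
      apply mul_right_cancel₀ h5
      linear_combination -h4
    have h4 : B * B * A = A * (B * B) := by
      rw [← mul_assoc, hc, smul_mul_assoc, mul_assoc B A B, hc, mul_smul_comm, smul_smul, hd,
        one_smul, mul_assoc]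
    obtain ⟨x, y, hxy⟩ := comm_mem n2 (B := A * A) (by
      rw [← mul_assoc, h4, mul_assoc, h4, mul_assoc])
    have t1 := trace_eq_zero_of_sq n1 (by rw [show A * A * (A * A) = A ^ 4 by noncomm_ring]; exact n3)
    have t2 := trace_eq_zero_of_sq n2 (by rw [show B * B * (B * B) = B ^ 4 by noncomm_ring]; exact n4)
    rw [hxy, trace_add, trace_smul, trace_smul, t2, trace_one] at t1
    have : x = 0 := by
      apply mul_right_cancel₀ h2
      simpa using t1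
    exact ⟨y, by rw [hxy, this, zero_smul, zero_add]⟩

/-- The relation between `H` and automorphisms of `P` modulo scalars. -/
theorem exists_aut {H P : Subgroup 𝐆} (hc : IsResidualCore H P) {Q : Type*} [Group Q]
    (e : (P ⧸ (𝐙).subgroupOf P) ≃* Q) {h : 𝐆} (hh : h ∈ H) :
    ∃ a : MulAut Q, ∀ x (hx : x ∈ P), a (e (QuotientGroup.mk ⟨x, hx⟩)) =
      e (QuotientGroup.mk ⟨h * x * h⁻¹, hc.normal h hh x hx⟩) := by
  let c : P ≃* P :=
    { toFun := fun x => ⟨h * x * h⁻¹, hc.normal h hh x x.2⟩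
      invFun := fun x => ⟨h⁻¹ * x * h⁻¹⁻¹, hc.normal h⁻¹ (H.inv_mem hh) x x.2⟩
      left_inv := fun x => Subtype.ext (by simp [mul_assoc])
      right_inv := fun x => Subtype.ext (by simp [mul_assoc])
      map_mul' := fun x y => Subtype.ext (by simp [mul_assoc]) }
  have he : ((𝐙).subgroupOf P).map (c : P →* P) = (𝐙).subgroupOf P := by
    ext x
    constructor
    · rintro ⟨y, hy, rfl⟩
      exact scalars_normal.conj_mem _ hy h
    · intro hx
      exact ⟨c.symm x, scalars_normal.conj_mem _ hx h⁻¹, c.apply_symm_apply x⟩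
  refine ⟨(e.symm.trans (QuotientGroup.congr _ _ c he)).trans e, fun x hx => ?_⟩
  simp only [MulEquiv.trans_apply, MulEquiv.symm_apply_apply]
  rfl

theorem pgc_of_core {K : Type*} [Field K] (h2 : (2 : K) ≠ 0) {k : ℕ}
    (hk : ∀ A : Matrix (Fin 2) (Fin 2) K, A.det ≠ 0 →
      Sc (A ^ (k - 1)) ∨ Sc (A ^ k) ∨ Sc (A ^ (k + 1)))
    {H P : Subgroup 𝐆} (hc : IsResidualCore H P)
    (e : (P ⧸ (𝐙).subgroupOf P) ≃* ProjectiveSpecialLinearGroup (Fin 2) K)
    (h1 : ∀ h (hh : h ∈ H) (a : MulAut (ProjectiveSpecialLinearGroup (Fin 2) K)),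
      (∀ x (hx : x ∈ P), a (e (QuotientGroup.mk ⟨x, hx⟩)) =
        e (QuotientGroup.mk ⟨h * x * h⁻¹, hc.normal h hh x hx⟩)) →
      ∃ g, a = H29.pslConj (Fin 2) K g) : PGc k H := by
  let R : Subgroup (𝐆 × GL (Fin 2) K) :=
    { carrier := {z | ∃ hh : z.1 ∈ H, ∀ x (hx : x ∈ P),
        H29.pslConj (Fin 2) K z.2 (e (QuotientGroup.mk ⟨x, hx⟩)) =
          e (QuotientGroup.mk ⟨z.1 * x * z.1⁻¹, hc.normal _ hh x hx⟩)}
      one_mem' := ⟨H.one_mem, fun x hx => by simp⟩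
      mul_mem' := by
        rintro ⟨g, a⟩ ⟨h, b⟩ ⟨hg, ha⟩ ⟨hh, hb⟩
        refine ⟨H.mul_mem hg hh, fun x hx => ?_⟩
        simp only [Prod.snd_mul, Prod.fst_mul, map_mul, MulAut.mul_apply] at ha hb ⊢
        rw [hb x hx, ha]
        congr 3
        group
      inv_mem' := by
        rintro ⟨g, a⟩ ⟨hg, ha⟩
        refine ⟨H.inv_mem hg, fun x hx => ?_⟩
        simp only [Prod.snd_inv, Prod.fst_inv, map_inv, MulAut.inv_apply] at ha ⊢
        rw [MulEquiv.symm_apply_eq, ha]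
        congr 3
        group }
  refine pgc_of_rel h2 hk R (fun g hg => ?_) ?_
  · obtain ⟨a, ha⟩ := exists_aut hc e hg
    obtain ⟨b, rfl⟩ := h1 g hg a ha
    exact ⟨b, hg, ha⟩
  · rintro g a ⟨hg, ha⟩
    rw [← pslConj_eq_one]
    constructor
    · intro hz
      ext y
      obtain ⟨y, rfl⟩ := e.surjective y
      obtain ⟨⟨x, hx⟩, rfl⟩ := QuotientGroup.mk_surjective y
      rw [ha, MulAut.one_apply]
      congr 3
      simp only
      rw [scalars_comm hz, mul_inv_cancel_right]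
    · intro h
      refine hc.centralizer_scalar g hg fun x hx => ?_
      have := ha x hx
      simp only [h, MulAut.one_apply, EmbeddingLike.apply_eq_iff_eq] at this
      have h3 := QuotientGroup.eq.1 this
      rw [Subgroup.mem_subgroupOf] at h3
      have h4 := scalars_normal.conj_mem _ h3 x
      simpa [mul_assoc] using h4

instance factSeven : Fact (Nat.Prime 7) := ⟨by norm_num⟩

theorem pgc_seven {H P : Subgroup 𝐆} (hc : IsResidualCore H P)
    (e : (P ⧸ (𝐙).subgroupOf P) ≃* ProjectiveSpecialLinearGroup (Fin 3) (ZMod 2)) : PGc 7 H := by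
  obtain ⟨e'⟩ := S0255.result (F := ZMod 7) (K := ZMod 2) (by simp) (by simp)
  refine pgc_of_core (K := ZMod 7) (by decide) (fun A hA => ?_) hc (e.trans e'.symm)
    fun h hh a _ => ?_
  · rcases luc7 A.trace A.det hA with h | h | h
    · exact Or.inl (sc_pow_of_luc h)
    · exact Or.inr (Or.inl (sc_pow_of_luc h))
    · exact Or.inr (Or.inr (sc_pow_of_luc h))
  · obtain ⟨g, σ, h | ⟨h, -⟩⟩ := H29.aut_psl_cases (F := ZMod 7) (n := 2) le_rfl a
    · have : σ = 1 := RingEquiv.ext fun x => by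
        obtain ⟨n, rfl⟩ := ZMod.natCast_zmod_surjective x
        simp
      exact ⟨g, by rw [h, this, map_one, mul_one]⟩
    · omega

theorem ch3 (A : Matrix (Fin 3) (Fin 3) F) :
    A * A * A = A.trace • (A * A) - A.adjugate.trace • A + A.det • 1 := by
  ext i j
  fin_cases i <;> fin_cases j <;>
    simp [Matrix.mul_apply, Fin.sum_univ_three, trace_fin_three, det_fin_three,
      adjugate_fin_three] <;> ring

theorem adj_eq_inv {g : 𝐆} (hg : (g : Matrix (Fin 3) (Fin 3) F).det = 1) :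
    (g : Matrix (Fin 3) (Fin 3) F).adjugate = ((g⁻¹ : 𝐆) : Matrix (Fin 3) (Fin 3) F) := by
  have h := adjugate_mul (g : Matrix (Fin 3) (Fin 3) F)
  rw [hg, one_smul] at h
  rw [← mul_one (adjugate _), ← Units.mul_inv g, ← mul_assoc, h, one_mul]

theorem scal_cube {c : Fˣ} (h : scal (Fin 3) c ∈ specialLinear (Fin 3) F) : c ^ 3 = 1 := by
  rw [mem_sl, coe_scal, det_smul, det_one, mul_one, Fintype.card_fin] at h
  exact Units.ext (by simpa using h)

theorem cube_of_scalar {z : 𝐆} (hz : z ∈ 𝐙) (h : z ∈ specialLinear (Fin 3) F) : z ^ 3 = 1 := by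
  obtain ⟨c, rfl⟩ := mem_scalars_iff'.1 hz
  rw [← scal_pow, scal_cube h, scal_one]

/-- an element of order five of `PSL₃` is not conjugate to its square -/
theorem five_not_conj (h5 : (5 : F) ≠ 0) {t k : 𝐆} (ht : t ∈ specialLinear (Fin 3) F)
    (h1 : t ^ 5 ∈ 𝐙) (h2 : k * t * k⁻¹ * (t ^ 2)⁻¹ ∈ 𝐙) : t ∈ 𝐙 := by
  have s5 := cube_of_scalar h1 (pow_mem ht 5)
  have s2 := cube_of_scalar h2 (mul_mem (conj_mem_sl ht k) (inv_mem (pow_mem ht 2)))
  set z := k * t * k⁻¹ * (t ^ 2)⁻¹ with hz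
  have e1 : k * t * k⁻¹ = z * t ^ 2 := by rw [hz]; group
  set u := t ^ 6 with hu
  have u5 : u ^ 5 = 1 := by
    rw [hu, ← pow_mul, show 6 * 5 = 5 * 3 * 2 from rfl, pow_mul, pow_mul, s5, one_pow]
  have e2 : k * u * k⁻¹ = u ^ 2 := by
    rw [hu, ← conj_pow, e1, Commute.mul_pow (scalars_comm h2 _), show 6 = 3 * 2 from rfl, pow_mul z,
      s2, one_pow, one_mul, ← pow_mul, ← pow_mul]
  have tr : ∀ n : ℕ, ((u ^ (2 * n) : 𝐆) : Matrix (Fin 3) (Fin 3) F).trace =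
      ((u ^ n : 𝐆) : Matrix (Fin 3) (Fin 3) F).trace := fun n => by
    rw [pow_mul, ← e2, conj_pow, ← cj_coe, trace_cj]
  have hu1 : (u : Matrix (Fin 3) (Fin 3) F).det = 1 := mem_sl.1 (pow_mem ht 6)
  have ui : u⁻¹ = u ^ 4 := by rw [inv_eq_iff_mul_eq_one, ← pow_succ', u5]
  have u8 : u ^ 8 = u ^ 3 := by rw [show 8 = 5 + 3 from rfl, pow_add, u5, one_mul]
  have t2 := tr 1
  have t4 := (tr 2).trans t2
  have t3 := (tr 4).trans t4
  rw [show 2 * 4 = 8 from rfl, u8] at t3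
  have c := ch3 (u : Matrix (Fin 3) (Fin 3) F)
  rw [adj_eq_inv hu1, ui, hu1] at c
  simp only [show 2 * 2 = 4 from rfl, show 2 * 1 = 2 from rfl, pow_one,
    Units.val_pow_eq_pow_val] at t2 t3 t4 c
  have u5' : (u : Matrix (Fin 3) (Fin 3) F) ^ 5 = 1 := by
    rw [← Units.val_pow_eq_pow_val, u5, Units.val_one]
  suffices h : u = 1 by
    have : t = (t ^ 5)⁻¹ * u := by rw [hu]; group
    rw [this, h, mul_one]; exact inv_mem h1
  apply Units.ext
  rw [Units.val_one]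
  generalize (u : Matrix (Fin 3) (Fin 3) F) = A at *
  rw [t4] at c
  have ha : A.trace = 3 := by
    have := congrArg trace c
    rw [show A * A * A = A ^ 3 by noncomm_ring, show A * A = A ^ 2 by noncomm_ring, t3, trace_add,
      trace_sub, trace_smul, trace_smul, t2, one_smul, trace_one] at this
    simpa using this
  rw [ha] at c
  obtain ⟨N, rfl⟩ : ∃ N, A = 1 + N := ⟨A - 1, by abel⟩
  have n3 : N * N * N = 0 := by
    have : N * N * N = (1 + N) * (1 + N) * (1 + N) -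
        ((3 : F) • ((1 + N) * (1 + N)) - (3 : F) • (1 + N) + (1 : F) • 1) := by
      simp only [show ∀ X : Matrix (Fin 3) (Fin 3) F, (3 : F) • X = X + X + X from fun X => by
        module, one_smul]
      noncomm_ring
    rw [this, c, sub_self]
  have e5 : (5 : F) • N + (10 : F) • (N * N) = 0 := by
    have : (1 + N) ^ 5 = 1 + ((5 : F) • N + (10 : F) • (N * N)) +
        N * N * N * (10 + 5 * N + N * N) := by
      simp only [show ∀ X : Matrix (Fin 3) (Fin 3) F, (5 : F) • X = 5 * X from fun X => by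
        rw [show (5 : F) = ((5 : ℕ) : F) by simp, Nat.cast_smul_eq_nsmul, nsmul_eq_mul]; simp,
        show ∀ X : Matrix (Fin 3) (Fin 3) F, (10 : F) • X = 10 * X from fun X => by
        rw [show (10 : F) = ((10 : ℕ) : F) by simp, Nat.cast_smul_eq_nsmul, nsmul_eq_mul]; simp]
      noncomm_ring
    rw [n3, zero_mul, add_zero, u5'] at this
    exact (left_eq_add.1 this)
  have n2 : N * N = 0 := by
    have := congrArg (· * N) e5
    simp only [add_mul, smul_mul_assoc, n3, smul_zero, add_zero, zero_mul] at this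
    exact (smul_eq_zero.1 this).resolve_left h5
  rw [n2, smul_zero, add_zero] at e5
  rw [(smul_eq_zero.1 e5).resolve_left h5, add_zero]

section Nine

open H9 (F9)

def s9 : Matrix (Fin 2) (Fin 2) F9 := !![⟨0, 0⟩, ⟨2, 0⟩; ⟨1, 0⟩, ⟨1, 1⟩]
def s9' : Matrix (Fin 2) (Fin 2) F9 := !![⟨0, 0⟩, ⟨2, 0⟩; ⟨1, 0⟩, ⟨1, 2⟩]
def g9 : Matrix (Fin 2) (Fin 2) F9 := !![⟨1, 0⟩, ⟨0, 2⟩; ⟨0, 1⟩, ⟨2, 0⟩]
def g9' : Matrix (Fin 2) (Fin 2) F9 := !![⟨1, 0⟩, ⟨0, 0⟩; ⟨1, 0⟩, ⟨1, 1⟩]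

theorem s9_aux : s9 * s9 * s9 * s9 * s9 = 1 ∧ s9' * g9 = g9 * (s9 * s9) ∧
    s9' * g9' = g9' * (s9 * s9) ∧ s9 1 0 ≠ 0 := by decide +kernel

theorem s9_det : s9.det = 1 := by rw [det_fin_two]; decide +kernel
theorem g9_det : g9.det = 1 := by rw [det_fin_two]; decide +kernel
theorem g9'_det : g9'.det = ⟨1, 1⟩ := by rw [det_fin_two]; decide +kernel

theorem sq9 : ∀ d : F9, d ≠ 0 → ∃ e : F9, e * e * d = 1 ∨ e * e * (d * ⟨1, 1⟩) = 1 := by
  decide +kernel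

theorem aut9 (σ : RingAut F9) : σ = 1 ∨ s9.map σ = s9' := by
  have h1 : ∀ x : F9, x * x = -1 → x = ⟨0, 1⟩ ∨ x = ⟨0, 2⟩ := by decide +kernel
  have h2 : ∀ x : F9, ∃ a b : Fin 3, x = ((a : ℕ) : F9) + ((b : ℕ) : F9) * ⟨0, 1⟩ := by
    decide +kernel
  have h3 : (⟨0, 1⟩ : F9) * ⟨0, 1⟩ = -1 := by decide +kernel
  rcases h1 (σ ⟨0, 1⟩) (by rw [← map_mul, h3, map_neg, map_one]) with h | h
  · left
    ext1 x
    obtain ⟨a, b, rfl⟩ := h2 x
    rw [map_add, map_mul, map_natCast, map_natCast, h]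
    rfl
  · right
    have e0 : (⟨0, 0⟩ : F9) = 0 := rfl
    have e1 : (⟨1, 0⟩ : F9) = 1 := rfl
    have e2 : (⟨2, 0⟩ : F9) = -1 := by decide +kernel
    have e3 : (⟨1, 1⟩ : F9) = 1 + ⟨0, 1⟩ := by decide +kernel
    have e4 : (⟨1, 2⟩ : F9) = 1 + ⟨0, 2⟩ := by decide +kernel
    ext1 i j
    fin_cases i <;> fin_cases j <;> simp [s9, s9', e0, e1, e2, e3, e4, h]

theorem sl_ext {K : Type*} [CommRing K] {A B : Matrix.SpecialLinearGroup (Fin 2) K}
    (h : (A : Matrix (Fin 2) (Fin 2) K) = B) : A = B := Subtype.ext h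

theorem exists_y9 (g : GL (Fin 2) F9) : ∃ y : SpecialLinearGroup (Fin 2) F9,
    (g : Matrix (Fin 2) (Fin 2) F9) * s9' * ((g⁻¹ : GL (Fin 2) F9) : Matrix (Fin 2) (Fin 2) F9) * y =
      y * (s9 * s9) := by
  have key : ∀ (a : Matrix (Fin 2) (Fin 2) F9) (e : F9), s9' * a = a * (s9 * s9) →
      (g : Matrix (Fin 2) (Fin 2) F9) * s9' * ((g⁻¹ : GL (Fin 2) F9) : Matrix (Fin 2) (Fin 2) F9) *
        (e • ((g : Matrix (Fin 2) (Fin 2) F9) * a)) = e • ((g : Matrix (Fin 2) (Fin 2) F9) * a) *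
          (s9 * s9) := fun a e ha => by
    rw [mul_smul_comm, smul_mul_assoc, mul_assoc _ _ (_ * a), ← mul_assoc _ _ a, Units.inv_mul,
      one_mul, mul_assoc, ha, mul_assoc]
  obtain ⟨e, he | he⟩ := sq9 _ g.det_ne_zero
  · exact ⟨⟨e • ((g : Matrix (Fin 2) (Fin 2) F9) * g9), by
      rw [det_smul, det_mul, g9_det, Fintype.card_fin, mul_one, sq, he]⟩, key _ _ s9_aux.2.1⟩
  · exact ⟨⟨e • ((g : Matrix (Fin 2) (Fin 2) F9) * g9'), by
      rw [det_smul, det_mul, g9'_det, Fintype.card_fin, sq, he]⟩, key _ _ s9_aux.2.2.1⟩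

theorem pgc_nine (h5 : (5 : F) ≠ 0) {H P : Subgroup 𝐆} (hH : H ≤ specialLinear (Fin 3) F)
    (hc : IsResidualCore H P)
    (e₀ : (P ⧸ (𝐙).subgroupOf P) ≃* alternatingGroup (Fin 6)) : PGc 9 H := by
  obtain ⟨e'⟩ := S0254.result (F := F9) H9.card_F9
  obtain ⟨e, -⟩ : ∃ e, e = e₀.trans e'.symm := ⟨_, rfl⟩
  refine pgc_of_core (K := F9) (by decide +kernel) (fun A hA => ?_) hc e fun h hh a ha => ?_
  · rcases luc9 A.trace A.det hA with h | h | h
    · exact Or.inl (sc_pow_of_luc h)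
    · exact Or.inr (Or.inl (sc_pow_of_luc h))
    · exact Or.inr (Or.inr (sc_pow_of_luc h))
  obtain ⟨g, σ, h1 | ⟨h1, -⟩⟩ := H29.aut_psl_cases (F := F9) (n := 2) le_rfl a
  swap
  · omega
  rcases aut9 σ with h2 | h2
  · exact ⟨g, by rw [h1, h2, map_one, mul_one]⟩
  exfalso
  obtain ⟨s, hs9⟩ : ∃ s : SpecialLinearGroup (Fin 2) F9, (s : Matrix (Fin 2) (Fin 2) F9) = s9 :=
    ⟨⟨s9, s9_det⟩, rfl⟩
  obtain ⟨y, hy⟩ := exists_y9 g
  have hs : a (QuotientGroup.mk s) = QuotientGroup.mk y * QuotientGroup.mk s ^ 2 *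
      (QuotientGroup.mk y)⁻¹ := by
    rw [h1, MulAut.mul_apply, H29.pslField_mk, H29.pslConj_mk, ← QuotientGroup.mk_pow,
      ← QuotientGroup.mk_inv, ← QuotientGroup.mk_mul, ← QuotientGroup.mk_mul]
    refine congrArg QuotientGroup.mk ?_
    rw [eq_mul_inv_iff_mul_eq]
    apply sl_ext
    rw [Matrix.SpecialLinearGroup.coe_mul, Matrix.SpecialLinearGroup.coe_mul, H29.slConjElt_coe,
      H29.slEquiv_coe, sq, Matrix.SpecialLinearGroup.coe_mul, hs9, h2, hy]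
  obtain ⟨t, ht⟩ := e.surjective (QuotientGroup.mk s)
  obtain ⟨⟨t, htP⟩, rfl⟩ := QuotientGroup.mk_surjective t
  obtain ⟨z, hz⟩ := e.surjective (QuotientGroup.mk y)
  obtain ⟨⟨z, hzP⟩, rfl⟩ := QuotientGroup.mk_surjective z
  have hmem : ∀ x : P, e (QuotientGroup.mk x) = 1 ↔ (x : 𝐆) ∈ 𝐙 := fun x => by
    rw [EmbeddingLike.map_eq_one_iff, QuotientGroup.eq_one_iff, Subgroup.mem_subgroupOf]
  have h3 : t ∈ 𝐙 := by
    refine five_not_conj h5 (k := z⁻¹ * h) (hH (hc.le htP)) ?_ ?_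
    · refine (hmem (⟨t, htP⟩ ^ 5)).1 ?_
      rw [QuotientGroup.mk_pow, map_pow, ht, ← QuotientGroup.mk_pow]
      have : s ^ 5 = 1 := sl_ext (by
        rw [Matrix.SpecialLinearGroup.coe_pow, Matrix.SpecialLinearGroup.coe_one, ← s9_aux.1, hs9]
        simp only [pow_succ, pow_zero, one_mul])
      rw [this, QuotientGroup.mk_one]
    · have h4 := ha t htP
      rw [ht, hs, ← ht, ← hz] at h4
      have := (hmem ((⟨z, hzP⟩ : P)⁻¹ * ⟨h * t * h⁻¹, hc.normal h hh t htP⟩ * ⟨z, hzP⟩ *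
        (⟨t, htP⟩ ^ 2)⁻¹)).1 (by
          simp only [QuotientGroup.mk_mul, QuotientGroup.mk_inv, QuotientGroup.mk_pow, map_mul,
            map_inv, map_pow, ← h4]
          group)
      simpa [mul_assoc] using this
  have h4 := (hmem ⟨t, htP⟩).2 h3
  rw [ht, QuotientGroup.eq_one_iff, Matrix.SpecialLinearGroup.mem_center_iff] at h4
  obtain ⟨r, -, hr⟩ := h4
  rw [hs9] at hr
  have := congrFun (congrFun hr 1) 0
  exact s9_aux.2.2.2 (by simpa using this.symm)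

end Nine

end Cfsg.Agent.H85.L3
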