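import Cfsg.Agent.H14.Chain2

/-!
Kernel certificates for small permutation groups (packed as in `H14`): solvability by a subnormal series given by
generators and words, non-solvability by commutator words, and the numbers of solutions of `g ^ d = 1`, `d ∣ 168`.
-/

set_option autoImplicit false

namespace Cfsg.Agent.H85

open Subgroup H14
open scoped commutatorElement

section general

variable {G : Type*} [Group G]

theorem commutator_closure_le [Finite G] {A C : Set G}
    (h1 : ∀ a ∈ A, ∀ c ∈ C, a * c * a⁻¹ ∈ closure C) (h2 : ∀ a ∈ A, ∀ b ∈ A, ⁅a, b⁆ ∈ closure C) :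
    ⁅closure A, closure A⁆ ≤ closure C := by
  have hN : closure A ≤ normalizer (closure C : Set G) := by
    rw [closure_le]
    intro a ha
    refine mem_normalizer_fintype (S := (closure C : Set G)) fun x hx => ?_
    have : closure C ≤ (closure C).comap (MulAut.conj a).toMonoidHom :=
      (closure_le _).mpr fun c hc => h1 a ha c hc
    exact this hx
  have hc : ∀ g ∈ closure A, ∀ x ∈ closure C, g * x * g⁻¹ ∈ closure C := fun g hg x hx =>
    (mem_normalizer_iff.mp (hN hg) x).mp hx
  have h3 : ∀ a ∈ A, ∀ b ∈ closure A, ⁅a, b⁆ ∈ closure C := fun a ha b hb => by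
    induction hb using closure_induction with
    | mem x hx => exact h2 a ha x hx
    | one => simp [one_mem]
    | mul x y hx hy ihx ihy =>
      have : ⁅a, x * y⁆ = ⁅a, x⁆ * (x * ⁅a, y⁆ * x⁻¹) := by
        simp only [commutatorElement_def]; group
      rw [this]
      exact mul_mem ihx (hc x hx _ ihy)
    | inv x hx ihx =>
      have : ⁅a, x⁻¹⁆ = x⁻¹ * ⁅a, x⁆⁻¹ * x⁻¹⁻¹ := by
        simp only [commutatorElement_def]; group
      rw [this]
      exact hc _ (inv_mem hx) _ (inv_mem ihx)
  rw [commutator_le]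
  intro a ha b hb
  induction ha using closure_induction with
  | mem x hx => exact h3 x hx b hb
  | one => simp [one_mem]
  | mul x y hx hy ihx ihy =>
    have : ⁅x * y, b⁆ = (x * ⁅y, b⁆ * x⁻¹) * ⁅x, b⁆ := by
      simp only [commutatorElement_def]; group
    rw [this]
    exact mul_mem (hc x hx _ ihy) ihx
  | inv x hx ihx =>
    have : ⁅x⁻¹, b⁆ = x⁻¹ * ⁅x, b⁆⁻¹ * x⁻¹⁻¹ := by
      simp only [commutatorElement_def]; group
    rw [this]
    exact hc _ (inv_mem hx) _ (inv_mem ihx)

theorem isSolvable_of_commutator_le {H N : Subgroup G} (hN : Group.IsSolvable N)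
    (h : ⁅H, H⁆ ≤ N) : Group.IsSolvable H := by
  obtain ⟨n, hn⟩ := hN
  refine ⟨⟨n + 1, ?_⟩⟩
  have key : ∀ m, (derivedSeries H (m + 1)).map H.subtype ≤ (derivedSeries N m).map N.subtype := by
    intro m
    induction m with
    | zero =>
      rw [derivedSeries_zero, ← MonoidHom.range_eq_map, range_subtype, derivedSeries_one,
        map_subtype_commutator]
      exact h
    | succ m ih =>
      rw [derivedSeries_succ, derivedSeries_succ N, map_commutator, map_commutator]
      exact commutator_mono ih ih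
  have := key n
  rwa [hn, Subgroup.map_bot, le_bot_iff, map_eq_bot_iff_of_injective _ H.subtype_injective] at this

end general

/-- packed commutator -/
noncomputable def pcomm (k M n P Q : ℕ) : ℕ :=
  comp k M n (comp3 k M n P Q (inv k M n P)) (inv k M n Q)

/-- the elements that have to lie in the next term of the series -/
noncomputable def solvTargets (k M n : ℕ) (A C : List ℕ) : List ℕ :=
  A.flatMap fun a => (A.map fun b => pcomm k M n a b) ++
    C.map fun c => comp3 k M n a c (inv k M n a)

/-- solvability certificate -/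
noncomputable def solvOK (k M n : ℕ) (cs : List (List ℕ × List (List ℕ))) : List ℕ → Bool :=
  List.rec (fun A => allL A fun P => Nat.beq P (idP k n))
    (fun c _ ih A => allL c.1 (valid k M n) && slpOK k M n c.1 c.2 (solvTargets k M n A c.1) &&
      ih c.1) cs

/-- non-solvability certificate: every member of `C` is a commutator of two words in `C` -/
noncomputable def perfOK (k M n : ℕ) (C : List ℕ) (ws : List (List ℕ × List ℕ)) : Bool :=
  allL C fun P => anyL ws fun w =>
    Nat.beq P (pcomm k M n (evalWord k M n C w.1) (evalWord k M n C w.2))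

/-- `c` if `Q = I` and `0` otherwise -/
noncomputable def tt (I Q c : ℕ) : ℕ := Bool.rec 0 c (Nat.beq Q I)

/-- the divisors of 168 -/
def D168 (i : ℕ) : ℕ := [1, 2, 3, 4, 6, 7, 8, 12, 14, 21, 24, 28, 42, 56, 84, 168].getD i 0

/-- the indicator functions of `P ^ d = 1`, `d ∣ 168`, as digits in base `2 ^ 12` -/
noncomputable def code (k M n I P : ℕ) : ℕ :=
  force (comp k M n P P) fun p2 => force (comp k M n p2 P) fun p3 =>
  force (comp k M n p2 p2) fun p4 => force (comp k M n p3 p3) fun p6 =>
  force (comp k M n p6 P) fun p7 => force (comp k M n p4 p4) fun p8 =>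
  force (comp k M n p6 p6) fun p12 => force (comp k M n p7 p7) fun p14 =>
  force (comp k M n p14 p7) fun p21 => force (comp k M n p12 p12) fun p24 =>
  force (comp k M n p14 p14) fun p28 => force (comp k M n p21 p21) fun p42 =>
  force (comp k M n p28 p28) fun p56 => force (comp k M n p42 p42) fun p84 =>
  force (comp k M n p84 p84) fun p168 =>
    tt I P (2 ^ 0) + tt I p2 (2 ^ 12) + tt I p3 (2 ^ 24) + tt I p4 (2 ^ 36) + tt I p6 (2 ^ 48) +
    tt I p7 (2 ^ 60) + tt I p8 (2 ^ 72) + tt I p12 (2 ^ 84) + tt I p14 (2 ^ 96) +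
    tt I p21 (2 ^ 108) + tt I p24 (2 ^ 120) + tt I p28 (2 ^ 132) + tt I p42 (2 ^ 144) +
    tt I p56 (2 ^ 156) + tt I p84 (2 ^ 168) + tt I p168 (2 ^ 180)

/-- the whole counting check -/
noncomputable def cntOK (k M n : ℕ) (cs : List LevCert) (A v : List ℕ) : Bool :=
  allL A (valid k M n) && ssOK k M n cs A &&
    Nat.beq (chainCard n (cs.map LevCert.L)) (nth v 15) && allN 16 (fun i => Nat.ble (nth v i) 4095) &&
    force (idP k n) fun I =>
      Nat.beq (sumElts k M n (code k M n I) (cs.map LevCert.L) I) (pack 12 16 (nth v))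

/-- `G` has exponent dividing 168 and `v i` solutions of `g ^ D168 i = 1`. -/
def Has168 (G : Type*) [Group G] (v : ℕ → ℕ) : Prop :=
  (∀ g : G, g ^ 168 = 1) ∧ ∀ i < 16, Nat.card {g : G // g ^ D168 i = 1} = v i

section cert

variable {α : Type*} {n k M : ℕ} (E : Enc α n k M)

theorem pk_commutator (a b : Equiv.Perm α) : E.pk ⁅a, b⁆ = pcomm k M n (E.pk a) (E.pk b) := by
  rw [commutatorElement_def, E.pk_mul, E.pk_mul3, E.pk_inv, E.pk_inv]; rfl

theorem isSolvable_of_solvOK (cs : List (List ℕ × List (List ℕ))) (A : List ℕ)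
    (h : solvOK k M n cs A = true) : Group.IsSolvable (E.grp A) := by
  have := E.finite
  induction cs generalizing A with
  | nil =>
    have : E.grp A = ⊥ := Enc.isChain_last h
    rw [this]
    infer_instance
  | cons c cs ih =>
    have e : solvOK k M n (c :: cs) A = (allL c.1 (valid k M n) &&
      slpOK k M n c.1 c.2 (solvTargets k M n A c.1) && solvOK k M n cs c.1) := rfl
    rw [e] at h
    simp only [Bool.and_eq_true] at h
    obtain ⟨⟨h1, h2⟩, h3⟩ := h
    have h4 := Enc.inG_of_slpOK (E := E) c.2 (Enc.inG_grp_of_valid h1) h2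
    refine isSolvable_of_commutator_le (ih _ h3) (commutator_closure_le ?_ ?_)
    · intro a ha x hx
      refine Enc.inG_pk.mp (h4 _ ?_)
      rw [E.pk_mul3, E.pk_inv]
      exact List.mem_flatMap.mpr ⟨_, ha, List.mem_append_right _ (List.mem_map_of_mem hx)⟩
    · intro a ha x hx
      refine Enc.inG_pk.mp (h4 _ ?_)
      rw [pk_commutator]
      exact List.mem_flatMap.mpr ⟨_, ha, List.mem_append_left _ (List.mem_map_of_mem hx)⟩

theorem not_isSolvable_of_perfOK {K : Subgroup (Equiv.Perm α)} (C : List ℕ)
    (ws : List (List ℕ × List ℕ)) (hC : ∀ P ∈ C, E.InG K P) (h : perfOK k M n C ws = true)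
    {P : ℕ} (hP : P ∈ C) (hP1 : P ≠ idP k n) : ¬ Group.IsSolvable K := by
  rintro ⟨m, hm⟩
  have key : ∀ m, ∀ P ∈ C, E.InG ((derivedSeries K m).map K.subtype) P := by
    intro m
    induction m with
    | zero => rwa [derivedSeries_zero, ← MonoidHom.range_eq_map, range_subtype]
    | succ m ih =>
      intro Q hQ
      obtain ⟨w, -, e⟩ := anyL_iff.1 (allL_iff.1 h Q hQ)
      obtain ⟨a, ha, ea⟩ := Enc.inG_evalWord ih w.1
      obtain ⟨b, hb, eb⟩ := Enc.inG_evalWord ih w.2
      rw [beq_iff.1 e, ← ea, ← eb, ← pk_commutator, Enc.inG_pk, derivedSeries_succ, map_commutator]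
      exact commutator_mem_commutator ha hb
  obtain ⟨g, hg, e⟩ := key m P hP
  rw [hm, Subgroup.map_bot, mem_bot] at hg
  exact hP1 (by rw [← e, hg, E.pk_one])

open Classical in
theorem tt_pk (g : Equiv.Perm α) (c : ℕ) :
    tt (idP k n) (E.pk g) c = (if g = 1 then 1 else 0) * c := by
  unfold tt
  by_cases h : g = 1
  · rw [if_pos h, h, E.pk_one, beq_iff.2 rfl, one_mul]
  · rw [if_neg h, Bool.eq_false_iff.2 fun h' => h (E.pk_injective ((beq_iff.1 h').trans
      E.pk_one.symm)), zero_mul]

open Classical in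
theorem code_pk (g : Equiv.Perm α) : code k M n (idP k n) (E.pk g) =
    ∑ i ∈ Finset.range 16, (if g ^ D168 i = 1 then 1 else 0) * 2 ^ (12 * i) := by
  have h1 : E.pk g = E.pk (g ^ 1) := by rw [pow_one]
  rw [h1]
  simp only [code, force_eq, ← E.pk_mul, ← pow_add, tt_pk]
  simp only [Finset.sum_range_succ, Finset.sum_range_zero, zero_add]
  rfl

theorem has168_of_cntOK (cs : List LevCert) (A v : List ℕ) (h : cntOK k M n cs A v = true) :
    Has168 (E.grp A) (nth v) := by
  classical
  have := E.finite
  have := Fintype.ofFinite α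
  simp only [cntOK, Bool.and_eq_true, force_eq, beq_iff, allN_iff, ble_iff] at h
  obtain ⟨⟨⟨⟨h1, h2⟩, h3⟩, h4⟩, h5⟩ := h
  have hC := Enc.isChain_of_ssOK (E := E) (fun P hP => E.exists_pk_of_valid (allL_iff.1 h1 P hP)) h2
  have hcard := hC.card
  have hc : ∀ d, Nat.card {g : E.grp A // g ^ d = 1} =
      ∑ g with g ∈ E.grp A, if g ^ d = 1 then 1 else 0 := fun d => by
    rw [← Finset.card_filter, Finset.filter_filter, ← Nat.card_eq_finsetCard]
    refine Nat.card_congr ⟨fun x => ⟨x.1.1, Finset.mem_filter.mpr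
      ⟨Finset.mem_univ _, x.1.2, congrArg Subtype.val x.2⟩⟩, fun x => ⟨⟨x.1, by
        have := x.2; simp only [Finset.mem_filter] at this; exact this.2.1⟩, Subtype.ext (by
        have := x.2; simp only [Finset.mem_filter] at this; exact this.2.2)⟩,
      fun _ => rfl, fun _ => rfl⟩
  have hle : ∀ d, Nat.card {g : E.grp A // g ^ d = 1} ≤ Nat.card (E.grp A) := fun d =>
    Nat.card_le_card_of_injective _ Subtype.val_injective
  have h6 : pack 12 16 (fun i => Nat.card {g : E.grp A // g ^ D168 i = 1}) = pack 12 16 (nth v) := by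
    have e1 := hC.sum_eq (code k M n (idP k n))
    refine Eq.trans ?_ (e1.trans h5)
    rw [pack_eq_sum, Finset.sum_congr rfl fun g _ => code_pk E g, Finset.sum_comm]
    refine Finset.sum_congr rfl fun i _ => ?_
    rw [hc, Finset.sum_mul]
    exact Finset.sum_congr (by ext; simp) fun g _ => by congr
  have h7 : ∀ i < 16, Nat.card {g : E.grp A // g ^ D168 i = 1} = nth v i := fun i hi => by
    have e1 := app_pack (k := 12) (n := 16)
      (f := fun i => Nat.card {g : E.grp A // g ^ D168 i = 1}) (fun j _ => by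
        have := hle (D168 j)
        have := h4 15 (by norm_num)
        omega) hi
    have e2 := app_pack (k := 12) (n := 16) (f := nth v) (fun j hj => by
        have := h4 j hj
        omega) hi
    rw [← e1, h6, e2]
  refine ⟨fun g => ?_, h7⟩
  have h8 := h7 15 (by norm_num)
  rw [← h3, ← hcard] at h8
  obtain ⟨x, rfl⟩ := ((Nat.bijective_iff_injective_and_card _).mpr
    ⟨Subtype.val_injective, h8⟩).2 g
  exact x.2

end cert

end Cfsg.Agent.H85
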