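import Cfsg.Agent.H85.ShGrp
import Cfsg.Agent.H5.Burnside
import Cfsg.Agent.H33.Cong
import Cfsg.Agent.H88.PLocal
import Cfsg.Agent.S0907
import Cfsg.Agent.S0942

/-! Shadows and the principal block. -/

set_option autoImplicit false

namespace Cfsg.Agent.H85.Sh

open Cfsg Subgroup
open scoped ComplexConjugate

variable {G : Type*} [Group G] {p : ℕ}

theorem re_le [Finite G] {χ : G → ℂ} (h : IsCharacter G χ) (g : G) :
    ‖χ g‖ ≤ (χ 1).re := by
  obtain ⟨n, hn⟩ := H5.exists_nat_degree h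
  have := H5.norm_apply_le_degree h g
  rw [hn] at this ⊢
  simpa using this

theorem avg0 [Fintype G] (N : Subgroup G) [hN : N.Normal] [Fintype N] {r : G} (hr : r ∈ N) (v : G)
    {χ : G → ℂ} (h : IsCharacter G χ) :
    2 * (∑ q : N, χ (q * v)).re ≤ Fintype.card N * ((χ 1).re + (χ r).re) := by
  classical
  refine H5.isCharacter_induction (P := fun χ =>
    2 * (∑ q : N, χ (q * v)).re ≤ Fintype.card N * ((χ 1).re + (χ r).re)) (by simp) ?_ ?_ h
  · intro ψ hψ
    have hc := H5.isCharacter_of_isIrr hψ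
    have e : ∀ F : G → ℂ, ∑ g, (if g ∈ N then 1 else 0) * F g = ∑ q : N, F q := fun F => by
      rw [← Finset.sum_subtype (Finset.univ.filter (· ∈ N)) (by simp), Finset.sum_filter]
      simp
    have hf : IsClassFunction G (fun g => if g ∈ N then 1 else 0) := fun g k => by
      simp only [hN.mem_comm_iff (a := k * g), inv_mul_cancel_left]
    have h1 := fun x => H5.sum_mul_irr_mul hψ hf x
    simp only [e (fun g => ψ (g * _)), e ψ] at h1
    by_cases h0 : ∑ q : N, ψ q = 0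
    · rw [h1 v, h0]
      have h2 := re_le hc r
      have h3 := Complex.abs_re_le_norm (ψ r)
      have h4 := neg_abs_le (ψ r).re
      simp only [zero_div, zero_mul, Complex.zero_re, mul_zero]
      exact mul_nonneg (Nat.cast_nonneg _) (by linarith)
    · have h2 := h1 r
      have h3 : ∑ q : N, ψ (q * r) = ∑ q : N, ψ q :=
        Fintype.sum_equiv (Equiv.mulRight (⟨r, hr⟩ : N)) _ _ fun _ => rfl
      have h4 := H5.degree_ne_zero hψ
      rw [h3] at h2
      field_simp at h2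
      rw [← h2, Complex.re_sum]
      have h5 : ∑ q : N, (ψ (q * v)).re ≤ ∑ _q : N, (ψ 1).re :=
        Finset.sum_le_sum fun q _ => (Complex.re_le_norm _).trans (re_le hc _)
      rw [Finset.sum_const, Finset.card_univ, nsmul_eq_mul] at h5
      linarith
  · intro χ ψ _ _ h1 h2
    simp only [Pi.add_apply, Finset.sum_add_distrib, Complex.add_re]
    linarith

theorem avg [Finite G] {Q : Subgroup G} {r v : G} (hr : r ∈ Q) (hv : v ∈ normalizer (Q : Set G))
    {χ : G → ℂ} (h : IsCharacter G χ) (hq : ∀ q ∈ Q, χ (v * q) = χ v) :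
    2 * (χ v).re ≤ (χ 1).re + (χ r).re := by
  have := Fintype.ofFinite (normalizer (Q : Set G))
  have := Fintype.ofFinite (Q.subgroupOf (normalizer (Q : Set G)))
  have h1 := avg0 (Q.subgroupOf (normalizer (Q : Set G))) (r := ⟨r, le_normalizer hr⟩) hr ⟨v, hv⟩
    (H5.isCharacter_restrict h _)
  have h2 : ∀ q : Q.subgroupOf (normalizer (Q : Set G)),
      χ ((q : normalizer (Q : Set G)) * (⟨v, hv⟩ : normalizer (Q : Set G)) :
        normalizer (Q : Set G)) = χ v := fun q =>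
    (H5.isCharacter_mul_comm h _ _).trans (hq _ q.2)
  rw [Finset.sum_congr rfl fun q _ => h2 q, Finset.sum_const, Finset.card_univ, nsmul_eq_mul] at h1
  simp only [Complex.mul_re, Complex.natCast_re, Complex.natCast_im, zero_mul, sub_zero,
    OneMemClass.coe_one] at h1
  have h3 : (0 : ℝ) < Fintype.card (Q.subgroupOf (normalizer (Q : Set G))) := by
    exact_mod_cast Fintype.card_pos
  nlinarith

/-- what is used about the principal block -/
structure Blk (p : ℕ) (B : Finset (IrrCharacter G)) : Prop where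
  one : H33.oneIrr G ∈ B
  orth : ∀ x y : G, ¬ p ∣ orderOf x → p ∣ orderOf y →
    ∑ χ ∈ B, (χ : G → ℂ) x * conj ((χ : G → ℂ) y) = 0
  ker : ∀ χ ∈ B, ∀ v u : G, PE p v → u ∈ centralizerPPrimeCore p v →
    (χ : G → ℂ) (v * u) = (χ : G → ℂ) v

theorem exists_blk [hp : Fact p.Prime] [Finite G] : ∃ B : Finset (IrrCharacter G), Blk p B := by
  classical
  obtain ⟨M, hM⟩ := H88.exists_isPModular hp.out
  have := hM.2.1
  refine ⟨Finset.univ.filter (· ∈ principalBlock M G), ?_, fun x y hx hy => ?_,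
    fun χ hχ v u hv hu => S0942.result p M hM v hv.ord u hu χ (Finset.mem_filter.1 hχ).2⟩
  · exact Finset.mem_filter.2 ⟨Finset.mem_univ _, H33.oneIrr_mem_principalBlock⟩
  · rw [← H33.finsum_mem_irr]
    exact S0907.result p M hM _ H33.isPBlock_principalBlock x y hx hy

variable [hp : Fact p.Prime] [Fintype G] (H : Hyp p G) {B : Finset (IrrCharacter G)} (hB : Blk p B)
  (P : Sylow p G)
include H hB

theorem cos {Q : Subgroup G} (hQ : Inv p P Q) {v : G} (hv : v ∈ P) (h1 : v ≠ 1) {q : G}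
    (hq : q ∈ Q) {χ : IrrCharacter G} (hχ : χ ∈ B) : (χ : G → ℂ) (v * q) = (χ : G → ℂ) v := by
  have hv' := PE.of_mem P.isPGroup' hv
  obtain ⟨k, u, hu, hc, e⟩ := conj_cos hQ.cop (hQ.nrm hv) hv' hq
  rw [e, H5.isClassFunction_of_isIrr χ.2]
  exact hB.ker χ hχ v u hv' (H.lemB P hQ hv h1 hu hc)

theorem ph1 [IsSimpleGroup G] {z : G} (hz : z ≠ 1) {W : Subgroup G} (hW : W ≤ P)
    (h : ∀ g : G, ∃ x ∈ W, ∃ Q : Subgroup G, Inv p P Q ∧ x⁻¹ * (g * z * g⁻¹) ∈ Q) :
    (P : Subgroup G) ≤ W := by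
  classical
  intro a ha
  by_contra haW
  have := Fintype.ofFinite W
  choose x hx Q hQ hr using h
  have hne : ∀ w ∈ W, a * w ≠ 1 := fun w hw h =>
    haW ((eq_inv_of_mul_eq_one_left h) ▸ inv_mem hw)
  have hG : (Nat.card G : ℂ) ≠ 0 := H5.natCard_ne_zero
  have key : ∀ χ ∈ B, χ ≠ H33.oneIrr G → ∑ w : W, (χ : G → ℂ) (a * w) = 0 := by
    intro χ hχ h1
    have h2 : ∀ w : W, (Nat.card G : ℂ) * (χ : G → ℂ) (a * w) * (χ : G → ℂ) z / (χ : G → ℂ) 1 =
        ∑ g, (χ : G → ℂ) (a * (w * x g)) := fun w => by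
      rw [← H5.sum_irr_mul_conj_eq χ.2]
      refine Finset.sum_congr rfl fun g _ => ?_
      rw [← cos H hB P (hQ g) (mul_mem ha (hW (mul_mem w.2 (hx g))))
        (hne _ (mul_mem w.2 (hx g))) (hr g) hχ]
      congr 1; group
    have h3 : ∀ g, ∑ w : W, (χ : G → ℂ) (a * (w * x g)) = ∑ w : W, (χ : G → ℂ) (a * w) := fun g =>
      Fintype.sum_equiv (Equiv.mulRight (⟨x g, hx g⟩ : W)) _ _ fun _ => rfl
    have h4 := Finset.sum_congr (s₁ := Finset.univ) rfl fun w _ => h2 w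
    rw [Finset.sum_comm, Finset.sum_congr rfl fun g _ => h3 g, Finset.sum_const, Finset.card_univ,
      nsmul_eq_mul, ← Nat.card_eq_fintype_card, ← Finset.sum_div, ← Finset.sum_mul,
      ← Finset.mul_sum] at h4
    by_contra h5
    have h6 := H5.degree_ne_zero χ.2
    field_simp at h4
    exact hz (H5.eq_one_of_simple_of_apply_eq χ.2 (fun h => h1 (Subtype.ext h)) h4)
  have h1 : ∑ χ ∈ B, (χ : G → ℂ) 1 * conj (∑ w : W, (χ : G → ℂ) (a * w)) = 0 := by
    simp only [map_sum, Finset.mul_sum]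
    rw [Finset.sum_comm]
    exact Finset.sum_eq_zero fun w _ => hB.orth _ _ (by simpa using hp.out.ne_one)
      ((PE.of_mem P.isPGroup' (mul_mem ha (hW w.2))).dvd (hne _ w.2))
  rw [Finset.sum_eq_single_of_mem _ hB.one fun χ hχ h => by rw [key χ hχ h]; simp] at h1
  simp [H33.oneIrr_apply] at h1

/-- the Sylow subgroup is abelian -/
theorem abel [IsSimpleGroup G] (h : (P : Subgroup G) ≠ ⊥) : ∀ x ∈ P, ∀ s ∈ P, Commute x s := by
  obtain ⟨z, hz, hz1, hzc⟩ := exists_cen P h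
  have hpc : PC p z := ⟨P, hz, hzc⟩
  have h1 : ∀ x ∈ P, PC p x → ∀ s ∈ P, Commute x s := fun x hx hx' s hs => by
    have := ph1 H hB P hz1 (W := P ⊓ centralizer {x}) inf_le_left (fun g => by
      obtain ⟨y, hy, hy', h2⟩ := H.shadow' P (hpc.conj g)
      exact ⟨y, ⟨hy, mem_centralizer_singleton_iff.2 (H.comm P.isPGroup' hy' hx' hy hx).eq⟩, h2⟩) hs
    exact (mem_centralizer_singleton_iff.1 this.2).symm
  intro x hx s hs
  have := ph1 H hB P hz1 (W := P ⊓ centralizer (P : Set G)) inf_le_left (fun g => by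
    obtain ⟨y, hy, hy', h2⟩ := H.shadow' P (hpc.conj g)
    exact ⟨y, ⟨hy, mem_centralizer_iff.2 fun t ht => (h1 y hy hy' t ht).symm.eq⟩, h2⟩) hx
  exact (mem_centralizer_iff.1 this.2 s hs).symm

theorem eqE [Fintype (P : Subgroup G)] {z : G} {x : G → G} (hx : ∀ g, x g ∈ P)
    {Q : G → Subgroup G}
    (hQ : ∀ g, Inv p P (Q g)) (hr : ∀ g, (x g)⁻¹ * (g * z * g⁻¹) ∈ Q g) {χ : IrrCharacter G}
    (hχ : χ ∈ B) :
    (Nat.card G : ℂ) * ((∑ a : (P : Subgroup G), (χ : G → ℂ) a) / (χ : G → ℂ) 1 *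
      ((χ : G → ℂ) 1 - (χ : G → ℂ) z)) =
      ∑ g, ((χ : G → ℂ) 1 - (χ : G → ℂ) ((x g)⁻¹ * (g * z * g⁻¹))) := by
  classical
  have h1 : ∀ g, ∑ a : (P : Subgroup G), (χ : G → ℂ) (a * (g * z * g⁻¹)) =
      ∑ a : (P : Subgroup G), (χ : G → ℂ) a -
      ((χ : G → ℂ) 1 - (χ : G → ℂ) ((x g)⁻¹ * (g * z * g⁻¹))) := fun g => by
    have h2 : ∑ a : (P : Subgroup G), (χ : G → ℂ) (a * (g * z * g⁻¹)) =
        ∑ a : (P : Subgroup G), (χ : G → ℂ) (a * ((x g)⁻¹ * (g * z * g⁻¹))) :=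
      Fintype.sum_equiv (Equiv.mulRight (⟨x g, hx g⟩ : (P : Subgroup G))) _ _ fun a => by
        change _ = (χ : G → ℂ) ((a : G) * x g * _)
        congr 1
        group
    have h3 : ∑ a ∈ Finset.univ.erase (1 : (P : Subgroup G)),
        (χ : G → ℂ) (a * ((x g)⁻¹ * (g * z * g⁻¹))) =
        ∑ a ∈ Finset.univ.erase (1 : (P : Subgroup G)), (χ : G → ℂ) a :=
      Finset.sum_congr rfl fun a ha => cos H hB P (hQ g) a.2
        (fun h => (Finset.mem_erase.1 ha).1 (Subtype.ext h)) (hr g) hχ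
    rw [h2, ← Finset.add_sum_erase _ _ (Finset.mem_univ (1 : (P : Subgroup G))),
      ← Finset.add_sum_erase _ _ (Finset.mem_univ (1 : (P : Subgroup G))), h3]
    simp only [OneMemClass.coe_one, one_mul]
    ring
  have h3 := Finset.sum_congr (s₁ := Finset.univ) rfl fun g _ => h1 g
  rw [Finset.sum_comm] at h3
  simp only [H5.sum_irr_mul_conj_eq χ.2] at h3
  rw [Finset.sum_sub_distrib, Finset.sum_const, Finset.card_univ, nsmul_eq_mul,
    ← Nat.card_eq_fintype_card, ← Finset.sum_div, ← Finset.sum_mul, ← Finset.mul_sum] at h3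
  have h6 := H5.degree_ne_zero χ.2
  rw [← sub_sub_cancel _ (∑ g, ((χ : G → ℂ) 1 - (χ : G → ℂ) ((x g)⁻¹ * (g * z * g⁻¹)))), ← h3]
  field_simp

theorem core [IsSimpleGroup G] (hP : (P : Subgroup G) ≠ ⊤) (h3 : 3 ≤ Nat.card (P : Subgroup G)) :
    False := by
  classical
  have := Fintype.ofFinite (P : Subgroup G)
  have hbot : (P : Subgroup G) ≠ ⊥ := fun h => by rw [h, card_bot] at h3; omega
  have hsh : ∀ z : (P : Subgroup G), ∀ g : G, ∃ x ∈ P, ∃ Q : Subgroup G, Inv p P Q ∧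
      x⁻¹ * (g * z * g⁻¹) ∈ Q := fun z g =>
    H.shadow P (PC.conj ⟨P, z.2, abel H hB P hbot z z.2⟩ g)
  choose x hx Q hQ hr using hsh
  have hE := fun z χ hχ => eqE H hB P (hx z) (hQ z) (hr z) (χ := χ) hχ
  have hc := fun χ : IrrCharacter G => H5.isCharacter_of_isIrr χ.2
  choose d hd0 hd using fun χ : IrrCharacter G => H5.exists_pos_nat_degree χ.2
  set n := Nat.card (P : Subgroup G) with hn
  have hn0 : (n : ℂ) ≠ 0 := by exact_mod_cast (by omega : n ≠ 0)
  have hG : (Nat.card G : ℂ) ≠ 0 := H5.natCard_ne_zero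
  have hm : ∀ χ : IrrCharacter G, ∃ m : ℕ, ∑ a : (P : Subgroup G), (χ : G → ℂ) a = m := fun χ => by
    obtain ⟨m, hm⟩ := H5.exists_nat_classInner (H5.isCharacter_restrict (hc χ) P)
      H5.isCharacter_one
    rw [H5.classInner_one_right, ← hn, inv_mul_eq_iff_eq_mul₀ hn0] at hm
    exact ⟨n * m, by rw [hm]; push_cast; rfl⟩
  choose m hm using hm
  simp only [hm, hd] at hE
  have hsing : ∀ b : (P : Subgroup G), b ≠ 1 → p ∣ orderOf (b : G) := fun b hb =>
    (PE.of_mem P.isPGroup' b.2).dvd fun h => hb (Subtype.ext h)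
  have hW : ∀ b : (P : Subgroup G), b ≠ 1 → ∑ χ ∈ B, (d χ : ℂ) * conj ((χ : G → ℂ) b) = 0 :=
    fun b hb => by
      simpa only [hd] using hB.orth 1 b (by simpa using hp.out.ne_one) (hsing b hb)
  have hre : ∀ (χ : IrrCharacter G) g, ‖(χ : G → ℂ) g‖ ≤ d χ := fun χ g => by
    simpa [hd] using re_le (hc χ) g
  obtain ⟨b, hb⟩ : ∃ b : (P : Subgroup G), b ≠ 1 := by
    have := (P : Subgroup G).nontrivial_iff_ne_bot.2 hbot
    exact exists_ne 1
  have hne : ∀ χ : IrrCharacter G, χ ≠ H33.oneIrr G → ∀ g, (χ : G → ℂ) g = d χ → g = 1 :=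
    fun χ h g hg => H5.eq_one_of_simple_of_apply_eq χ.2 (fun h1 => h (Subtype.ext h1))
      (hg.trans (hd χ).symm)
  have hd1 : d (H33.oneIrr G) = 1 := by
    have : ((d (H33.oneIrr G) : ℕ) : ℂ) = 1 := (hd _).symm
    exact_mod_cast this
  have hm0 : ∀ χ ∈ B, m χ ≠ 0 := fun χ hχ h0 => by
    by_cases h1 : χ = H33.oneIrr G
    · have := hm χ
      rw [h0, h1] at this
      simp [H33.oneIrr_apply] at this
    have h2 := congrArg Complex.re (hE b χ hχ)
    simp only [h0, Nat.cast_zero, zero_div, zero_mul, mul_zero, Complex.zero_re, Complex.re_sum,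
      Complex.sub_re, Complex.natCast_re] at h2
    have h4 := (Finset.sum_eq_zero_iff_of_nonneg fun g _ => sub_nonneg.2
      ((Complex.re_le_norm _).trans (hre χ _))).1 h2.symm
    have h5 : ∀ g : G, g * b * g⁻¹ ∈ (P : Subgroup G) := fun g => by
      have h6 := sub_eq_zero.1 (h4 g (Finset.mem_univ _))
      have h7 := Complex.eq_re_of_ofReal_le (r := (d χ : ℝ)) (z := (χ : G → ℂ) _)
        (Complex.le_def.2 ⟨h6.le, by
          have h8 := hre χ ((x b g)⁻¹ * (g * b * g⁻¹))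
          have h9 := Complex.sq_norm_sub_sq_re ((χ : G → ℂ) ((x b g)⁻¹ * (g * b * g⁻¹)))
          have h10 := norm_nonneg ((χ : G → ℂ) ((x b g)⁻¹ * (g * b * g⁻¹)))
          rw [← h6] at h9
          simp only [Complex.ofReal_im]
          nlinarith⟩)
      rw [← h6] at h7
      exact inv_mul_eq_one.1 (hne χ h1 _ (by exact_mod_cast h7)) ▸ hx b g
    have h6 : normalClosure {(b : G)} ≤ P := by
      rw [normalClosure, closure_le]
      intro y hy
      obtain ⟨a, ha, h7⟩ := Group.mem_conjugatesOfSet_iff.1 hy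
      obtain ⟨g, rfl⟩ := isConj_iff.1 h7
      exact (Set.mem_singleton_iff.1 ha) ▸ h5 g
    rcases (normalClosure_normal (s := {(b : G)})).eq_bot_or_eq_top with h | h
    · exact hb (Subtype.ext (mem_bot.1 (h ▸ subset_normalClosure rfl)))
    · exact hP (top_le_iff.1 (h ▸ h6))
  have hE2 : ∀ z c : (P : Subgroup G), c ≠ 1 →
      ∑ χ ∈ B, (m χ : ℂ) / d χ * (d χ - (χ : G → ℂ) z) * conj ((χ : G → ℂ) c) = 0 := by
    intro z c hc
    refine mul_left_cancel₀ hG ?_
    rw [Finset.mul_sum, mul_zero, Finset.sum_congr rfl fun χ hχ => by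
      rw [← mul_assoc, hE z χ hχ, Finset.sum_mul], Finset.sum_comm]
    refine Finset.sum_eq_zero fun g _ => ?_
    simp only [sub_mul, Finset.sum_sub_distrib]
    rw [hW c hc, hB.orth _ _ (reg_of_mem (hQ z g).cop (hr z g)) (hsing c hc), sub_zero]
  have hconst : ∀ χ ∈ B, ∀ z : (P : Subgroup G), z ≠ 1 → (χ : G → ℂ) z = (χ : G → ℂ) b := by
    intro χ hχ z hz
    have h1 : ∑ χ ∈ B, (((m χ : ℝ) / d χ * Complex.normSq ((χ : G → ℂ) z - (χ : G → ℂ) b) : ℝ) : ℂ)
        = 0 := by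
      have h2 : ∀ χ ∈ B, (((m χ : ℝ) / d χ * Complex.normSq ((χ : G → ℂ) z - (χ : G → ℂ) b) : ℝ) : ℂ)
          = (m χ : ℂ) / d χ * (d χ - (χ : G → ℂ) b) * conj ((χ : G → ℂ) z) -
            (m χ : ℂ) / d χ * (d χ - (χ : G → ℂ) z) * conj ((χ : G → ℂ) z) +
            ((m χ : ℂ) / d χ * (d χ - (χ : G → ℂ) z) * conj ((χ : G → ℂ) b) -
            (m χ : ℂ) / d χ * (d χ - (χ : G → ℂ) b) * conj ((χ : G → ℂ) b)) := fun χ _ => by
        push_cast
        rw [← Complex.mul_conj, map_sub]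
        ring
      rw [Finset.sum_congr rfl h2, Finset.sum_add_distrib, Finset.sum_sub_distrib,
        Finset.sum_sub_distrib, hE2 _ _ hz, hE2 _ _ hz, hE2 _ _ hb, hE2 _ _ hb]
      simp
    rw [← Complex.ofReal_sum, Complex.ofReal_eq_zero] at h1
    have h2 := (Finset.sum_eq_zero_iff_of_nonneg fun χ _ => mul_nonneg (by positivity)
      (Complex.normSq_nonneg _)).1 h1 χ hχ
    have h4 : (m χ : ℝ) / d χ ≠ 0 :=
      div_ne_zero (by exact_mod_cast hm0 χ hχ) (by exact_mod_cast (hd0 χ).ne')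
    exact sub_eq_zero.1 (Complex.normSq_eq_zero.1 ((mul_eq_zero.1 h2).resolve_left h4))
  have hmb : ∀ χ ∈ B, (m χ : ℂ) = d χ + (n - 1) * (χ : G → ℂ) b := fun χ hχ => by
    rw [← hm, ← Finset.add_sum_erase _ _ (Finset.mem_univ (1 : (P : Subgroup G))),
      Finset.sum_congr rfl fun a ha => hconst χ hχ a (Finset.mem_erase.1 ha).1, Finset.sum_const,
      Finset.card_erase_of_mem (Finset.mem_univ _), Finset.card_univ, ← Nat.card_eq_fintype_card,
      ← hn, nsmul_eq_mul, OneMemClass.coe_one, hd, Nat.cast_sub (by omega), Nat.cast_one]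
  have hn1 : (n : ℂ) - 1 ≠ 0 := by
    rw [sub_ne_zero]; exact_mod_cast (by omega : n ≠ 1)
  have hβ : ∀ χ : IrrCharacter G, ∃ β : ℤ, χ ∈ B → (χ : G → ℂ) b = β := fun χ => by
    by_cases hχ : χ ∈ B
    · have h1 : (χ : G → ℂ) b = ((((m χ : ℚ) - d χ) / (n - 1) : ℚ) : ℂ) := by
        push_cast
        rw [hmb χ hχ]
        field_simp
        ring
      obtain ⟨β, h2⟩ := H5.exists_int_of_isIntegral_rat (h1 ▸ H5.isIntegral_apply (hc χ) b)
      exact ⟨β, fun _ => by rw [h1, h2]; rfl⟩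
    · exact ⟨0, fun h => absurd h hχ⟩
  choose β hβ using hβ
  have hβ1 : β (H33.oneIrr G) = 1 := by
    have : ((β (H33.oneIrr G) : ℤ) : ℂ) = 1 := (hβ _ hB.one).symm
    exact_mod_cast this
  have hmb' : ∀ χ ∈ B, (m χ : ℝ) = d χ + (n - 1) * β χ := fun χ hχ => by
    have := hmb χ hχ
    rw [hβ χ hχ] at this
    exact_mod_cast this
  have hd0' : ∀ χ, (0 : ℝ) < d χ := fun χ => by exact_mod_cast hd0 χ
  have hn3 : (3 : ℝ) ≤ n := by exact_mod_cast h3
  have hbd : ∀ χ ∈ B, χ ≠ H33.oneIrr G → ((n : ℝ) - 1) * β χ ≤ d χ := fun χ hχ h1 => by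
    have h2 : (β χ : ℝ) < d χ := by
      refine lt_of_le_of_ne ?_ fun h => hb (Subtype.ext (hne χ h1 b ?_))
      · have := (Complex.re_le_norm _).trans (hre χ b)
        simpa [hβ χ hχ] using this
      · rw [hβ χ hχ]; exact_mod_cast h
    have h4 := congrArg Complex.re (hE b χ hχ)
    have h5 : (Nat.card G : ℂ) * ((m χ : ℂ) / d χ * (d χ - (χ : G → ℂ) b)) =
        (((Nat.card G : ℝ) * ((m χ : ℝ) / d χ * (d χ - β χ)) : ℝ) : ℂ) := by
      rw [hβ χ hχ]; push_cast; rfl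
    rw [h5, Complex.ofReal_re, Complex.re_sum] at h4
    have h6 : ∑ g : G, ((d χ : ℂ) - (χ : G → ℂ) ((x b g)⁻¹ * (g * b * g⁻¹))).re ≤
        ∑ _g : G, 2 * ((d χ : ℝ) - β χ) := Finset.sum_le_sum fun g _ => by
      have := avg (hr b g) ((hQ b g).nrm b.2) (hc χ) fun q hq =>
        cos H hB P (hQ b g) b.2 (fun h => hb (Subtype.ext h)) hq hχ
      simp only [hβ χ hχ, hd, Complex.intCast_re, Complex.natCast_re, Complex.sub_re] at this ⊢
      linarith
    rw [← h4, Finset.sum_const, Finset.card_univ, nsmul_eq_mul, ← Nat.card_eq_fintype_card] at h6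
    have h7 := le_of_mul_le_mul_right (le_of_mul_le_mul_left h6
      (by exact_mod_cast Nat.card_pos)) (sub_pos.2 h2)
    rw [div_le_iff₀ (hd0' χ), hmb' χ hχ] at h7
    linarith
  have hW' : ∑ χ ∈ B, (d χ : ℝ) * β χ = 0 := by
    have := hW b hb
    rw [Finset.sum_congr rfl fun χ hχ => by rw [hβ χ hχ, map_intCast]] at this
    exact_mod_cast this
  have hI : ∑ χ ∈ B, (m χ : ℝ) / d χ * (d χ - β χ) * β χ = 0 := by
    have := hE2 b b hb
    rw [Finset.sum_congr rfl fun χ hχ => by rw [hβ χ hχ, map_intCast]] at this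
    rw [← Complex.ofReal_eq_zero]
    push_cast
    exact this
  have hT : ∑ χ ∈ B, (β χ : ℝ) ^ 2 * (n - 2 - (n - 1) * β χ / d χ) = 0 := by
    have h0 := congrArg₂ (· - ·) hI hW'
    simp only [sub_zero] at h0
    rw [← h0, ← Finset.sum_sub_distrib]
    refine Finset.sum_congr rfl fun χ hχ => ?_
    have := (hd0' χ).ne'
    rw [hmb' χ hχ]
    field_simp
    ring
  obtain ⟨ψ, hψ, h1⟩ : ∃ ψ ∈ B, β ψ < 0 := by
    by_contra! h
    have := (Finset.sum_eq_zero_iff_of_nonneg fun χ hχ => mul_nonneg (hd0' χ).le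
      (by exact_mod_cast h χ hχ)).1 hW' _ hB.one
    rw [hd1, hβ1] at this
    norm_num at this
  have h2 : ψ ≠ H33.oneIrr G := fun h => by rw [h, hβ1] at h1; omega
  rw [← Finset.add_sum_erase _ _ hB.one, ← Finset.add_sum_erase _ _ (Finset.mem_erase.2 ⟨h2, hψ⟩),
    hd1, hβ1] at hT
  have h4 : 0 ≤ ∑ χ ∈ (B.erase (H33.oneIrr G)).erase ψ,
      (β χ : ℝ) ^ 2 * (n - 2 - (n - 1) * β χ / d χ) := Finset.sum_nonneg fun χ hχ => by
    have h5 := Finset.mem_erase.1 (Finset.mem_erase.1 hχ).2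
    have h6 := (div_le_one (hd0' χ)).2 (hbd χ h5.2 h5.1)
    exact mul_nonneg (sq_nonneg _) (by linarith)
  have h5 : (β ψ : ℝ) ≤ -1 := by exact_mod_cast (by omega : β ψ ≤ -1)
  have h6 : ((n : ℝ) - 1) * β ψ / d ψ < 0 := div_neg_of_neg_of_pos (by nlinarith) (hd0' ψ)
  have h7 : 1 ≤ (β ψ : ℝ) ^ 2 := by nlinarith
  push_cast at hT
  nlinarith

end Cfsg.Agent.H85.Sh
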