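import Cfsg.Agent.H74.Balance
import Cfsg.Agent.H33.PPart

/-! Groups in which any two Sylow `p`-subgroups generate a `p`-solvable subgroup: shadows. -/

set_option autoImplicit false

namespace Cfsg.Agent.H85.Sh

open Cfsg Subgroup

variable {G : Type*} [Group G] {p : ℕ}

/-- `p`-element -/
def PE (p : ℕ) (x : G) : Prop := ∃ k, x ^ p ^ k = 1

theorem PE.of_mem {P : Subgroup G} (hP : IsPGroup p P) {x : G} (hx : x ∈ P) : PE p x := by
  obtain ⟨k, hk⟩ := hP ⟨x, hx⟩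
  exact ⟨k, congrArg Subtype.val hk⟩

theorem PE.ord [hp : Fact p.Prime] {x : G} (h : PE p x) : ∃ k, orderOf x = p ^ k := by
  obtain ⟨k, hk⟩ := h
  obtain ⟨j, -, hj⟩ := (Nat.dvd_prime_pow hp.out).1 (orderOf_dvd_of_pow_eq_one hk)
  exact ⟨j, hj⟩

theorem PE.conj {x : G} (h : PE p x) (g : G) : PE p (g * x * g⁻¹) := by
  obtain ⟨k, hk⟩ := h
  exact ⟨k, by rw [conj_pow, hk]; simp⟩

theorem PE.dvd [hp : Fact p.Prime] {x : G} (h : PE p x) (h1 : x ≠ 1) : p ∣ orderOf x := by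
  by_contra h2
  exact h1 (H33.eq_one_of_pElt_of_regular h.ord h2)

theorem PE.grp [hp : Fact p.Prime] {x : G} (h : PE p x) : IsPGroup p (zpowers x) := by
  obtain ⟨k, hk⟩ := h.ord
  exact IsPGroup.of_card (by rw [Nat.card_zpowers, hk])

theorem reg_of_mem [hp : Fact p.Prime] {Q : Subgroup G} (hQ : (Nat.card Q).Coprime p) {x : G}
    (hx : x ∈ Q) : ¬ p ∣ orderOf x := fun h =>
  hp.out.coprime_iff_not_dvd.1 hQ.symm (h.trans (Q.orderOf_dvd_natCard hx))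

theorem PE.eq_one [hp : Fact p.Prime] {Q : Subgroup G} (hQ : (Nat.card Q).Coprime p) {x : G}
    (h : PE p x) (hx : x ∈ Q) : x = 1 :=
  H33.eq_one_of_pElt_of_regular h.ord (reg_of_mem hQ hx)

/-- a `p'`-subgroup normalized by `P` -/
structure Inv (p : ℕ) (P Q : Subgroup G) : Prop where
  cop : (Nat.card Q).Coprime p
  nrm : P ≤ normalizer (Q : Set G)

theorem cj {Q : Subgroup G} {a q : G} (ha : a ∈ normalizer (Q : Set G)) (hq : q ∈ Q) :
    a * q * a⁻¹ ∈ Q := (mem_normalizer_iff.1 ha q).1 hq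

theorem cj' {Q : Subgroup G} {a q : G} (ha : a ∈ normalizer (Q : Set G)) (hq : q ∈ Q) :
    a⁻¹ * q * a ∈ Q := by simpa using cj (inv_mem ha) hq

theorem pow_mem {Q : Subgroup G} {a q : G} (ha : a ∈ normalizer (Q : Set G)) (hq : q ∈ Q)
    (m : ℕ) : (a ^ m)⁻¹ * (a * q) ^ m ∈ Q := by
  induction m with
  | zero => simp
  | succ m ih =>
    have : (a ^ (m + 1))⁻¹ * (a * q) ^ (m + 1) = a⁻¹ * ((a ^ m)⁻¹ * (a * q) ^ m) * a * q := by
      rw [pow_succ' a, pow_succ (a * q), mul_inv_rev, ((Commute.refl a).pow_left m).inv_inv.eq]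
      group
    rw [this]
    exact mul_mem (cj' ha ih) hq

theorem reg_one [hp : Fact p.Prime] [Finite G] {Q : Subgroup G} (hQ : (Nat.card Q).Coprime p)
    {a q : G} (ha : a ∈ normalizer (Q : Set G)) (hp' : PE p a) (hq : q ∈ Q)
    (hr : ¬ p ∣ orderOf (a * q)) : a = 1 := by
  have h1 := pow_mem ha hq (orderOf (a * q))
  rw [pow_orderOf_eq_one, mul_one, inv_mem_iff] at h1
  obtain ⟨k, hk⟩ := hp'.ord
  refine hp'.eq_one hQ (H33.mem_of_zpow_mem_of_pElt hp.out hk Q (i := orderOf (a * q)) ?_ ?_)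
  · exact_mod_cast hr
  · rwa [zpow_natCast]

theorem fix [hp : Fact p.Prime] [Finite G] {Y : Subgroup G} (hY : (Nat.card Y).Coprime p)
    {a s v : G} (hs : PE p s) (hv : PE p v) (h : ∀ y ∈ Y, a⁻¹ * (s * (a * y) * v⁻¹) ∈ Y) :
    ∃ y ∈ Y, s * (a * y) = a * y * v := by
  classical
  have := Fintype.ofFinite Y
  let f : Function.End Y := fun y => ⟨_, h y y.2⟩
  have h1 : ∀ (m : ℕ) (y : Y), ((f ^ m) y : G) = a⁻¹ * (s ^ m * (a * y) * (v ^ m)⁻¹) := by
    intro m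
    induction m with
    | zero => intro y; simp [Function.End.one_def]
    | succ m ih =>
      intro y
      rw [pow_succ', Function.End.mul_def]
      change a⁻¹ * (s * (a * ((f ^ m) y : G)) * v⁻¹) = _
      rw [ih, pow_succ' s, pow_succ' v]
      group
  obtain ⟨k, hk⟩ := hs
  obtain ⟨l, hl⟩ := hv
  have h2 : f ^ p ^ (k + l) = 1 := by
    funext y
    refine Subtype.ext ?_
    rw [h1, pow_add, pow_mul, hk, mul_comm (p ^ k), pow_mul, hl]
    simp [Function.End.one_def]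
  have h3 := Equiv.Perm.card_fixedPoints_modEq h2
  by_contra h4
  have : IsEmpty f.fixedPoints := ⟨fun y => h4 ⟨y.1, y.1.2, by
    have h5 : a⁻¹ * (s * (a * y.1) * v⁻¹) = y.1 := congrArg Subtype.val y.2
    calc s * (a * y.1) = a * (a⁻¹ * (s * (a * y.1) * v⁻¹)) * v := by group
      _ = _ := by rw [h5]⟩⟩
  rw [Fintype.card_eq_zero (α := f.fixedPoints), Nat.modEq_zero_iff_dvd,
    ← Nat.card_eq_fintype_card] at h3
  exact hp.out.coprime_iff_not_dvd.1 hY.symm h3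

/-- a `p`-element of the coset `v Q` is conjugate to `v` under `Q` -/
theorem conj_pe [hp : Fact p.Prime] [Finite G] {Q : Subgroup G} (hQ : (Nat.card Q).Coprime p)
    {v s : G} (hv : v ∈ normalizer (Q : Set G)) (hv' : PE p v) (hs : PE p s)
    (h : v⁻¹ * s ∈ Q) : ∃ k ∈ Q, s = k * v * k⁻¹ := by
  obtain ⟨k, hk, h1⟩ := fix (a := 1) hQ hs hv' fun y hy => by
    have := cj hv (mul_mem h hy)
    simpa [mul_assoc] using this
  exact ⟨k, hk, by simpa [eq_mul_inv_iff_mul_eq] using h1⟩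

theorem conj_cos [hp : Fact p.Prime] [Finite G] {Q : Subgroup G} (hQ : (Nat.card Q).Coprime p)
    {v q : G} (hv : v ∈ normalizer (Q : Set G)) (hv' : PE p v) (hq : q ∈ Q) :
    ∃ k u : G, u ∈ Q ∧ Commute u v ∧ v * q = k * (v * u) * k⁻¹ := by
  obtain ⟨s, hs⟩ := H33.exists_isPPart hp.out (v * q)
  obtain ⟨i, hi⟩ := mem_powers_iff_mem_zpowers.2 (H33.IsPPart.mem_zpowers hp.out hs)
  have h1 := pow_mem hv hq i
  simp only at hi
  rw [hi] at h1
  have hvi := pow_mem_normalizer hv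
  have h2 : (v ^ i)⁻¹ * v = 1 := by
    have e : s⁻¹ * (v * q) = (v ^ i)⁻¹ * v *
        (((v ^ i)⁻¹ * v)⁻¹ * ((v ^ i)⁻¹ * s)⁻¹ * ((v ^ i)⁻¹ * v) * q) := by group
    have hn : (v ^ i)⁻¹ * v ∈ normalizer (Q : Set G) := mul_mem (inv_mem (hvi i)) hv
    refine reg_one hQ hn (PE.of_mem hv'.grp ?_) (mul_mem (cj' hn (inv_mem h1)) hq)
      (e ▸ H33.IsPPart.regular hs)
    exact mul_mem (inv_mem (npow_mem_zpowers v i)) (mem_zpowers v)
  rw [inv_mul_eq_one.1 h2] at h1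
  have hs' : PE p s := by
    obtain ⟨k, hk⟩ := H33.IsPPart.pElt hs
    exact ⟨k, hk ▸ pow_orderOf_eq_one s⟩
  obtain ⟨k, hk, h3⟩ := conj_pe hQ hv hv' hs' h1
  have hc := (H33.IsPPart.commute hs).eq
  refine ⟨k, k⁻¹ * (s⁻¹ * (v * q)) * k, mul_mem (mul_mem (inv_mem hk) ?_) hk, ?_, ?_⟩
  · have := mul_mem (inv_mem h1) hq
    simpa [mul_assoc] using this
  · have hv2 : v = k⁻¹ * s * k := by rw [h3]; group
    generalize v * q = g at hc
    rw [hv2]
    calc k⁻¹ * (s⁻¹ * g) * k * (k⁻¹ * s * k) = k⁻¹ * s⁻¹ * (g * s) * k := by group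
      _ = _ := by rw [← hc]; group
  · generalize v * q = g
    rw [h3]; group
where
  pow_mem_normalizer {Q : Subgroup G} {v : G} (hv : v ∈ normalizer (Q : Set G)) (i : ℕ) :
      v ^ i ∈ normalizer (Q : Set G) := Subgroup.pow_mem _ hv i

section type
variable [hp : Fact p.Prime] [Finite G]

theorem mem_core (hs : IsPSolvable p G) (R : Sylow p G) {t : G}
    (h : ∀ r ∈ R, ((r : G ⧸ pPrimeCore p G) ∈ pCore p _) →
      (r : G ⧸ pPrimeCore p G) * t = t * r) : (t : G ⧸ pPrimeCore p G) ∈ pCore p _ := by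
  refine H22.IsPSolvable.isCharP_quotient hs (mem_centralizer_iff.2 fun s hs' => ?_)
  obtain ⟨r, hr, rfl⟩ := H22.pCore_le_sylow
    (R.mapSurjective (QuotientGroup.mk'_surjective (pPrimeCore p G))) hs'
  exact h r hr hs'

theorem sh0 (hs : IsPSolvable p G) (R₁ R₂ : Sylow p G) {y : G} (h : ∀ s ∈ R₂, Commute y s) :
    ∃ x ∈ R₁, x⁻¹ * y ∈ pPrimeCore p G := by
  have h1 := mem_core hs R₂ (t := y) fun r hr _ =>
    congrArg (QuotientGroup.mk' (pPrimeCore p G)) (h r hr).symm.eq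
  obtain ⟨x, hx, h2⟩ := H22.pCore_le_sylow
    (R₁.mapSurjective (QuotientGroup.mk'_surjective (pPrimeCore p G))) h1
  exact ⟨x, hx, QuotientGroup.eq.1 h2⟩

theorem g0 (hs : IsPSolvable p G) (R : Sylow p G) {Y : Subgroup G} (h : Inv p R Y) :
    Y ≤ pPrimeCore p G := fun y hy => by
  have hc := H22.coprime_card_map (QuotientGroup.mk' (pPrimeCore p G)) h.cop
  have h1 := mem_core hs R (t := y) fun r hr h1 => by
    have h2 : r * y * r⁻¹ * y⁻¹ ∈ Y := mul_mem (cj (h.nrm hr) hy) (inv_mem hy)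
    have h3 : ((r * y * r⁻¹ * y⁻¹ : G) : G ⧸ pPrimeCore p G) ∈ pCore p _ := by
      have := mul_mem h1 ((inferInstance : (pCore p (G ⧸ pPrimeCore p G)).Normal).conj_mem _
        (inv_mem h1) y)
      simpa [mul_assoc] using this
    have h4 := (PE.of_mem H22.isPGroup_pCore h3).eq_one hc ⟨_, h2, rfl⟩
    simpa [mul_inv_eq_one, mul_inv_eq_iff_eq_mul] using h4
  exact (QuotientGroup.eq_one_iff y).1 ((PE.of_mem H22.isPGroup_pCore h1).eq_one hc ⟨_, hy, rfl⟩)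

end type

/-- ambient form -/
theorem g1 [hp : Fact p.Prime] [Finite G] {C : Subgroup G} (hs : IsPSolvable p C) (R : Sylow p C)
    {Q : Subgroup G} (hQ : (Nat.card Q).Coprime p)
    (h : ∀ r ∈ R, (r : G) ∈ normalizer (Q : Set G)) {q : G} (hq : q ∈ Q) (hc : q ∈ C) :
    q ∈ (pPrimeCore p C).map C.subtype := by
  refine ⟨⟨q, hc⟩, g0 hs R (Y := Q.subgroupOf C) ⟨?_, fun r hr => ?_⟩ hq, rfl⟩
  · exact H22.coprime_card_comap_of_injective _ C.subtype_injective hQ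
  · exact mem_normalizer_iff.2 fun x => mem_normalizer_iff.1 (h r hr) x

/-- the hypothesis -/
structure Hyp (p : ℕ) (G : Type*) [Group G] : Prop where
  two : ∀ P₁ P₂ : Sylow p G, IsPSolvable p ↥((P₁ : Subgroup G) ⊔ P₂)
  cen : ∀ v : G, v ≠ 1 → IsPSolvable p (centralizer ({v} : Set G))

/-- `p`-central elements -/
def PC (p : ℕ) (y : G) : Prop := ∃ P : Sylow p G, y ∈ P ∧ ∀ s ∈ P, Commute y s

theorem PC.pe {y : G} (h : PC p y) : PE p y := by
  obtain ⟨P, h, -⟩ := h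
  exact PE.of_mem P.isPGroup' h

theorem PC.conj {y : G} (h : PC p y) (g : G) : PC p (g * y * g⁻¹) := by
  obtain ⟨P, h, h'⟩ := h
  refine ⟨g • P, ?_, fun s hs => ?_⟩
  · exact smul_mem_pointwise_smul y (MulAut.conj g) _ h
  · obtain ⟨t, ht, rfl⟩ := (mem_smul_pointwise_iff_exists s (MulAut.conj g) _).1 hs
    exact (h' t ht).map (MulAut.conj g)

variable [hp : Fact p.Prime] [Finite G] (H : Hyp p G)
include H

theorem Hyp.shadow (P : Sylow p G) {y : G} (hy : PC p y) :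
    ∃ x ∈ P, ∃ Q : Subgroup G, Inv p P Q ∧ x⁻¹ * y ∈ Q := by
  obtain ⟨P₂, h1, h2⟩ := hy
  obtain ⟨x, hx, h3⟩ := sh0 (H.two P P₂) (P.subtype le_sup_left) (P₂.subtype le_sup_right)
    (y := ⟨y, mem_sup_right h1⟩) fun s hs => Subtype.ext (h2 s hs).eq
  exact ⟨x, hx, _, ⟨H44.pPrimeCoreOf_coprime _, le_sup_left.trans
    (H44.le_normalizer_pPrimeCoreOf _)⟩, ⟨_, h3, rfl⟩⟩

theorem Hyp.comm {P : Subgroup G} (hP : IsPGroup p P) {x y : G} (hx : PC p x) (hy : PC p y)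
    (hxP : x ∈ P) (hyP : y ∈ P) : Commute x y := by
  obtain ⟨P₂, h1, h2⟩ := hy
  obtain ⟨x', hx', Q, hQ, h3⟩ := H.shadow P₂ hx
  have h4 : x⁻¹ * (y * x * y⁻¹) ∈ Q := by
    have e : x⁻¹ * (y * x * y⁻¹) = (x'⁻¹ * x)⁻¹ * (y * (x'⁻¹ * x) * y⁻¹) := by
      rw [← mul_assoc y, (h2 x' hx').inv_right.eq]; group
    rw [e]
    exact mul_mem (inv_mem h3) (cj (hQ.nrm h1) h3)
  have h5 := (PE.of_mem hP (mul_mem (inv_mem hxP)
    (mul_mem (mul_mem hyP hxP) (inv_mem hyP)))).eq_one hQ.cop h4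
  rw [inv_mul_eq_one, eq_mul_inv_iff_mul_eq] at h5
  exact h5

theorem Hyp.lemA {v : G} (hv : PE p v) (h1 : v ≠ 1) (R : Sylow p (centralizer ({v} : Set G)))
    {y : G} (hy : PC p y) (hc : Commute y v) :
    ∃ r ∈ R, (r : G)⁻¹ * y ∈ centralizerPPrimeCore p v := by
  obtain ⟨P, hP⟩ := R.exists_comap_subtype_eq
  have hR : ∀ r : centralizer ({v} : Set G), r ∈ R ↔ (r : G) ∈ P := fun r =>
    (SetLike.ext_iff.1 hP r).symm
  have hvP : v ∈ P := by
    let v' : centralizer ({v} : Set G) := ⟨v, mem_centralizer_singleton_iff.2 rfl⟩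
    have hv' : PE p v' := by
      obtain ⟨k, hk⟩ := hv
      exact ⟨k, Subtype.ext hk⟩
    have : (zpowers v').Normal := by
      refine ⟨fun n hn g => ?_⟩
      have hg : Commute g v' := Subtype.ext (mem_centralizer_singleton_iff.1 g.2)
      obtain ⟨i, rfl⟩ := hn
      simp only
      rw [(hg.zpow_right i).eq, mul_inv_cancel_right]
      exact ⟨i, rfl⟩
    exact (hR v').1 ((H22.le_pCore this hv'.grp).trans (H22.pCore_le_sylow R) (mem_zpowers v'))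
  obtain ⟨x, hx, Q, hQ, h3⟩ := H.shadow P hy
  have h4 : x⁻¹ * (v * x * v⁻¹) ∈ Q := by
    have e : x⁻¹ * (v * x * v⁻¹) = x⁻¹ * y * (v * (x⁻¹ * y) * v⁻¹)⁻¹ := by
      calc x⁻¹ * (v * x * v⁻¹) = x⁻¹ * (v * y) * (y⁻¹ * x * v⁻¹) := by group
        _ = _ := by rw [← hc.eq]; group
    rw [e]
    exact mul_mem h3 (inv_mem (cj (hQ.nrm hvP) h3))
  have h5 := (PE.of_mem P.isPGroup' (mul_mem (inv_mem hx)
    (mul_mem (mul_mem hvP hx) (inv_mem hvP)))).eq_one hQ.cop h4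
  rw [inv_mul_eq_one, eq_mul_inv_iff_mul_eq] at h5
  have hxC : x ∈ centralizer ({v} : Set G) := mem_centralizer_singleton_iff.2 h5
  exact ⟨⟨x, hxC⟩, (hR _).2 hx, g1 (H.cen v h1) R hQ.cop (fun r hr => hQ.nrm ((hR r).1 hr)) h3
    (mul_mem (inv_mem hxC) (mem_centralizer_singleton_iff.2 hc.eq))⟩

omit H in
theorem exists_cen (P : Sylow p G) (h : (P : Subgroup G) ≠ ⊥) :
    ∃ z ∈ P, z ≠ 1 ∧ ∀ s ∈ P, Commute z s := by
  have := (P : Subgroup G).nontrivial_iff_ne_bot.2 h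
  have := P.isPGroup'.center_nontrivial
  obtain ⟨z, hz⟩ := exists_ne (1 : center (P : Subgroup G))
  exact ⟨z.1, z.1.2, fun h => hz (Subtype.ext (Subtype.ext h)), fun s hs =>
    (congrArg Subtype.val (mem_center_iff.1 z.2 ⟨s, hs⟩)).symm⟩

theorem Hyp.lemB (P : Sylow p G) {Q : Subgroup G} (hQ : Inv p P Q) {v : G} (hv : v ∈ P)
    (h1 : v ≠ 1) {u : G} (hu : u ∈ Q) (hc : Commute u v) : u ∈ centralizerPPrimeCore p v := by
  obtain ⟨z, hz, hz1, hzc⟩ := exists_cen P fun h => h1 (by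
    have : v ∈ (P : Subgroup G) := hv
    rwa [h, mem_bot] at this)
  have hzv := hzc v hv
  have hpc : PC p z := ⟨P, hz, hzc⟩
  have hpv := PE.of_mem P.isPGroup' hv
  have hθ := H74.theta_coprime p v
  have hN := H74.centralizer_le_normalizer_theta p v
  have huC : u ∈ centralizer ({v} : Set G) := mem_centralizer_singleton_iff.2 hc.eq
  have hzC : z ∈ centralizer ({v} : Set G) := mem_centralizer_singleton_iff.2 hzv.eq
  obtain ⟨R⟩ : Nonempty (Sylow p (centralizer ({v} : Set G))) := inferInstance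
  have h2 : u⁻¹ * z * u * z⁻¹ ∈ Q := by
    have := mul_mem (inv_mem hu) (cj (hQ.nrm hz) hu)
    simpa [mul_assoc] using this
  have h3 : u⁻¹ * z * u * z⁻¹ ∈ centralizerPPrimeCore p v := by
    obtain ⟨r, hr, h4⟩ := H.lemA hpv h1 R hpc hzv
    obtain ⟨r', hr', h5⟩ := H.lemA hpv h1 R (hpc.conj u⁻¹) (mem_centralizer_singleton_iff.1
      (mul_mem (mul_mem (inv_mem huC) hzC) (inv_mem (inv_mem huC))))
    have h6 : (r : G) * ((r' : G)⁻¹ * (u⁻¹ * z * u⁻¹⁻¹) * ((r : G)⁻¹ * z)⁻¹) * (r : G)⁻¹ ∈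
        centralizerPPrimeCore p v := cj (hN r.2) (mul_mem h5 (inv_mem h4))
    have e : u⁻¹ * z * u * z⁻¹ = ((r' * r⁻¹ : centralizer ({v} : Set G)) : G) *
        ((r : G) * ((r' : G)⁻¹ * (u⁻¹ * z * u⁻¹⁻¹) * ((r : G)⁻¹ * z)⁻¹) * (r : G)⁻¹) := by
      push_cast; group
    have h7 : PE p ((r' * r⁻¹ : centralizer ({v} : Set G)) : G) :=
      PE.of_mem (R.isPGroup'.map (centralizer ({v} : Set G)).subtype)
        ⟨_, mul_mem hr' (inv_mem hr), rfl⟩
    have h8 := reg_one hθ (hN (r' * r⁻¹).2) h7 h6 (e ▸ reg_of_mem hQ.cop h2)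
    rw [e, h8, one_mul]
    exact h6
  obtain ⟨y, hy, h4⟩ := fix (Y := Q ⊓ centralizerPPrimeCore p v) (a := u)
    (H22.coprime_card_of_le inf_le_left hQ.cop) hpc.pe hpc.pe fun y hy => by
      have e : u⁻¹ * (z * (u * y) * z⁻¹) = u⁻¹ * z * u * z⁻¹ * (z * y * z⁻¹) := by group
      rw [e]
      exact ⟨mul_mem h2 (cj (hQ.nrm hz) hy.1), mul_mem h3 (cj (hN hzC) hy.2)⟩
  have hPz : (P : Subgroup G) ≤ centralizer ({z} : Set G) := fun s hs =>
    mem_centralizer_singleton_iff.2 (hzc s hs).symm.eq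
  have h5 : u * y ∈ centralizerPPrimeCore p z :=
    g1 (H.cen z hz1) (P.subtype hPz) hQ.cop (fun r hr => hQ.nrm hr) (mul_mem hu hy.1)
      (mem_centralizer_singleton_iff.2 h4.symm)
  have h6 := H74.balance_of_constrained (H22.IsPSolvable.isPConstrained (H.cen v h1)) hpc.pe.grp
    hzv.eq ⟨h5, mul_mem huC (H74.theta_le p v hy.2)⟩
  simpa using mul_mem h6 (inv_mem hy.2)

/-- the shadow of a conjugate of a `p`-central element is again `p`-central -/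
theorem Hyp.shadow' (P : Sylow p G) {y : G} (hy : PC p y) :
    ∃ x ∈ P, PC p x ∧ ∃ Q : Subgroup G, Inv p P Q ∧ x⁻¹ * y ∈ Q := by
  obtain ⟨x, hx, Q, hQ, h⟩ := H.shadow P hy
  obtain ⟨k, -, hk⟩ := conj_pe hQ.cop (hQ.nrm hx) (PE.of_mem P.isPGroup' hx) hy.pe h
  refine ⟨x, hx, ?_, Q, hQ, h⟩
  have := hy.conj k⁻¹
  rwa [show k⁻¹ * y * k⁻¹⁻¹ = x by rw [hk]; group] at this

end Cfsg.Agent.H85.Sh
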